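import Mathlib
import Cfsg.Prelude.Def_Solvable
import Cfsg.Agent.Lib.Correspondences.CharKer
import Cfsg.Agent.Lib.CharTheory.Decomp
import Cfsg.Agent.Lib.Cores.Fitting
import Cfsg.Agent.Lib.Frobenius.Induce
import Cfsg.Agent.Lib.PSolvable.Basic

/-!
# The theorem of Broline and Garrison
-/

set_option autoImplicit false
set_option linter.style.haveILetI false
set_option linter.unusedSectionVars false

open scoped ComplexConjugate
open Cfsg CfsgLib CfsgLib.CharTheory

namespace CfsgLib.CharDegreesTheory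

noncomputable section

universe u

variable {G : Type u} [Group G] [Fintype G]

/-- Restriction to a supplement of the kernel stays irreducible. -/
theorem isIrrCharacter_res_supplement {χ : G → ℂ} (hχ : IsIrrCharacter G χ) (K : Subgroup G)
    [K.Normal] (hK : ∀ k ∈ K, χ k = χ 1) (H : Subgroup G) (hHK : H ⊔ K = ⊤) :
    IsIrrCharacter H (fun h : H => χ h) := by
  classical
  have := Fintype.ofFinite H
  have := Fintype.ofFinite K
  have := Fintype.ofFinite (H ⊓ K : Subgroup G)
  have hc : IsCharacter H (fun h : H => χ h) :=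
    CfsgLib.Coherence.isCharacter_comp (IsIrrCharacter.isCharacter hχ) H.subtype
  rw [isIrrCharacter_iff_norm_one hc, ← classInner_self_of_isIrr hχ]
  set F : G → ℂ := fun g => χ g * conj (χ g) with hF
  have hFK : ∀ (g : G), ∀ k ∈ K, F (g * k) = F g := fun g k hk => by
    simp only [hF]
    rw [Correspondences.apply_mul_of_mem_ker (IsIrrCharacter.isCharacter hχ) (hK k hk) g]
  have hcount : ∀ g : G, (Finset.univ.filter fun h : H => (h : G)⁻¹ * g ∈ K).card =
      Nat.card (H ⊓ K : Subgroup G) := by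
    intro g
    have hg : g ∈ ((H ⊔ K : Subgroup G) : Set G) := by rw [hHK]; exact Subgroup.mem_top g
    rw [Subgroup.mul_normal] at hg
    obtain ⟨h₀, hh₀, k₀, hk₀, rfl⟩ := Set.mem_mul.1 hg
    rw [← Fintype.card_subtype, ← Nat.card_eq_fintype_card]
    refine Nat.card_congr
      { toFun := fun h => ⟨h₀⁻¹ * (h : H), Subgroup.mem_inf.2
          ⟨H.mul_mem (H.inv_mem hh₀) (h : H).2, ?_⟩⟩
        invFun := fun u => ⟨⟨h₀ * (u : G), H.mul_mem hh₀ (Subgroup.mem_inf.1 u.2).1⟩, ?_⟩
        left_inv := fun h => Subtype.ext (Subtype.ext (by simp))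
        right_inv := fun u => Subtype.ext (by simp) }
    · have h2 := K.mul_mem hk₀ (K.inv_mem h.2)
      simpa [mul_assoc] using h2
    · show (h₀ * (u : G))⁻¹ * (h₀ * k₀) ∈ K
      simpa [mul_assoc] using K.mul_mem (K.inv_mem (Subgroup.mem_inf.1 u.2).2) hk₀
  have h1 : (Nat.card (H ⊓ K : Subgroup G) : ℂ) * ∑ g, F g = (Nat.card K : ℂ) * ∑ h : H, F h := by
    calc (Nat.card (H ⊓ K : Subgroup G) : ℂ) * ∑ g, F g
        = ∑ g, ∑ h : H, if (h : G)⁻¹ * g ∈ K then F g else 0 := by
          rw [Finset.mul_sum]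
          refine Finset.sum_congr rfl fun g _ => ?_
          rw [← Finset.sum_filter, Finset.sum_const, nsmul_eq_mul, hcount g]
      _ = ∑ h : H, ∑ g, if (h : G)⁻¹ * g ∈ K then F g else 0 := Finset.sum_comm
      _ = (Nat.card K : ℂ) * ∑ h : H, F h := by
          rw [Finset.mul_sum]
          refine Finset.sum_congr rfl fun h _ => ?_
          rw [← Equiv.sum_comp (Equiv.mulLeft (h : G))]
          simp only [Equiv.coe_mulLeft, inv_mul_cancel_left]
          rw [← Finset.sum_filter, Finset.sum_congr rfl fun k hk =>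
            hFK (h : G) k (Finset.mem_filter.1 hk).2, Finset.sum_const, nsmul_eq_mul]
          congr 2
          rw [Nat.card_eq_fintype_card, Fintype.card_subtype]
  have h2 : Nat.card G * Nat.card (H ⊓ K : Subgroup G) = Nat.card H * Nat.card K := by
    have e1 : K.relIndex H = K.index := by
      rw [← Subgroup.relIndex_sup_right, hHK, Subgroup.relIndex_top_right]
    have e2 := (K.subgroupOf H).card_mul_index
    rw [show (K.subgroupOf H).index = K.index from e1] at e2
    have e3 : Nat.card (K.subgroupOf H) = Nat.card (H ⊓ K : Subgroup G) := by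
      rw [← Subgroup.inf_subgroupOf_left,
        Nat.card_congr (Subgroup.subgroupOfEquivOfLe inf_le_left).toEquiv]
    rw [← K.card_mul_index, ← e2, e3]
    ring
  simp only [classInner]
  rw [show ∑ h : H, χ h * conj (χ h) = ∑ h : H, F h from rfl,
    show ∑ g : G, χ g * conj (χ g) = ∑ g, F g from rfl]
  have hG : (Nat.card G : ℂ) ≠ 0 := Nat.cast_ne_zero.2 Nat.card_pos.ne'
  have hH : (Nat.card H : ℂ) ≠ 0 := Nat.cast_ne_zero.2 Nat.card_pos.ne'
  have hK0 : (Nat.card K : ℂ) ≠ 0 := Nat.cast_ne_zero.2 Nat.card_pos.ne'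
  have hHK0 : (Nat.card (H ⊓ K : Subgroup G) : ℂ) ≠ 0 := Nat.cast_ne_zero.2 Nat.card_pos.ne'
  have h2' : (Nat.card G : ℂ) * (Nat.card (H ⊓ K : Subgroup G) : ℂ) =
      (Nat.card H : ℂ) * (Nat.card K : ℂ) := by exact_mod_cast h2
  field_simp
  refine mul_left_cancel₀ hK0 ?_
  linear_combination -(Nat.card G : ℂ) * h1 + (∑ g, F g) * h2'

/-- An irreducible constituent takes its degree where the character does. -/
theorem apply_eq_one_of_constituent {χ : G → ℂ} [Fintype (IrrCharacter G)]
    (m : IrrCharacter G → ℕ) (hχ : χ = ∑ ξ, (m ξ : ℂ) • (ξ : G → ℂ)) {g : G} (hg : χ g = χ 1)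
    (ξ : IrrCharacter G) (hξ : m ξ ≠ 0) : (ξ : G → ℂ) g = (ξ : G → ℂ) 1 := by
  have hle : ∀ η : IrrCharacter G, ((η : G → ℂ) g).re ≤ ((η : G → ℂ) 1).re := fun η =>
    (Complex.re_le_norm _).trans (IsCharacter.norm_le (IsIrrCharacter.isCharacter η.2) g)
  have hev : ∀ x, χ x = ∑ η, (m η : ℂ) * (η : G → ℂ) x := fun x => by
    rw [hχ]; simp [Finset.sum_apply]
  have hsum : ∑ η, (m η : ℝ) * (((η : G → ℂ) 1).re - ((η : G → ℂ) g).re) = 0 := by
    have h := congrArg Complex.re (hg.symm)
    rw [hev, hev, Complex.re_sum, Complex.re_sum] at h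
    simp only [Complex.mul_re, Complex.natCast_re, Complex.natCast_im, zero_mul, sub_zero] at h
    simp only [mul_sub, Finset.sum_sub_distrib, h, sub_self]
  have hz := (Finset.sum_eq_zero_iff_of_nonneg fun η _ =>
    mul_nonneg (Nat.cast_nonneg _) (sub_nonneg.2 (hle η))).1 hsum ξ (Finset.mem_univ _)
  have hre : ((ξ : G → ℂ) g).re = ((ξ : G → ℂ) 1).re :=
    (sub_eq_zero.1 ((mul_eq_zero.1 hz).resolve_left (Nat.cast_ne_zero.2 hξ))).symm
  obtain ⟨d, -, hd⟩ := exists_degree_of_isIrr ξ.2
  have hnorm := IsCharacter.norm_le (IsIrrCharacter.isCharacter ξ.2) g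
  rw [hd, Complex.natCast_re] at hre hnorm
  rw [hd]
  refine Complex.ext (by rw [hre, Complex.natCast_re]) ?_
  rw [Complex.natCast_im]
  have h1 : ‖(ξ : G → ℂ) g‖ = |((ξ : G → ℂ) g).re| := le_antisymm
    (by rw [hre, abs_of_nonneg (Nat.cast_nonneg d)]; exact hnorm) (Complex.abs_re_le_norm _)
  exact Complex.abs_re_eq_norm.1 h1.symm

/-- Frattini argument for a `p`-subgroup of prime-to-`p` index in a normal subgroup. -/
theorem normalizer_sup_eq_top_of_relIndex {p : ℕ} [Fact p.Prime] {Q D : Subgroup G} [D.Normal]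
    (hQ : IsPGroup p Q) (hle : Q ≤ D) (hidx : ¬ p ∣ Q.relIndex D) :
    Subgroup.normalizer (Q : Set G) ⊔ D = ⊤ := by
  have hQ' : IsPGroup p (Q.subgroupOf D) := hQ.comap_subtype
  have h := Sylow.normalizer_sup_eq_top (hQ'.toSylow hidx)
  rwa [show ((hQ'.toSylow hidx : Sylow p D) : Subgroup D) = Q.subgroupOf D from rfl,
    Subgroup.map_subgroupOf_eq_of_le hle] at h

/-- From a maximal supplement of the kernel a larger degree with smaller kernel arises, unless a
normal subgroup of it contains the support of the character. -/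
theorem exists_larger_degree (χ : IrrCharacter G) (K : Subgroup G) [K.Normal]
    (hK : ∀ g : G, g ∈ K ↔ (χ : G → ℂ) g = (χ : G → ℂ) 1) (H : Subgroup G) (hH : IsCoatom H)
    (hHK : H ⊔ K = ⊤)
    (hgood : ∀ D : Subgroup G, D.Normal → D ≤ H →
      (∀ h ∈ H, (χ : G → ℂ) h ≠ 0 → h ∈ D) → False) :
    ∃ ψ : IrrCharacter G, charDegree (χ : G → ℂ) < charDegree (ψ : G → ℂ) ∧
      ∃ L : Subgroup G, (∀ g : G, g ∈ L ↔ (ψ : G → ℂ) g = (ψ : G → ℂ) 1) ∧ L < K := by
  classical
  have := Fintype.ofFinite H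
  have := Fintype.ofFinite (IrrCharacter H)
  have := Fintype.ofFinite (IrrCharacter G)
  set θ : H → ℂ := fun h => (χ : G → ℂ) h with hθdef
  have hθ : IsIrrCharacter H θ :=
    isIrrCharacter_res_supplement χ.2 K (fun k hk => (hK k).1 hk) H hHK
  have hdeg : ∀ ψ : IrrCharacter G, ∃ d : ℕ, 0 < d ∧ (ψ : G → ℂ) 1 = d ∧
      charDegree (ψ : G → ℂ) = d := fun ψ => by
    obtain ⟨d, hd, hd1⟩ := exists_degree_of_isIrr ψ.2
    exact ⟨d, hd, hd1, by rw [charDegree, hd1, Complex.natCast_re, Nat.floor_natCast]⟩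
  choose d hdpos hd hdc using hdeg
  obtain ⟨m, hm⟩ := IsCharacter.exists_sum
    (Frobenius.isCharacter_indFun H θ (IsIrrCharacter.isCharacter hθ))
  have hres : ∀ ψ : IrrCharacter G, ∃ k : IrrCharacter H → ℕ,
      (fun h : H => (ψ : G → ℂ) h) = ∑ ξ, (k ξ : ℂ) • (ξ : H → ℂ) := fun ψ =>
    IsCharacter.exists_sum
      (CfsgLib.Coherence.isCharacter_comp (IsIrrCharacter.isCharacter ψ.2) H.subtype)
  choose k hk using hres
  have hmk : ∀ ψ : IrrCharacter G, m ψ = k ψ ⟨θ, hθ⟩ := fun ψ => by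
    have h1 : classInner (indFun H θ) (ψ : G → ℂ) = (m ψ : ℂ) := by
      rw [hm]; exact classInner_sum_irr _ ψ
    rw [Frobenius.classInner_indFun H θ _ (IsIrrCharacter.isClassFunction ψ.2),
      Frobenius.classInner_comm, hk, classInner_sum_irr _ ⟨θ, hθ⟩, Complex.conj_natCast] at h1
    exact_mod_cast h1.symm
  have hθ1 : θ 1 = (χ : G → ℂ) 1 := rfl
  by_cases hex : ∃ ψ : IrrCharacter G, m ψ ≠ 0 ∧ d χ < d ψ
  · obtain ⟨ψ, hψ, hlt⟩ := hex
    refine ⟨ψ, by rwa [hdc, hdc], Correspondences.charKer (IsIrrCharacter.isCharacter ψ.2),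
      fun g => Iff.rfl, ?_⟩
    set L := Correspondences.charKer (IsIrrCharacter.isCharacter ψ.2) with hL
    have hLn : L.Normal := Correspondences.charKer_normal _
    have hLH : L ≤ H := by
      by_contra hn
      have htop : H ⊔ L = ⊤ := hH.2 _ (lt_of_le_of_ne le_sup_left fun e =>
        hn (le_sup_right.trans e.symm.le))
      have hψH := isIrrCharacter_res_supplement ψ.2 L (fun g hg => hg) H htop
      have h0 : (k ψ ⟨θ, hθ⟩ : ℂ) ≠ 0 := Nat.cast_ne_zero.2 (hmk ψ ▸ hψ)
      have heq : (fun h : H => (ψ : G → ℂ) h) = θ := by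
        by_contra hne
        have h1 := classInner_eq_zero_of_ne hψH hθ hne
        rw [hk, classInner_sum_irr _ ⟨θ, hθ⟩] at h1
        exact h0 h1
      have h1 := congrFun heq 1
      simp only [hθ1, Subgroup.coe_one, hd] at h1
      exact hlt.ne' (by exact_mod_cast h1)
    have hLK : L ≤ K := fun g hg => by
      have h1 : (fun h : H => (ψ : G → ℂ) h) ⟨g, hLH hg⟩ = (fun h : H => (ψ : G → ℂ) h) 1 := hg
      exact (hK g).2 (apply_eq_one_of_constituent (k ψ) (hk ψ) h1 ⟨θ, hθ⟩ (hmk ψ ▸ hψ))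
    refine lt_of_le_of_ne hLK fun e => hH.1 ?_
    rw [eq_top_iff, ← hHK]
    exact sup_le le_rfl (e ▸ hLH)
  · push Not at hex
    exfalso
    have hψres : ∀ ψ, m ψ ≠ 0 → ∀ h : H, (ψ : G → ℂ) h = θ h := by
      intro ψ hψ h
      have hev : ∀ x : H, (ψ : G → ℂ) x = ∑ ξ, (k ψ ξ : ℂ) * (ξ : H → ℂ) x := fun x => by
        have := congrFun (hk ψ) x
        simpa [Finset.sum_apply] using this
      choose e hepos he using fun ξ : IrrCharacter H => exists_degree_of_isIrr ξ.2
      have h1 : d ψ = ∑ ξ, k ψ ξ * e ξ := by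
        have := hev 1
        simp only [Subgroup.coe_one, hd, he] at this
        exact_mod_cast this
      have heθ : e ⟨θ, hθ⟩ = d χ := by
        have := he ⟨θ, hθ⟩
        rw [show ((⟨θ, hθ⟩ : IrrCharacter H) : H → ℂ) 1 = θ 1 from rfl, hθ1, hd] at this
        exact_mod_cast this.symm
      rw [← Finset.add_sum_erase _ _ (Finset.mem_univ (⟨θ, hθ⟩ : IrrCharacter H)), heθ, ← hmk] at h1
      have h2 : d χ ≤ m ψ * d χ := Nat.le_mul_of_pos_left _ (Nat.pos_of_ne_zero hψ)
      have h3 := hex ψ hψ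
      have h4 : m ψ * d χ = 1 * d χ := by omega
      have h5 : ∑ ξ ∈ Finset.univ.erase (⟨θ, hθ⟩ : IrrCharacter H), k ψ ξ * e ξ = 0 := by omega
      have h6 : m ψ = 1 := Nat.eq_of_mul_eq_mul_right (hdpos χ) h4
      rw [hev, Finset.sum_eq_single ⟨θ, hθ⟩ (fun ξ _ hne => by
        have := (Finset.sum_eq_zero_iff.1 h5) ξ (Finset.mem_erase.2 ⟨hne, Finset.mem_univ _⟩)
        rw [(Nat.mul_eq_zero.1 this).resolve_right (hepos ξ).ne', Nat.cast_zero, zero_mul])
        (fun h => absurd (Finset.mem_univ _) h), ← hmk, h6, Nat.cast_one, one_mul]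
    have hind : ∀ h : H, indFun H θ h = (H.index : ℂ) * θ h := by
      intro h
      have hgen : ∀ h' : H, indFun H θ h' = (∑ ψ, (m ψ : ℂ)) * θ h' := fun h' => by
        rw [hm, Finset.sum_apply, Finset.sum_mul]
        refine Finset.sum_congr rfl fun ψ _ => ?_
        rw [Pi.smul_apply, smul_eq_mul]
        by_cases h0 : m ψ = 0
        · simp [h0]
        · rw [hψres ψ h0]
      have h1 := hgen 1
      rw [show indFun H θ ((1 : H) : G) = (H.index : ℂ) * θ 1 from Frobenius.indFun_one H θ] at h1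
      rw [hgen h, ← mul_right_cancel₀ (apply_one_ne_zero_of_isIrr hθ) h1]
    have hconj : ∀ h ∈ H, (χ : G → ℂ) h ≠ 0 → ∀ x : G, x⁻¹ * h * x ∈ H := by
      intro h hh hne
      have h1 := hind ⟨h, hh⟩
      simp only [indFun] at h1
      have hterm : ∀ x : G, extendByZero H θ (x⁻¹ * h * x) =
          if x⁻¹ * h * x ∈ H then (χ : G → ℂ) h else 0 := fun x => by
        split_ifs with hx
        · rw [Frobenius.extendByZero_of_mem H θ hx]
          have := IsIrrCharacter.isClassFunction χ.2 h x⁻¹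
          rw [inv_inv] at this
          exact this
        · rw [Frobenius.extendByZero_of_not_mem H θ hx]
      rw [Finset.sum_congr rfl fun x _ => hterm x, ← Finset.sum_filter, Finset.sum_const,
        nsmul_eq_mul, inv_mul_eq_iff_eq_mul₀ (Nat.cast_ne_zero.2 Nat.card_pos.ne'), ← mul_assoc,
        ← Nat.cast_mul, H.card_mul_index] at h1
      have h2 : (Finset.univ.filter fun x : G => x⁻¹ * h * x ∈ H).card = Fintype.card G := by
        have := mul_right_cancel₀ hne h1
        rw [Nat.card_eq_fintype_card] at this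
        exact_mod_cast this
      intro x
      have := Finset.eq_univ_of_card _ h2
      exact ((Finset.ext_iff.1 this x).2 (Finset.mem_univ x) |> Finset.mem_filter.1).2
    refine hgood (Subgroup.normalClosure {h : G | h ∈ H ∧ (χ : G → ℂ) h ≠ 0}) inferInstance ?_
      fun h hh hne => Subgroup.subset_normalClosure ⟨hh, hne⟩
    rw [Subgroup.normalClosure, Subgroup.closure_le]
    intro g hg
    obtain ⟨h, ⟨hh, hne⟩, hc⟩ := Group.mem_conjugatesOfSet_iff.1 hg
    obtain ⟨x, rfl⟩ := isConj_iff.1 hc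
    simpa using hconj h hh hne x⁻¹

/-- The Broline-Garrison theorem. -/
theorem broline_garrison (χ : IrrCharacter G) (K : Subgroup G) [K.Normal]
    (hK : ∀ g : G, g ∈ K ↔ (χ : G → ℂ) g = (χ : G → ℂ) 1)
    (h : ¬ K ≤ fittingSubgroup G ∨
      (K = fittingSubgroup G ∧ Group.IsSolvable (G ⧸ K) ∧ K ≠ ⊤)) :
    ∃ ψ : IrrCharacter G, charDegree (χ : G → ℂ) < charDegree (ψ : G → ℂ) ∧
      ∃ L : Subgroup G, (∀ g : G, g ∈ L ↔ (ψ : G → ℂ) g = (ψ : G → ℂ) 1) ∧ L < K := by
  classical
  have hχ1 := apply_one_ne_zero_of_isIrr χ.2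
  rcases h with hKF | ⟨hKF, hsol, hKtop⟩
  · obtain ⟨p, hp, P, hP⟩ : ∃ (p : ℕ) (_ : Fact p.Prime) (P : Sylow p K),
        ¬ ((P : Subgroup K).map K.subtype).Normal := by
      by_contra hall
      push Not at hall
      refine hKF (Cores.le_fittingSubgroup ((Group.isNilpotent_of_finite_tfae.out 0 3).2 ?_))
      intro p hp P
      have hn := hall p hp P
      have := hn.subgroupOf K
      rwa [Subgroup.subgroupOf, Subgroup.comap_map_eq_self_of_injective K.subtype_injective] at this
    set P' := (P : Subgroup K).map K.subtype with hP'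
    have hPK : P' ≤ K := Subgroup.map_subtype_le _
    have hsup : Subgroup.normalizer (P' : Set G) ⊔ K = ⊤ := Sylow.normalizer_sup_eq_top P
    obtain ⟨H, hH, hle⟩ := (eq_top_or_exists_le_coatom
      (Subgroup.normalizer (P' : Set G))).resolve_left fun e => hP (Subgroup.normalizer_eq_top_iff.1 e)
    refine exists_larger_degree χ K hK H hH
      (eq_top_iff.2 (hsup ▸ sup_le_sup_right hle K)) fun D hD hDH hsupp => ?_
    have : (D ⊓ K).Normal := inferInstance
    have hPD : P' ≤ D ⊓ K := fun g hg => by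
      refine Subgroup.mem_inf.2 ⟨hsupp g (hle (Subgroup.le_normalizer hg)) ?_, hPK hg⟩
      rw [(hK g).1 (hPK hg)]
      exact hχ1
    have hidx : ¬ p ∣ P'.relIndex (D ⊓ K) := fun hd => by
      refine P.not_dvd_index ?_
      have e : (P : Subgroup K).index = P'.relIndex K := by
        rw [Subgroup.relIndex, hP', Subgroup.subgroupOf,
          Subgroup.comap_map_eq_self_of_injective K.subtype_injective]
      rw [e, ← Subgroup.relIndex_mul_relIndex P' (D ⊓ K) K hPD inf_le_right]
      exact dvd_mul_of_dvd_left hd _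
    refine hH.1 (eq_top_iff.2 ?_)
    rw [← normalizer_sup_eq_top_of_relIndex (P.2.map K.subtype) hPD hidx]
    exact sup_le hle (inf_le_left.trans hDH)
  · have : Nontrivial (G ⧸ K) := QuotientGroup.nontrivial_iff.2 hKtop
    obtain ⟨q, hq, hO⟩ : ∃ q : ℕ, ∃ _ : Fact q.Prime, pCore q (G ⧸ K) ≠ ⊥ := by
      by_contra hall
      push Not at hall
      exact Cores.fittingSubgroup_ne_bot (G := G ⧸ K)
        (Cores.fittingSubgroup_eq_bot_iff.2 fun q hq => hall q ⟨hq⟩)
    set π := QuotientGroup.mk' K with hπ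
    set L0 := (pCore q (G ⧸ K)).comap π with hL0
    have hL0n : L0.Normal := Subgroup.Normal.comap inferInstance π
    have hKL0 : K ≤ L0 := fun x hx => by
      show π x ∈ pCore q (G ⧸ K)
      rw [show π x = 1 from (QuotientGroup.eq_one_iff x).2 hx]
      exact one_mem _
    have hKL0' : K < L0 := lt_of_le_of_ne hKL0 fun e => hO (by
      rw [← Subgroup.map_comap_eq_self_of_surjective (QuotientGroup.mk'_surjective K)
        (pCore q (G ⧸ K)), ← hL0, ← e, Subgroup.map_eq_bot_iff, QuotientGroup.ker_mk'])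
    obtain ⟨L, ⟨hLn, hKL, hLL0⟩, hmin⟩ := exists_minimal_of_wellFoundedLT
      (fun L : Subgroup G => L.Normal ∧ K < L ∧ L ≤ L0) ⟨L0, hL0n, hKL0', le_rfl⟩
    obtain ⟨s, hs⟩ : ∃ s, K.relIndex L = q ^ s := by
      rw [PSolvable.relIndex_eq_card_map]
      exact IsPGroup.iff_card.1 ((Cores.isPGroup_pCore q (G ⧸ K)).to_le (by
        rw [Subgroup.map_le_iff_le_comap]; exact hLL0))
    obtain ⟨Q⟩ := (inferInstance : Nonempty (Sylow q L))
    set Q' := (Q : Subgroup L).map L.subtype with hQ'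
    have hQL : Q' ≤ L := Subgroup.map_subtype_le _
    have hQidx : ¬ q ∣ Q'.relIndex L := by
      rw [Subgroup.relIndex, hQ', Subgroup.subgroupOf,
        Subgroup.comap_map_eq_self_of_injective L.subtype_injective]
      exact Q.not_dvd_index
    have hQK : L = Q' ⊔ K := by
      refine le_antisymm ?_ (sup_le hQL hKL.le)
      rw [← Subgroup.relIndex_eq_one]
      have h1 : (Q' ⊔ K).relIndex L ∣ Q'.relIndex L := Subgroup.relIndex_dvd_of_le_left L le_sup_left
      have h2 : (Q' ⊔ K).relIndex L ∣ q ^ s := hs ▸ Subgroup.relIndex_dvd_of_le_left L le_sup_right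
      exact Nat.eq_one_of_dvd_coprimes
        ((hq.out.coprime_iff_not_dvd.2 hQidx).symm.pow_right s) h1 h2
    have hQ'p : IsPGroup q Q' := Q.2.map L.subtype
    have hsup : Subgroup.normalizer (Q' : Set G) ⊔ L = ⊤ := Sylow.normalizer_sup_eq_top Q
    obtain ⟨H, hH, hle⟩ := (eq_top_or_exists_le_coatom
      (Subgroup.normalizer (Q' : Set G))).resolve_left fun e => by
        have hn : Q'.Normal := Subgroup.normalizer_eq_top_iff.1 e
        have hQF : Q' ≤ K := hKF ▸ Cores.le_fittingSubgroup hQ'p.isNilpotent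
        exact hKL.ne (le_antisymm hKL.le (hQK ▸ sup_le hQF le_rfl))
    have hHK : H ⊔ K = ⊤ := by
      rw [eq_top_iff, ← hsup, hQK]
      exact sup_le (hle.trans le_sup_left)
        (sup_le (Subgroup.le_normalizer.trans (hle.trans le_sup_left)) le_sup_right)
    refine exists_larger_degree χ K hK H hH hHK fun D hD hDH hsupp => ?_
    have hDL : (D ⊓ L).Normal := inferInstance
    have hnotK : ¬ D ⊓ L ≤ K := by
      intro hDK
      have hvan : ∀ l ∈ L, l ∉ K → (χ : G → ℂ) l = 0 := by
        intro l hl hlK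
        have hmem : l ∈ ((H ⊔ K : Subgroup G) : Set G) := by rw [hHK]; exact Subgroup.mem_top l
        rw [Subgroup.mul_normal] at hmem
        obtain ⟨a, ha, b, hb, rfl⟩ := Set.mem_mul.1 hmem
        rw [Correspondences.apply_mul_of_mem_ker (IsIrrCharacter.isCharacter χ.2) ((hK b).1 hb)]
        by_contra hne
        have haL : a ∈ L := by simpa using L.mul_mem hl (L.inv_mem (hKL.le hb))
        exact hlK (K.mul_mem (hDK (Subgroup.mem_inf.2 ⟨hsupp a ha hne, haL⟩)) hb)
      have := Fintype.ofFinite L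
      obtain ⟨x, hxL, hxK⟩ := SetLike.exists_of_lt hKL
      have h0 := Correspondences.sum_coset_eq_zero χ.2 L
        ⟨x, hxL, fun e => hxK ((hK x).2 e)⟩ 1
      simp only [one_mul] at h0
      rw [← Finset.sum_filter_add_sum_filter_not Finset.univ (fun l : L => (l : G) ∈ K),
        Finset.sum_congr rfl (fun (l : L) (hl : l ∈ Finset.univ.filter fun l : L => (l : G) ∈ K) =>
          (hK (l : G)).1 (Finset.mem_filter.1 hl).2),
        Finset.sum_eq_zero (s := Finset.univ.filter fun l : L => ¬ (l : G) ∈ K)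
          fun l hl => hvan l l.2 (Finset.mem_filter.1 hl).2,
        add_zero, Finset.sum_const, nsmul_eq_mul, mul_eq_zero] at h0
      refine h0.elim (fun h => ?_) hχ1
      exact Finset.card_ne_zero_of_mem (a := (1 : L))
        (Finset.mem_filter.2 ⟨Finset.mem_univ _, one_mem K⟩) (Nat.cast_eq_zero.1 h)
    have hEK : D ⊓ L ⊔ K = L := by
      have hn : (D ⊓ L ⊔ K).Normal := inferInstance
      have hle' : D ⊓ L ⊔ K ≤ L := sup_le inf_le_right hKL.le
      refine le_antisymm hle' (hmin ⟨hn, ?_, hle'.trans hLL0⟩ hle')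
      exact lt_of_le_of_ne le_sup_right fun e => hnotK (le_sup_left.trans e.symm.le)
    set E := D ⊓ L ⊔ pCore q G ⊓ L with hE
    have hEn : E.Normal := inferInstance
    have hEH : E ≤ H := by
      refine sup_le (inf_le_left.trans hDH) ?_
      refine le_trans ?_ (Subgroup.le_normalizer.trans hle)
      intro g hg
      obtain ⟨hg1, hg2⟩ := Subgroup.mem_inf.1 hg
      have hn : ((pCore q G).subgroupOf L).Normal := inferInstance
      have hp' : IsPGroup q ((pCore q G).subgroupOf L) := (Cores.isPGroup_pCore q G).comap_subtype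
      exact ⟨⟨g, hg2⟩, hp'.le_sylow_of_normal Q (show (⟨g, hg2⟩ : L) ∈ _ from hg1), rfl⟩
    obtain ⟨S⟩ := (inferInstance : Nonempty (Sylow q K))
    have hSE : (S : Subgroup K).map K.subtype ≤ E := by
      have hKnil : Group.IsNilpotent K := by rw [hKF]; exact Cores.isNilpotent_fittingSubgroup
      have hSn : (S : Subgroup K).Normal :=
        (((Group.isNilpotent_of_finite_tfae (G := K)).out 0 3 :
          Group.IsNilpotent K ↔ ∀ (p : ℕ) (_ : Fact p.Prime) (P : Sylow p K),
            (↑P : Subgroup K).Normal)).1 hKnil q hq S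
      have hKN : K ≤ Subgroup.normalizer (((S : Subgroup K).map K.subtype : Subgroup G) : Set G) :=
        fun k hk => Subgroup.le_normalizer_map K.subtype
          ⟨⟨k, hk⟩, by rw [Subgroup.normalizer_eq_top]; exact Subgroup.mem_top _, rfl⟩
      have hN : Subgroup.normalizer (((S : Subgroup K).map K.subtype : Subgroup G) : Set G) = ⊤ := by
        rw [eq_top_iff, ← Sylow.normalizer_sup_eq_top S]
        exact sup_le le_rfl hKN
      have : ((S : Subgroup K).map K.subtype).Normal := Subgroup.normalizer_eq_top_iff.1 hN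
      exact le_sup_of_le_right (le_inf (Cores.le_pCore (S.2.map K.subtype))
        ((Subgroup.map_subtype_le _).trans hKL.le))
    have hEidx : ¬ q ∣ E.relIndex L := by
      have hsupL : K ⊔ E = L := le_antisymm (sup_le hKL.le (sup_le inf_le_right inf_le_right))
        (hEK.symm.le.trans (sup_le (le_sup_of_le_right le_sup_left) le_sup_left))
      rw [← hsupL, Subgroup.relIndex_sup_right]
      intro hd
      refine S.not_dvd_index (hd.trans ?_)
      refine dvd_trans (Subgroup.relIndex_dvd_of_le_left K hSE) (dvd_of_eq ?_)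
      rw [Subgroup.relIndex, Subgroup.subgroupOf,
        Subgroup.comap_map_eq_self_of_injective K.subtype_injective]
    have hQE : Q' ≤ E := by
      rw [← Subgroup.relIndex_eq_one]
      obtain ⟨t, ht⟩ := IsPGroup.iff_card.1 hQ'p
      have h1 : E.relIndex Q' ∣ q ^ t := ht ▸ (E.subgroupOf Q').index_dvd_card
      have h2 : E.relIndex Q' ∣ E.relIndex L := PSolvable.relIndex_dvd_of_le_right E hQL
      exact Nat.eq_one_of_dvd_coprimes ((hq.out.coprime_iff_not_dvd.2 hEidx).pow_left t) h1 h2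
    refine hH.1 (eq_top_iff.2 ?_)
    rw [← normalizer_sup_eq_top_of_relIndex hQ'p hQE fun hd => hQidx (by
      rw [← Subgroup.relIndex_mul_relIndex Q' E L hQE (sup_le inf_le_right inf_le_right)]
      exact dvd_mul_of_dvd_left hd _)]
    exact sup_le hle hEH

/-- Degrees of `G/F(G)` miss the largest degree of `G`, for solvable non-nilpotent `G`. -/
theorem exists_degree_not_mem_quotient [Group.IsSolvable G] (hG : fittingSubgroup G ≠ ⊤) :
    ∃ χ : IrrCharacter G, ∀ ψ : IrrCharacter G,
      (∀ g ∈ fittingSubgroup G, (ψ : G → ℂ) g = (ψ : G → ℂ) 1) →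
        charDegree (ψ : G → ℂ) ≠ charDegree (χ : G → ℂ) := by
  classical
  have := Fintype.ofFinite (IrrCharacter G)
  obtain ⟨χ, -, hmax⟩ := Finset.exists_max_image (Finset.univ : Finset (IrrCharacter G))
    (fun ψ => charDegree (ψ : G → ℂ)) ⟨trivIrr G, Finset.mem_univ _⟩
  refine ⟨χ, fun ψ hψ he => ?_⟩
  set K := Correspondences.charKer (IsIrrCharacter.isCharacter ψ.2) with hK
  have : K.Normal := Correspondences.charKer_normal _
  have hle : fittingSubgroup G ≤ K := fun g hg => hψ g hg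
  have hyp : ¬ K ≤ fittingSubgroup G ∨
      (K = fittingSubgroup G ∧ Group.IsSolvable (G ⧸ K) ∧ K ≠ ⊤) := by
    by_cases h : K ≤ fittingSubgroup G
    · exact Or.inr ⟨le_antisymm h hle, inferInstance,
        fun e => hG (le_antisymm le_top (e ▸ h))⟩
    · exact Or.inl h
  obtain ⟨φ, hlt, -⟩ := broline_garrison ψ K (fun g => Iff.rfl) hyp
  exact absurd (hmax φ (Finset.mem_univ _)) (not_le.2 (he ▸ hlt))

end

end CfsgLib.CharDegreesTheory
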