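import Cfsg.Agent.S4492
import Cfsg.Agent.S4436
import Cfsg.Agent.Lib.CharDegreesTheory.CoprimeExtension
import Cfsg.Agent.Lib.Clifford.Gallagher
import Cfsg.Agent.Lib.RealChar.DegreeRatio
import Cfsg.Agent.Lib.CyclicTI.InducedSys
import Cfsg.Agent.Lib.PSolvable.HallHigman
import Cfsg.Agent.Lib.BrauerCharacters.ClassMul

/-!
# Heights in `p`-solvable groups
-/

set_option autoImplicit false
set_option linter.style.haveILetI false
set_option linter.unusedSectionVars false

noncomputable section

namespace CfsgLib.CharDegreesTheory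

open Cfsg CfsgLib CfsgLib.CharTheory

universe u

/-- An invariant character of a coprime normal subgroup with abelian quotient stays of the same
degree. -/
theorem apply_one_eq_of_coprime_abelian {L : Type*} [Group L] [Fintype L] (N : Subgroup L)
    [hN : N.Normal] [Fintype N] (hcop : (Nat.card N).Coprime N.index)
    (hab : ∀ a b : L, a * b * a⁻¹ * b⁻¹ ∈ N) {θ : N → ℂ} (hθ : IsIrrCharacter N θ)
    (hinv : ∀ g : L, Clifford.conjChar N θ g = θ) {φ : L → ℂ} (hφ : IsIrrCharacter L φ)
    (hover : classInner (fun n : N => φ n) θ ≠ 0) : φ 1 = θ 1 := by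
  classical
  obtain ⟨χ, hχ, hext⟩ := exists_extension_of_coprime N hcop θ hθ fun g n => by
    rw [← congrFun (hinv g) n, Clifford.conjChar_eq_comp]
  set one : N → ℂ := fun _ => 1
  have hone : IsIrrCharacter N one := isIrrCharacter_one
  have hprod : one * θ = θ := funext fun n => one_mul _
  have h := Clifford.gallagher_bijOn (φ := one) hone (fun g => rfl) hinv (by rwa [hprod]) hχ hext
  have hmem : φ ∈ {ψ : L → ℂ | IsIrrCharacter L ψ ∧ classInner (indFun N (one * θ)) ψ ≠ 0} := by
    refine ⟨hφ, ?_⟩
    rw [hprod, Frobenius.classInner_indFun _ _ _ (IsIrrCharacter.isClassFunction hφ),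
      classInner_conj_symm]
    simpa using hover
  obtain ⟨β, ⟨hβ, hβ1⟩, rfl⟩ := h.surjOn hmem
  have hb : classInner (fun n : N => β n) one ≠ 0 := by
    rw [Frobenius.classInner_indFun _ _ _ (IsIrrCharacter.isClassFunction hβ),
      classInner_conj_symm] at hβ1
    simpa using hβ1
  have hres := Clifford.res_eq_of_invariant N hβ hone (fun g => rfl) hb
  have hker : ∀ a ∈ N, β a = β 1 := fun a ha => by
    have h1 := congrFun hres ⟨a, ha⟩
    have h2 := congrFun hres 1
    simp only [Pi.smul_apply, one, Subgroup.coe_one] at h1 h2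
    rw [h1, h2]
  have hcom : commutator L ≤ N := by
    rw [commutator_def, Subgroup.commutator_le]
    intro a _ b _
    exact hab a b
  have hβone := CyclicTI.apply_one_eq_one_of_commutator hβ fun a ha => hker a (hcom ha)
  show β 1 * χ 1 = θ 1
  rw [hβone, one_mul, ← hext 1]
  rfl

theorem index_center_congr {A B : Type*} [Group A] [Group B] [Finite A] (e : A ≃* B) :
    (Subgroup.center A).index = (Subgroup.center B).index := by
  have : Finite B := Finite.of_equiv A e.toEquiv
  have h1 := (Subgroup.center A).card_mul_index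
  rw [Nat.card_congr e.toEquiv, ← (Subgroup.center B).card_mul_index,
    ← Nat.card_congr (Subgroup.centerCongr e).toEquiv] at h1
  exact Nat.eq_of_mul_eq_mul_left Nat.card_pos h1

variable {p : ℕ} [hp : Fact p.Prime]

/-- The `p`-part of a degree over an invariant character of the `p'`-core. -/
theorem factorization_degree_le_of_invariant {G : Type*} [Group G] [Fintype G]
    (hsolv : IsPSolvable p G) (N : Subgroup G) [hN : N.Normal] [Fintype N]
    (hNdef : N = pPrimeCore p G) (θ : IrrCharacter N)
    (hinv : ∀ g : G, Clifford.conjChar N (θ : N → ℂ) g = θ) (χ : IrrCharacter G)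
    (hover : classInner (fun n : N => (χ : G → ℂ) n) (θ : N → ℂ) ≠ 0) (P : Sylow p G) :
    (charDegree (χ : G → ℂ)).factorization p ≤
      (Subgroup.center (P : Subgroup G)).index.factorization p := by
  classical
  have hNp : ¬ p ∣ Nat.card N := by subst hNdef; exact Cores.not_dvd_card_pPrimeCore
  have hbot : pPrimeCore p (G ⧸ N) = ⊥ := by
    subst hNdef; exact Cores.pPrimeCore_quotient_pPrimeCore p
  set π := QuotientGroup.mk' N with hπ
  set Qb := pCore p (G ⧸ N) with hQb
  have hQbp : IsPGroup p Qb := Cores.isPGroup_pCore p (G ⧸ N)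
  have hQbn : Qb.Normal := inferInstance
  -- the preimage of the centre of the p-core
  set Zb : Subgroup (G ⧸ N) := Qb ⊓ Subgroup.centralizer (Qb : Set (G ⧸ N)) with hZb
  have hZbn : Zb.Normal := inferInstance
  set L := Zb.comap π with hL
  have hLn : L.Normal := hZbn.comap π
  have hNL : N ≤ L := fun x hx => by
    show π x ∈ Zb
    rw [show π x = 1 from (QuotientGroup.eq_one_iff x).2 hx]
    exact one_mem _
  have hab : ∀ a ∈ L, ∀ b ∈ L, a * b * a⁻¹ * b⁻¹ ∈ N := by
    intro a ha b hb
    refine (QuotientGroup.eq_one_iff _).1 ?_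
    show π (a * b * a⁻¹ * b⁻¹) = 1
    rw [map_mul, map_mul, map_mul, map_inv, map_inv,
      Subgroup.mem_centralizer_iff.1 (Subgroup.mem_inf.1 (hb : π b ∈ Zb)).2 (π a)
        (Subgroup.mem_inf.1 (ha : π a ∈ Zb)).1]
    group
  -- it contains the centre of the Sylow subgroup
  set Z := (Subgroup.center (P : Subgroup G)).map (P : Subgroup G).subtype with hZ
  have hQP : Qb ≤ (P : Subgroup G).map π := by
    obtain ⟨S, hS⟩ := hQbp.exists_le_sylow
    obtain ⟨c, hc⟩ := MulAction.exists_smul_eq (G ⧸ N) S
      (P.mapSurjective (QuotientGroup.mk'_surjective N))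
    intro x hx
    have hx' : c⁻¹ * x * c ∈ (S : Subgroup (G ⧸ N)) := hS (by simpa using hQbn.conj_mem x hx c⁻¹)
    have h1 : x ∈ ((c • S : Sylow p (G ⧸ N)) : Subgroup (G ⧸ N)) := by
      rw [Sylow.coe_subgroup_smul, Subgroup.mem_pointwise_smul_iff_inv_smul_mem]
      simpa [MulAut.inv_def, MulAut.smul_def, mul_assoc] using hx'
    rw [hc] at h1
    exact h1
  have hZL : Z ≤ L := by
    rintro _ ⟨z, hz, rfl⟩
    have hcz : π (z : G) ∈ Subgroup.centralizer (Qb : Set (G ⧸ N)) := by
      rw [Subgroup.mem_centralizer_iff]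
      intro y hy
      obtain ⟨u, hu, rfl⟩ := hQP hy
      rw [← map_mul, ← map_mul]
      exact congrArg π (congrArg Subtype.val (Subgroup.mem_center_iff.1 hz ⟨u, hu⟩))
    exact Subgroup.mem_inf.2
      ⟨PSolvable.centralizer_pCore_le (PSolvable.isPSolvable_quotient hsolv N) hbot hcz, hcz⟩
  -- a constituent on `L`
  have := Fintype.ofFinite L
  obtain ⟨φ, hφ⟩ := BlockLocal.exists_constituent L χ
  obtain ⟨r, hr, hdeg⟩ := RealChar.degree_div_dvd_index L χ.2 φ.2 hφ
  set N' := N.subgroupOf L
  have := Fintype.ofFinite N'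
  set σ := Subgroup.subgroupOfEquivOfLe hNL
  set θ' : N' → ℂ := fun x => (θ : N → ℂ) (σ x) with hθ'
  have hθ'i : IsIrrCharacter N' θ' := CharTheory.isIrrCharacter_comp_mulEquiv θ.2 σ
  have hover' : classInner (fun x : N' => (φ : L → ℂ) x) θ' ≠ 0 := by
    obtain ⟨ξ, hξ⟩ := BlockLocal.exists_constituent N' φ
    by_cases he : (ξ : N' → ℂ) = θ'
    · rwa [he] at hξ
    exfalso
    have hres := Clifford.res_eq_of_invariant N χ.2 θ.2 hinv hover
    have h0 : classInner (fun x : N' => (χ : G → ℂ) ((x : L) : G)) (ξ : N' → ℂ) = 0 := by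
      rw [show (fun x : N' => (χ : G → ℂ) ((x : L) : G)) =
          classInner (fun n : N => (χ : G → ℂ) n) (θ : N → ℂ) • θ' from
        funext fun x => congrFun hres (σ x), classInner_smul_left,
        classInner_eq_zero_of_ne hθ'i ξ.2 (Ne.symm he), mul_zero]
    have := Fintype.ofFinite (IrrCharacter L)
    obtain ⟨m, hm⟩ := IsCharacter.exists_sum
      (Coherence.isCharacter_comp (IsIrrCharacter.isCharacter χ.2) L.subtype)
    have hk : ∀ ψ : IrrCharacter L, ∃ k : ℕ,
        classInner (fun x : N' => (ψ : L → ℂ) x) (ξ : N' → ℂ) = k := fun ψ =>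
      IsCharacter.exists_classInner_eq_nat
        (Coherence.isCharacter_comp (IsIrrCharacter.isCharacter ψ.2) N'.subtype) ξ
    choose k hk using hk
    have hmφ : m φ ≠ 0 := by
      intro h0'
      apply hφ
      rw [show (fun l : L => (χ : G → ℂ) l) = _ from hm, classInner_sum_irr, h0', Nat.cast_zero]
    have hsum : ((∑ ψ, m ψ * k ψ : ℕ) : ℂ) = 0 := by
      rw [← h0, show (fun x : N' => (χ : G → ℂ) ((x : L) : G)) =
          ∑ ψ : IrrCharacter L, (m ψ : ℂ) • (fun x : N' => (ψ : L → ℂ) x) from funext fun x => by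
        have := congrFun hm (x : L)
        simpa using this, classInner_sum_left]
      push_cast
      exact Finset.sum_congr rfl fun ψ _ => by rw [classInner_smul_left, hk]
    have h1 := Finset.sum_eq_zero_iff.1 (Nat.cast_eq_zero.1 hsum) φ (Finset.mem_univ _)
    exact hξ (by rw [hk, (Nat.mul_eq_zero.1 h1).resolve_left hmφ, Nat.cast_zero])
  have hLp : IsPGroup p Zb := hQbp.to_le inf_le_left
  have hidx : N'.index = Nat.card Zb := by
    have h1 : Nat.card L = Nat.card N * Nat.card Zb := by
      have h1 := L.card_mul_index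
      rw [show L.index = Zb.index from
          Zb.index_comap_of_surjective (QuotientGroup.mk'_surjective N),
        Subgroup.card_eq_card_quotient_mul_card_subgroup N, ← Zb.card_mul_index] at h1
      refine Nat.eq_of_mul_eq_mul_right
        (Nat.pos_of_ne_zero (Subgroup.index_ne_zero_of_finite (H := Zb))) ?_
      rw [h1]; ring
    have h2 := N'.card_mul_index
    rw [Nat.card_congr σ.toEquiv, h1] at h2
    exact Nat.eq_of_mul_eq_mul_left Nat.card_pos h2
  have hcop : (Nat.card N').Coprime N'.index := by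
    obtain ⟨k, hk⟩ := IsPGroup.iff_card.1 hLp
    rw [hidx, hk, Nat.card_congr σ.toEquiv]
    exact ((hp.out.coprime_iff_not_dvd.2 hNp).symm).pow_right k
  have hd : (φ : L → ℂ) 1 = θ' 1 :=
    apply_one_eq_of_coprime_abelian N' hcop
      (fun a b => Subgroup.mem_subgroupOf.2 (hab a a.2 b b.2)) hθ'i (fun g => by
        funext x
        refine Eq.trans ?_ (congrFun (hinv (g : G)) (σ x))
        rw [Clifford.conjChar_apply, Clifford.conjChar_apply]
        exact congrArg (θ : N → ℂ) (Subtype.ext rfl)) φ.2 hover'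
  have hdeg' : charDegree (χ : G → ℂ) = r * charDegree (θ : N → ℂ) := by
    have h : (charDegree (χ : G → ℂ) : ℂ) = ((r * charDegree (θ : N → ℂ) : ℕ) : ℂ) := by
      rw [Nat.cast_mul, ← (BrauerCharacters.charDegree_spec χ).1,
        ← (BrauerCharacters.charDegree_spec θ).1, hdeg, hd, hθ']
      simp
    exact_mod_cast h
  obtain ⟨-, hθpos, hθd⟩ := BrauerCharacters.charDegree_spec θ
  have hθp : (charDegree (θ : N → ℂ)).factorization p = 0 :=
    Nat.factorization_eq_zero_of_not_dvd fun h => hNp (h.trans hθd)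
  have hr0 : r ≠ 0 := fun h => by
    rw [h, zero_mul] at hdeg'
    exact (BrauerCharacters.charDegree_spec χ).2.1.ne' hdeg'
  rw [hdeg', Nat.factorization_mul hr0 hθpos.ne', Finsupp.add_apply, hθp, add_zero]
  refine le_trans ((Nat.factorization_le_iff_dvd hr0 Subgroup.index_ne_zero_of_finite).2 hr p) ?_
  -- compare the indices
  have hG : (Nat.card (P : Subgroup G)).factorization p = (Nat.card G).factorization p := by
    rw [P.card_eq_multiplicity, Nat.Prime.factorization_pow hp.out, Finsupp.single_eq_same]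
  have h1 := congrArg (fun n => n.factorization p) L.card_mul_index
  have h2 := congrArg (fun n => n.factorization p)
    (Subgroup.center (P : Subgroup G)).card_mul_index
  simp only [Nat.factorization_mul Nat.card_pos.ne' Subgroup.index_ne_zero_of_finite,
    Finsupp.add_apply] at h1 h2
  have h3 : (Nat.card (Subgroup.center (P : Subgroup G))).factorization p ≤
      (Nat.card L).factorization p := by
    have hd := Subgroup.card_dvd_of_le hZL
    rw [hZ, Subgroup.card_map_of_injective (P : Subgroup G).subtype_injective] at hd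
    exact (Nat.factorization_le_iff_dvd Nat.card_pos.ne' Nat.card_pos.ne').2 hd p
  omega

/-- The height of a character of a `p`-solvable group is bounded through a defect group. -/
theorem blockHeight_le_aux (n : ℕ) : ∀ (G : Type u) [Group G] [Fintype G], Nat.card G = n →
    IsPSolvable p G → ∀ {M : Ideal AlgInt}, IsPModular p M →
    ∀ (B : Set (IrrCharacter G)), IsPBlock M B → ∀ (D : Subgroup G), IsDefectGroup p M B D →
    ∀ χ ∈ B, blockHeight p B (χ : G → ℂ) ≤ (Subgroup.center D).index.factorization p := by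
  induction n using Nat.strong_induction_on with
  | _ n ih =>
  intro G _ _ hn hsolv M hM B hB D hD χ hχ
  classical
  have := Blocks.isPrime_of_isPModular hM
  set N := pPrimeCore p G with hNdef
  have hNn : N.Normal := inferInstance
  have := Fintype.ofFinite N
  have hNp : ¬ p ∣ Nat.card N := Cores.not_dvd_card_pPrimeCore
  obtain ⟨θ, hθ⟩ := BlockLocal.exists_constituent N χ
  set b : Set (IrrCharacter N) := {θ}
  have hb : IsPBlock M b := isPBlock_singleton hM hNp θ
  set T := inertiaOf N (θ : N → ℂ) with hTdef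
  have hmem : ∀ g : G, g ∈ T ↔ Clifford.conjChar N (θ : N → ℂ) g = θ := fun g => Iff.rfl
  by_cases htop : T = ⊤
  · have hinv : ∀ g : G, Clifford.conjChar N (θ : N → ℂ) g = θ := fun g =>
      (hmem g).1 (htop ▸ Subgroup.mem_top g)
    obtain ⟨B₀, hB₀, hiff, -, hdef⟩ := Cfsg.Agent.S4492.result p M hM hsolv N hNdef θ fun g n => by
      refine Eq.trans ?_ (congrFun (hinv g) n)
      rw [Clifford.conjChar_apply]
    have he : B = B₀ := Blocks.isPBlock_eq_of_mem hB hB₀ hχ ((hiff χ).2 hθ)
    obtain ⟨P, hP⟩ := hdef D (he ▸ hD)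
    subst hP
    exact le_trans (Nat.sub_le _ _)
      (factorization_degree_le_of_invariant hsolv N hNdef θ hinv χ hθ P)
  · have hlt : Nat.card T < n := by
      rw [← hn]
      exact lt_of_le_of_ne (Nat.le_of_dvd Nat.card_pos (Subgroup.card_subgroup_dvd_card T))
        fun h => htop (Subgroup.eq_top_of_card_eq T h)
    have hNT : N ≤ T := fun x hx => by
      rw [hmem]
      funext m
      rw [Clifford.conjChar_apply]
      exact Eq.trans (congrArg (θ : N → ℂ) (Subtype.ext rfl))
        (IsIrrCharacter.isClassFunction θ.2 m ⟨x, hx⟩)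
    have := Fintype.ofFinite T
    have hTiff : ∀ g : G, g ∈ T ↔ ∀ η ∈ b, ∀ η' : IrrCharacter N,
        (∀ m : N, (η' : N → ℂ) m = (η : N → ℂ) ⟨g * m * g⁻¹, hNn.conj_mem m m.2 g⟩) →
          η' ∈ b := by
      intro g
      rw [hmem]
      constructor
      · intro hg η hη η' h
        have hη' : η = θ := hη
        show η' = θ
        refine Subtype.ext (funext fun m => ?_)
        rw [h m, hη', ← congrFun hg m, Clifford.conjChar_apply]
      · intro h
        have h' : (⟨_, Clifford.isIrrCharacter_conjChar N θ.2 g⟩ : IrrCharacter N) = θ :=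
          h θ rfl ⟨_, Clifford.isIrrCharacter_conjChar N θ.2 g⟩ fun m =>
            Clifford.conjChar_apply N (θ : N → ℂ) g m
        exact congrArg Subtype.val h'
    have hT' : ∀ g : G, g ∈ T ↔ ∀ η ∈ b, BlockLocal.conjIrr N g η ∈ b := by
      intro g
      rw [← inv_mem_iff, hmem]
      constructor
      · intro h η hη
        have hη' : η = θ := hη
        show BlockLocal.conjIrr N g η = θ
        refine Subtype.ext ?_
        rw [hη', ← h, ← conjIrr_inv_eq_conjChar, inv_inv]
      · intro h
        have h' := congrArg Subtype.val (h θ rfl)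
        rwa [← inv_inv g, conjIrr_inv_eq_conjChar] at h'
    obtain ⟨ψ, hψ, hχψ⟩ := exists_indFun_eq hb hT' hNT χ (Set.mem_singleton θ) hθ
    set B' := blockOf M (ψ : T → ℂ)
    have hB' : IsPBlock M B' := Blocks.isPBlock_blockOf ψ
    have hψB : ψ ∈ B' := Blocks.mem_blockOf_self ψ
    obtain ⟨B₁, hind, -, hmemB⟩ := exists_induced_block hb hT' hNT hB' ⟨ψ, hψB, hψ⟩
    have he : B = B₁ :=
      Blocks.isPBlock_eq_of_mem hB hind.2.1 hχ ((hmemB χ).2 ⟨ψ, hψB, hχψ⟩)
    subst he
    obtain ⟨hdef, hheight⟩ := Cfsg.Agent.S4436.result p M hM N b hb T hTiff hNT B' hB'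
      ⟨ψ, hψB, hψ⟩ B hind
    obtain ⟨χ', -, hχ', hh⟩ := hheight ψ hψB
    rw [← hχψ] at hχ'
    rw [hχ'] at hh
    rw [hh]
    obtain ⟨D', hD'⟩ := BrauerPairs.exists_isDefectGroup hM hB'
    obtain ⟨a, ha⟩ := Blocks.isDefectGroup_conj_exists hM hB (hdef D' hD') hD
    rw [← ha, ← index_center_congr ((Subgroup.equivMapOfInjective D' T.subtype T.subtype_injective).trans
      (Subgroup.equivMapOfInjective _ (MulAut.conj a).toMonoidHom (MulAut.conj a).injective))]
    exact ih _ hlt T rfl (PSolvable.isPSolvable_subgroup hsolv T) hM B' hB' D' hD' ψ hψB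

theorem blockHeight_le {G : Type u} [Group G] [Fintype G] (hsolv : IsPSolvable p G)
    {M : Ideal AlgInt} (hM : IsPModular p M) {B : Set (IrrCharacter G)} (hB : IsPBlock M B)
    {D : Subgroup G} (hD : IsDefectGroup p M B D) {χ : IrrCharacter G} (hχ : χ ∈ B) :
    blockHeight p B (χ : G → ℂ) ≤ (Subgroup.center D).index.factorization p :=
  blockHeight_le_aux _ G rfl hsolv hM B hB D hD χ hχ

end CfsgLib.CharDegreesTheory
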