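import Mathlib
import Cfsg.Agent.Lib.TwoGroups.RankOne
import Cfsg.Agent.Lib.CharTheory.Ito
import Cfsg.Agent.Lib.Frobenius.Induce
import Cfsg.Agent.Lib.Blocks.Defect

/-!
An abelian `p`-group acting on an abelian `p'`-group with all nontrivial elements having the same
fixed points is cyclic; degrees are bounded by the index of an abelian subgroup.
-/

set_option autoImplicit false
set_option linter.unusedSectionVars false

namespace CfsgLib.CharDegreesTheory

open Finset

/-- An abelian `p`-group acting faithfully on a finite abelian group of order prime to `p` in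
which every nontrivial element fixes only the common fixed points is cyclic. -/
theorem isCyclic_of_semiregular {p : ℕ} [hp : Fact p.Prime] {S L : Type*} [CommGroup S] [Finite S]
    [CommGroup L] [Finite L] (hS : IsPGroup p S) (hL : ¬ p ∣ Nat.card L) (φ : S →* MulAut L)
    (hφ : Function.Injective φ)
    (hfix : ∀ s : S, s ≠ 1 → ∀ v : L, φ s v = v → ∀ t : S, φ t v = v) : IsCyclic S := by
  classical
  refine CfsgLib.TwoGroups.isCyclic_of_uniqueOrderP_comm (p := p) hS ?_
  intro x y hx hy
  by_contra hne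
  have hppos := hp.out.pos
  have hy1 : y ≠ 1 := fun h => by rw [h, orderOf_one] at hy; exact hp.out.one_lt.ne hy
  have hxi : ∀ i : ℕ, x * y ^ i ≠ 1 := fun i h => hne (by
    have hle : Subgroup.zpowers x ≤ Subgroup.zpowers y := by
      rw [Subgroup.zpowers_le, eq_inv_of_mul_eq_one_left h]
      exact inv_mem (pow_mem (Subgroup.mem_zpowers y) i)
    rw [Subgroup.eq_of_le_of_card_ge hle (by rw [Nat.card_zpowers, Nat.card_zpowers, hx, hy])]
    exact Subgroup.mem_zpowers y)
  have hxy1 : x * y ^ 0 ≠ 1 := hxi 0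
  have hnormFix : ∀ g : S, orderOf g = p → ∀ v : L,
      φ g (∏ i ∈ range p, φ (g ^ i) v) = ∏ i ∈ range p, φ (g ^ i) v := by
    intro g hg v
    rw [map_prod]
    simp only [← MulAut.mul_apply, ← map_mul, ← pow_succ']
    have h := Finset.prod_range_succ' (fun i => φ (g ^ i) v) p
    rw [Finset.prod_range_succ] at h
    simp only [pow_zero, show g ^ p = 1 by rw [← hg, pow_orderOf_eq_one]] at h
    exact (mul_right_cancel h).symm
  have hord : ∀ g : S, g ≠ 1 → g ^ p = 1 → orderOf g = p := fun g h1 h => orderOf_eq_prime h h1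
  have hyp : y ^ p = 1 := by rw [← hy, pow_orderOf_eq_one]
  have hxp : x ^ p = 1 := by rw [← hx, pow_orderOf_eq_one]
  have hall : ∀ v : L, ∀ t : S, φ t v = v := by
    intro v
    let Nrm : S → L := fun g => ∏ i ∈ range p, φ (g ^ i) v
    have hN : ∀ g : S, g ≠ 1 → g ^ p = 1 → ∀ t, φ t (Nrm g) = Nrm g := fun g h1 h =>
      hfix g h1 _ (hnormFix g (hord g h1 h) v)
    have hperm : ∀ j ∈ Finset.Ico 1 p, ∏ i ∈ range p, φ (y ^ (i * j)) v = Nrm y := by
      intro j hj
      rw [Finset.mem_Ico] at hj
      have hcop : Nat.Coprime j p := ((hp.out.coprime_iff_not_dvd).2 fun h =>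
        absurd (Nat.le_of_dvd (by omega) h) (by omega)).symm
      have hinj : Set.InjOn (fun i => i * j % p) (range p : Finset ℕ) := by
        intro a ha b hb hab
        simp only [Finset.coe_range, Set.mem_Iio] at ha hb
        have h1 : a * j ≡ b * j [MOD p] := hab
        exact Nat.ModEq.eq_of_lt_of_lt (Nat.ModEq.cancel_right_of_coprime hcop.symm h1) ha hb
      have himg : (range p).image (fun i => i * j % p) = range p := Finset.eq_of_subset_of_card_le
        (fun a ha => by
          obtain ⟨i, -, rfl⟩ := Finset.mem_image.1 ha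
          exact Finset.mem_range.2 (Nat.mod_lt _ hppos))
        (by rw [Finset.card_image_of_injOn hinj])
      calc ∏ i ∈ range p, φ (y ^ (i * j)) v = ∏ i ∈ range p, φ (y ^ (i * j % p)) v :=
            Finset.prod_congr rfl fun i _ => by rw [← pow_eq_pow_mod _ hyp]
        _ = ∏ k ∈ (range p).image (fun i => i * j % p), φ (y ^ k) v :=
            (Finset.prod_image (f := fun k => φ (y ^ k) v) hinj).symm
        _ = Nrm y := by rw [himg]
    have key : ∏ i ∈ range p, Nrm (x * y ^ i) =
        v ^ p * ∏ j ∈ Finset.Ico 1 p, φ (x ^ j) (Nrm y) := by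
      simp only [Nrm, mul_pow, ← pow_mul, map_mul, MulAut.mul_apply]
      rw [Finset.prod_comm, Finset.range_eq_Ico, Finset.prod_eq_prod_Ico_succ_bot hppos]
      congr 1
      · simp
      · refine Finset.prod_congr rfl fun j hj => ?_
        rw [← Finset.range_eq_Ico, ← map_prod, hperm j hj]
    have hvp : ∀ t, φ t (v ^ p) = v ^ p := by
      intro t
      have h1 : φ t (∏ i ∈ range p, Nrm (x * y ^ i)) = ∏ i ∈ range p, Nrm (x * y ^ i) := by
        rw [map_prod]
        refine Finset.prod_congr rfl fun i _ => hN _ (hxi i) ?_ t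
        rw [mul_pow, hxp, ← pow_mul, mul_comm i p, pow_mul, hyp, one_pow, one_mul]
      have h2 : φ t (∏ j ∈ Finset.Ico 1 p, φ (x ^ j) (Nrm y)) =
          ∏ j ∈ Finset.Ico 1 p, φ (x ^ j) (Nrm y) := by
        rw [map_prod]
        exact Finset.prod_congr rfl fun j _ => by rw [hN y hy1 hyp (x ^ j), hN y hy1 hyp t]
      rw [key, map_mul, h2] at h1
      exact mul_right_cancel h1
    intro t
    refine (powCoprime ((hp.out.coprime_iff_not_dvd).2 hL).symm).injective ?_
    show (φ t v) ^ p = v ^ p
    rw [← map_pow]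
    exact hvp t
  exact hy1 (hφ (MulEquiv.ext fun v => by rw [hall v y, map_one, MulAut.one_apply]))

/-- If all moved points have stabilisers of the same order, an element with a fixed point outside
the common fixed points is trivial. -/
theorem fix_of_equal_stabilizers {S L : Type*} [CommGroup S] [Finite S] [CommGroup L] [Finite L]
    (hcop : Nat.Coprime (Nat.card S) (Nat.card L)) (φ : S →* MulAut L) (hφ : Function.Injective φ)
    (N : ℕ) (h : ∀ v : L, (∃ t, φ t v ≠ v) → Nat.card {s : S // φ s v = v} = N) :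
    ∀ s : S, s ≠ 1 → ∀ v : L, φ s v = v → ∀ t : S, φ t v = v := by
  classical
  intro s hs v hsv t
  by_contra htv
  let K : Subgroup S :=
    { carrier := {k | φ k v = v}
      one_mem' := by simp
      mul_mem' := fun {k l} hk hl => by
        show φ (k * l) v = v
        rw [map_mul, MulAut.mul_apply, show φ l v = v from hl]
        exact hk
      inv_mem' := fun {k} hk => by
        show φ k⁻¹ v = v
        conv_lhs => rw [← show φ k v = v from hk]
        rw [← MulAut.mul_apply, ← map_mul, inv_mul_cancel, map_one, MulAut.one_apply] }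
  have hsK : s ∈ K := hsv
  obtain ⟨μ, hμ⟩ : ∃ μ : L, φ s μ ≠ μ := by
    by_contra hno
    push Not at hno
    exact hs (hφ (MulEquiv.ext fun w => by rw [hno w, map_one, MulAut.one_apply]))
  haveI := Fintype.ofFinite K
  let Nm : L →* L :=
    { toFun := fun w => ∏ k : K, φ k w
      map_one' := by simp
      map_mul' := fun x y => by simp [Finset.prod_mul_distrib] }
  have hNfix : ∀ k ∈ K, ∀ w, φ k (Nm w) = Nm w := by
    intro k hk w
    show φ k (∏ l : K, φ l w) = ∏ l : K, φ l w
    rw [map_prod]
    exact Fintype.prod_equiv (Equiv.mulLeft (⟨k, hk⟩ : K)) _ _ fun l => by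
      rw [← MulAut.mul_apply, ← map_mul]; rfl
  have hNpow : ∀ w, (∀ k ∈ K, φ k w = w) → Nm w = w ^ Nat.card K := by
    intro w hw
    show ∏ k : K, φ k w = _
    rw [Finset.prod_congr rfl fun (k : K) _ => hw k k.2, Finset.prod_const, Finset.card_univ,
      Nat.card_eq_fintype_card]
  have hNcomm : ∀ u w, φ u (Nm w) = Nm (φ u w) := by
    intro u w
    show φ u (∏ l : K, φ l w) = ∏ l : K, φ l (φ u w)
    rw [map_prod]
    refine Finset.prod_congr rfl fun l _ => ?_
    rw [← MulAut.mul_apply, ← MulAut.mul_apply, ← map_mul, ← map_mul, mul_comm]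
  have hinj : Function.Injective fun w : L => w ^ Nat.card K :=
    (powCoprime (hcop.coprime_dvd_left (Subgroup.card_subgroup_dvd_card K)).symm).injective
  set μ' := μ ^ Nat.card K * (Nm μ)⁻¹ with hμ'
  have hμ's : φ s μ' ≠ μ' := by
    intro e
    rw [hμ', map_mul, map_inv, hNfix s hsK μ, map_pow, mul_left_inj] at e
    exact hμ (hinj e)
  have hNμ' : Nm μ' = 1 := by
    rw [hμ', map_mul, map_pow, map_inv, hNpow (Nm μ) fun k hk => hNfix k hk μ, mul_inv_cancel]
  set ν := v * μ' with hν
  have hsub : ∀ u, φ u ν = ν → u ∈ K ∧ φ u μ' = μ' := by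
    intro u hu
    have h1 := hNcomm u ν
    rw [hu, hν, map_mul, hNμ', mul_one, hNpow v fun k hk => hk, map_pow] at h1
    have h2 : φ u v = v := hinj h1
    refine ⟨h2, ?_⟩
    rw [hν, map_mul, h2] at hu
    exact mul_left_cancel hu
  have hνm : φ t ν ≠ ν := fun e => htv (hsub t e).1
  let F : {u : S // φ u ν = ν} → K := fun u => ⟨u.1, (hsub u.1 u.2).1⟩
  have hF : Function.Bijective F := by
    refine (Nat.bijective_iff_injective_and_card F).2
      ⟨fun a b e => Subtype.ext (congrArg (fun z : K => (z : S)) e), ?_⟩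
    rw [h ν ⟨t, hνm⟩, ← h v ⟨t, htv⟩]
    rfl
  obtain ⟨u, hu⟩ := hF.2 ⟨s, hsK⟩
  have hus : (u : S) = s := congrArg (fun z : K => (z : S)) hu
  exact hμ's (hus ▸ (hsub u.1 u.2).2)

open Cfsg CfsgLib.CharTheory in
/-- A degree is at most the index of an abelian subgroup. -/
theorem charDegree_le_index_of_comm {G : Type*} [Group G] [Finite G] (A : Subgroup G)
    (hA : ∀ a ∈ A, ∀ b ∈ A, a * b = b * a) (χ : IrrCharacter G) :
    charDegree (χ : G → ℂ) ≤ A.index := by
  classical
  have : Fintype G := Fintype.ofFinite G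
  have := Fintype.ofFinite (IrrCharacter G)
  obtain ⟨ν, hν⟩ := exists_constituent A (IsIrrCharacter.isCharacter χ.2)
    (apply_one_ne_zero_of_isIrr χ.2)
  have hν1 : (ν : A → ℂ) 1 = 1 :=
    apply_one_eq_one_of_comm (fun a b => Subtype.ext (hA a a.2 b b.2)) ν.2
  obtain ⟨c, hc⟩ := IsCharacter.exists_sum (CfsgLib.Frobenius.isCharacter_indFun A (ν : A → ℂ)
    (IsIrrCharacter.isCharacter ν.2))
  have hcχ : c χ ≠ 0 := by
    intro h0
    have h := CfsgLib.CharTheory.classInner_sum_irr (fun φ => (c φ : ℂ)) χ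
    rw [← hc, CfsgLib.Frobenius.classInner_indFun A _ _ (IsIrrCharacter.isClassFunction χ.2),
      CfsgLib.CharTheory.classInner_conj_symm, h0, Nat.cast_zero] at h
    exact hν (by simpa using h)
  have h1 := congrFun hc 1
  rw [CfsgLib.Frobenius.indFun_one, hν1, mul_one, Finset.sum_apply] at h1
  simp only [Pi.smul_apply, smul_eq_mul, ← CfsgLib.Blocks.charDegree_cast] at h1
  have h2 : A.index = ∑ φ, c φ * charDegree (φ : G → ℂ) := by exact_mod_cast h1
  rw [h2]
  exact le_trans (Nat.le_mul_of_pos_left _ (Nat.pos_of_ne_zero hcχ))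
    (Finset.single_le_sum (f := fun φ => c φ * charDegree (φ : G → ℂ)) (fun _ _ => Nat.zero_le _)
      (Finset.mem_univ χ))

end CfsgLib.CharDegreesTheory
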