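import Cfsg.Agent.Lib.CharDegreesTheory.ThreeDegreesSolvable
import Cfsg.Agent.Lib.CharDegreesTheory.SemiregularDual
import Cfsg.Agent.Lib.CharDegreesTheory.CoprimeExtension
import Cfsg.Agent.Lib.Cores.PCore

/-!
# Groups with two degrees and trivial `p`-core have cyclic `p`-subgroups
-/

set_option autoImplicit false
set_option linter.style.haveILetI false
set_option linter.unusedSectionVars false

namespace CfsgLib.CharDegreesTheory.ThreeDegrees

open Cfsg CfsgLib.CharTheory CfsgLib.Clifford CfsgLib.CharDegreesTheory.SmallDegrees Finset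
open scoped ComplexConjugate commutatorElement

universe u

theorem normal_of_commutator_le {G : Type u} [Group G] {H : Subgroup G} (h : commutator G ≤ H) :
    H.Normal :=
  ⟨fun x hx g => by
    have h1 : ⁅g, x⁆ ∈ H := h (by
      rw [commutator_def]; exact Subgroup.commutator_mem_commutator trivial trivial)
    have h2 := H.mul_mem h1 hx
    rwa [commutatorElement_def, inv_mul_cancel_right] at h2⟩

/-- A linear character of a restriction is the restriction. -/
theorem eq_res_of_linear {G : Type u} [Group G] [Fintype G] (H : Subgroup G) [Fintype H]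
    (φ : IrrCharacter G) (hφ : charDegree (φ : G → ℂ) = 1) {η : H → ℂ} (hη : IsIrrCharacter H η)
    (h : classInner (fun x : H => (φ : G → ℂ) x) η ≠ 0) (x : H) : (φ : G → ℂ) x = η x := by
  obtain ⟨μ, hμ⟩ := exists_hom_of_degree_one φ.2 (by rw [charDegree_one, hφ, Nat.cast_one])
  have hres : IsIrrCharacter H (fun x : H => (φ : G → ℂ) x) := by
    rw [hμ]
    exact isIrrCharacter_linear (μ.comp H.subtype)
  by_contra hne
  exact h (classInner_eq_zero_of_ne hres hη fun e => hne (congrFun e x))

/-- In a group with degrees `1`, `a` and abelian derived subgroup whose `p`-core is trivial, the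
`p`-subgroups are cyclic, and `p` divides `a` as soon as it divides the order. -/
theorem isCyclic_of_two_degrees {Q : Type u} [Group Q] [Finite Q] {p : ℕ} [hp : Fact p.Prime]
    {a : ℕ} (ha : 0 < a)
    (hdeg : ∀ χ : IrrCharacter Q, charDegree (χ : Q → ℂ) = 1 ∨ charDegree (χ : Q → ℂ) = a)
    (hab : ∀ x ∈ commutator Q, ∀ y ∈ commutator Q, x * y = y * x) (hcore : pCore p Q = ⊥)
    (R : Sylow p Q) : IsCyclic (R : Subgroup Q) ∧ (p ∣ Nat.card Q → p ∣ a) := by
  classical
  haveI := Fintype.ofFinite Q
  haveI := Fintype.ofFinite (IrrCharacter Q)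
  set A := commutator Q with hAdef
  haveI : Fintype A := Fintype.ofFinite A
  -- `A` has order prime to `p`
  have hAp : ¬ p ∣ Nat.card A := by
    intro hd
    let Om : Subgroup Q :=
      { carrier := {y | y ∈ A ∧ y ^ p = 1}
        one_mem' := ⟨A.one_mem, one_pow p⟩
        mul_mem' := fun {x y} hx hy =>
          ⟨A.mul_mem hx.1 hy.1, by rw [Commute.mul_pow (hab x hx.1 y hy.1), hx.2, hy.2, one_mul]⟩
        inv_mem' := fun {x} hx => ⟨A.inv_mem hx.1, by rw [inv_pow, hx.2, inv_one]⟩ }
    haveI : Om.Normal := ⟨fun x hx g => ⟨(inferInstance : A.Normal).conj_mem x hx.1 g, by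
      rw [conj_pow, hx.2, mul_one, mul_inv_cancel]⟩⟩
    have hOm : IsPGroup p Om := fun x => ⟨1, Subtype.ext (by
      rw [pow_one, Subgroup.coe_pow, Subgroup.coe_one]; exact x.2.2)⟩
    obtain ⟨x, hx⟩ := exists_prime_orderOf_dvd_card' p hd
    have h1 : (x : Q) ∈ pCore p Q := CfsgLib.Cores.le_pCore hOm
      ⟨x.2, by rw [← Subgroup.coe_pow, ← hx, pow_orderOf_eq_one, Subgroup.coe_one]⟩
    rw [hcore, Subgroup.mem_bot] at h1
    rw [show x = 1 from Subtype.ext h1, orderOf_one] at hx
    exact hp.out.one_lt.ne hx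
  set S := (R : Subgroup Q) with hSdef
  obtain ⟨k, hk⟩ := IsPGroup.iff_card.1 R.2
  have hcop : Nat.Coprime (Nat.card S) (Nat.card A) := by
    rw [show Nat.card S = p ^ k from hk]
    exact ((hp.out.coprime_iff_not_dvd).2 hAp).pow_left k
  have hdis : ∀ x, x ∈ A → x ∈ S → x = 1 := fun x hxA hxS => orderOf_eq_one_iff.1
    (Nat.eq_one_of_dvd_coprimes hcop (Subgroup.orderOf_dvd_natCard S hxS)
      (Subgroup.orderOf_dvd_natCard A hxA))
  have hScomm : ∀ s t : S, s * t = t * s := fun s t => Subtype.ext (commutatorElement_eq_one_iff_mul_comm.1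
    (hdis _ (by rw [hAdef, commutator_def]
                exact Subgroup.commutator_mem_commutator trivial trivial)
      (S.mul_mem (S.mul_mem (S.mul_mem s.2 t.2) (S.inv_mem s.2)) (S.inv_mem t.2))))
  letI instS : CommGroup S := { (inferInstance : Group S) with mul_comm := hScomm }
  letI instA : CommGroup A :=
    { (inferInstance : Group A) with mul_comm := fun x y => Subtype.ext (hab x x.2 y y.2) }
  haveI : Finite (A →* ℂˣ) := Finite.of_injective
    (fun l => (⟨_, isIrrCharacter_linear l⟩ : IrrCharacter A))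
    fun l l' e => linear_inj (congrArg Subtype.val e)
  have hLp : ¬ p ∣ Nat.card (A →* ℂˣ) := by
    intro hd
    obtain ⟨l, hl⟩ := exists_prime_orderOf_dvd_card' p hd
    have h1 : l ^ Nat.card A = 1 := MonoidHom.ext fun x => by
      rw [MonoidHom.pow_apply, ← map_pow, pow_card_eq_one', map_one, MonoidHom.one_apply]
    exact hAp (hl ▸ orderOf_dvd_of_pow_eq_one h1)
  -- the action on the dual
  let cn : Q → A →* A := fun g => (MulAut.conjNormal g : MulAut A).toMonoidHom
  have hcn : ∀ g h : Q, ∀ x : A, cn g (cn h x) = cn (g * h) x := fun g h x => by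
    simp only [cn, MulEquiv.coe_toMonoidHom, ← MulAut.mul_apply, ← map_mul]
  have hcn1 : ∀ x : A, cn 1 x = x := fun x => by simp [cn]
  let φ : S →* MulAut (A →* ℂˣ) :=
    { toFun := fun s =>
        { toFun := fun l => l.comp (cn (s : Q)⁻¹)
          invFun := fun l => l.comp (cn (s : Q))
          left_inv := fun l => MonoidHom.ext fun x => by
            show l (cn (s : Q)⁻¹ (cn (s : Q) x)) = l x
            rw [hcn, inv_mul_cancel, hcn1]
          right_inv := fun l => MonoidHom.ext fun x => by
            show l (cn (s : Q) (cn (s : Q)⁻¹ x)) = l x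
            rw [hcn, mul_inv_cancel, hcn1]
          map_mul' := fun l l' => rfl }
      map_one' := MulEquiv.ext fun l => MonoidHom.ext fun x => by
        show l (cn ((1 : S) : Q)⁻¹ x) = l x
        rw [OneMemClass.coe_one, inv_one, hcn1]
      map_mul' := fun s t => MulEquiv.ext fun l => MonoidHom.ext fun x => by
        show l (cn ((s * t : S) : Q)⁻¹ x) = l (cn (t : Q)⁻¹ (cn (s : Q)⁻¹ x))
        rw [hcn, Subgroup.coe_mul, mul_inv_rev] }
  let lf : (A →* ℂˣ) → A → ℂ := fun l x => (l x : ℂ)
  let T : (A →* ℂˣ) → Subgroup Q := fun l => CharTheory.inertia A (lf l)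
  have hmemT : ∀ (l : A →* ℂˣ) (g : Q), g ∈ T l ↔ ∀ x : A, l (cn g x) = l x := fun l g => by
    rw [CharTheory.mem_inertia, conjChar_eq_comp, funext_iff]
    exact forall_congr' fun x => ⟨fun h => Units.ext h, fun h => congrArg (Units.val) h⟩
  have hfixiff : ∀ (l : A →* ℂˣ) (s : S), φ s l = l ↔ s ∈ (T l).subgroupOf S := fun l s => by
    rw [Subgroup.mem_subgroupOf, ← Subgroup.inv_mem_iff, hmemT]
    exact ⟨fun h x => DFunLike.congr_fun h x, fun h => MonoidHom.ext h⟩
  have hφ : Function.Injective φ := by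
    rw [← MonoidHom.ker_eq_bot_iff, eq_bot_iff]
    intro s hs
    rw [MonoidHom.mem_ker] at hs
    have hcent : ∀ x : A, cn (s : Q)⁻¹ x = x := by
      intro x
      by_contra hne
      obtain ⟨χ, hχ⟩ := exists_irr_apply_ne (g := (cn (s : Q)⁻¹ x)⁻¹ * x)
        fun e => hne (inv_mul_eq_one.1 e)
      obtain ⟨l, hl⟩ := exists_hom_of_degree_one χ.2
        (apply_one_eq_one_of_comm (fun x y => mul_comm x y) χ.2)
      apply hχ
      have h1 : l (cn (s : Q)⁻¹ x) = l x := DFunLike.congr_fun (DFunLike.congr_fun hs l) x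
      rw [hl]
      simp [h1]
    have hc : ∀ x ∈ A, (s : Q) * x = x * (s : Q) := fun x hx => by
      have h1 := congrArg Subtype.val (hcent ⟨x, hx⟩)
      simp only [cn, MulEquiv.coe_toMonoidHom, MulAut.conjNormal_apply, inv_inv] at h1
      calc (s : Q) * x = (s : Q) * ((s : Q)⁻¹ * x * s) := by rw [h1]
        _ = x * s := by group
    have hcentral : ∀ g : Q, g * (s : Q) * g⁻¹ = s := by
      intro g
      have hcA : ⁅g, (s : Q)⁆ ∈ A := by
        rw [hAdef, commutator_def]; exact Subgroup.commutator_mem_commutator trivial trivial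
      have hy : g * (s : Q) * g⁻¹ = ⁅g, (s : Q)⁆ * s := by
        rw [commutatorElement_def, inv_mul_cancel_right]
      have h1 : (g * (s : Q) * g⁻¹) ^ Nat.card S = 1 := by
        rw [conj_pow, ← Subgroup.coe_pow, pow_card_eq_one', Subgroup.coe_one, mul_one, mul_inv_cancel]
      rw [hy, Commute.mul_pow (hc _ hcA).symm, ← Subgroup.coe_pow, pow_card_eq_one',
        Subgroup.coe_one, mul_one] at h1
      rw [hy, orderOf_eq_one_iff.1 (Nat.eq_one_of_dvd_coprimes hcop (orderOf_dvd_of_pow_eq_one h1)
        (Subgroup.orderOf_dvd_natCard A hcA)), one_mul]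
    haveI : (Subgroup.zpowers (s : Q)).Normal := ⟨fun x hx g => by
      obtain ⟨i, rfl⟩ := Subgroup.mem_zpowers_iff.1 hx
      rw [← conj_zpow, hcentral g]
      exact Subgroup.zpow_mem _ (Subgroup.mem_zpowers _) i⟩
    have h2 := CfsgLib.Cores.le_pCore
      (R.2.to_le ((Subgroup.zpowers_le).2 s.2)) (Subgroup.mem_zpowers (s : Q))
    rw [hcore, Subgroup.mem_bot] at h2
    rw [Subgroup.mem_bot]
    exact Subtype.ext h2
  -- the orbit sizes
  have key : ∀ l : A →* ℂˣ, (∃ t, φ t l ≠ l) → (T l).relIndex S = ordProj[p] a := by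
    intro l hmoved
    obtain ⟨t, ht⟩ := hmoved
    have hAT : A ≤ T l := CharTheory.le_inertia A
      (IsIrrCharacter.isClassFunction (isIrrCharacter_linear l))
    haveI := normal_of_commutator_le hAT
    have hnot : ∀ χ : IrrCharacter Q, charDegree (χ : Q → ℂ) = 1 →
        ¬ ∀ x : A, (χ : Q → ℂ) x = (l x : ℂ) := by
      intro χ hχ hres
      apply ht
      rw [hfixiff, Subgroup.mem_subgroupOf, hmemT]
      intro x
      refine Units.ext ?_
      rw [← hres, ← hres]
      show (χ : Q → ℂ) ((MulAut.conjNormal (t : Q) x : A) : Q) = _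
      rw [MulAut.conjNormal_apply, IsIrrCharacter.isClassFunction χ.2 (x : Q) (t : Q)]
    have hTa : (T l).index ∣ a := by
      obtain ⟨χ, hχ⟩ := exists_over A (⟨lf l, isIrrCharacter_linear l⟩ : IrrCharacter A)
      obtain ⟨e, he⟩ := IsCharacter.exists_classInner_eq_nat (G := A)
        (CfsgLib.Coherence.isCharacter_comp (IsIrrCharacter.isCharacter χ.2) A.subtype)
        (⟨lf l, isIrrCharacter_linear l⟩ : IrrCharacter A)
      have he' : classInner (fun n : A => (χ : Q → ℂ) n) (lf l) = (e : ℂ) := he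
      have h1 := apply_one_eq A χ.2 (isIrrCharacter_linear l) hχ
      rw [card_conjOrbit A (lf l) (T l) fun g => CharTheory.mem_inertia A (lf l) g,
        show classInner (fun n : A => (χ : Q → ℂ) n) (fun g => ((l g : ℂˣ) : ℂ)) = (e : ℂ) from he',
        show (l 1 : ℂ) = 1 by rw [map_one, Units.val_one], mul_one, charDegree_one] at h1
      have h2 : charDegree (χ : Q → ℂ) = e * (T l).index := by exact_mod_cast h1
      rcases hdeg χ with e1 | e1
      · exact absurd (fun x => eq_res_of_linear A χ e1 (isIrrCharacter_linear l) hχ x) (hnot χ e1)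
      · exact e1 ▸ h2 ▸ dvd_mul_left _ _
    set T0 := A ⊔ (T l ⊓ S) with hT0
    haveI : T0.Normal := normal_of_commutator_le le_sup_left
    have hT0T : T0 ≤ T l := sup_le hAT inf_le_left
    let e' : A.subgroupOf T0 ≃* A := Subgroup.subgroupOfEquivOfLe le_sup_left
    obtain ⟨η, hη, hηl⟩ := exists_extension_of_coprime (G := T0) (A.subgroupOf T0) (by
        rw [Nat.card_congr e'.toEquiv]
        refine Nat.Coprime.coprime_dvd_right (?_ : _ ∣ Nat.card S) hcop.symm
        show A.relIndex T0 ∣ _
        rw [hT0, Subgroup.relIndex_sup_left]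
        exact (Subgroup.relIndex_dvd_card _ _).trans (Subgroup.card_dvd_of_le inf_le_right))
      (fun n => (l (e' n) : ℂ)) (isIrrCharacter_linear (l.comp e'.toMonoidHom)) (fun g n => by
        refine congrArg Units.val ?_
        rw [← (hmemT l (g : Q)).1 (hT0T g.2) (e' n)]
        refine congrArg l (Subtype.ext ?_)
        show (((MulAut.conjNormal g n : A.subgroupOf T0) : T0) : Q) = _
        rw [MulAut.conjNormal_apply]
        simp only [cn, MulEquiv.coe_toMonoidHom, MulAut.conjNormal_apply]
        rfl)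
    have hη1 : η 1 = 1 := by
      have h1 := hηl 1
      rw [OneMemClass.coe_one, map_one, map_one, Units.val_one] at h1
      exact h1
    haveI := Fintype.ofFinite T0
    obtain ⟨m, hm⟩ := IsCharacter.exists_sum
      (CfsgLib.Frobenius.isCharacter_indFun T0 η (IsIrrCharacter.isCharacter hη))
    have hidx : a ∣ T0.index := by
      have h1 := congrFun hm 1
      rw [CfsgLib.Frobenius.indFun_one, hη1, mul_one, Finset.sum_apply] at h1
      simp only [Pi.smul_apply, smul_eq_mul, charDegree_one] at h1
      have h2 : T0.index = ∑ χ : IrrCharacter Q, m χ * charDegree (χ : Q → ℂ) := by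
        exact_mod_cast h1
      rw [h2]
      refine Finset.dvd_sum fun χ _ => ?_
      by_cases h0 : m χ = 0
      · rw [h0, zero_mul]; exact dvd_zero a
      rcases hdeg χ with e1 | e1
      · refine absurd (fun x : A => ?_) (hnot χ e1)
        have hne : classInner (fun y : T0 => (χ : Q → ℂ) y) η ≠ 0 := by
          intro hz
          have h4 : classInner (indFun T0 η) (χ : Q → ℂ) = (m χ : ℂ) := by
            rw [hm]; exact classInner_sum_irr (fun w => (m w : ℂ)) χ
          rw [CfsgLib.Frobenius.classInner_indFun T0 η _ (IsIrrCharacter.isClassFunction χ.2),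
            classInner_conj_symm, hz, map_zero] at h4
          exact h0 (by exact_mod_cast h4.symm)
        have h5 := eq_res_of_linear T0 χ e1 hη hne ⟨x, le_sup_left (a := A) x.2⟩
        rw [h5]
        exact hηl ⟨⟨x, le_sup_left (a := A) x.2⟩, x.2⟩
      · rw [e1]; exact dvd_mul_left a _
    apply Nat.dvd_antisymm
    · obtain ⟨j, -, hj⟩ := (Nat.dvd_prime_pow hp.out).1
        ((show Nat.card S = p ^ k from hk) ▸ Subgroup.relIndex_dvd_card (T l) S)
      rw [hj]
      exact pow_dvd_pow p ((hp.out.pow_dvd_iff_le_factorization ha.ne').1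
        (hj ▸ (Subgroup.relIndex_dvd_index_of_normal (T l) S).trans hTa))
    · have h1 : ordProj[p] a ∣ T0.relIndex S * (S ⊔ T0).index := by
        rw [← Subgroup.relIndex_sup_right (H := S) (K := T0),
          Subgroup.relIndex_mul_index le_sup_right]
        exact (Nat.ordProj_dvd a p).trans hidx
      refine ((Nat.Coprime.pow_left _ ((hp.out.coprime_iff_not_dvd).2 fun hd =>
        R.not_dvd_index (hd.trans (Subgroup.index_dvd_of_le le_sup_left)))).dvd_of_dvd_mul_right
          h1).trans ?_
      rw [← Subgroup.inf_relIndex_right (T l) S]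
      exact Subgroup.relIndex_dvd_of_le_left _ le_sup_right
  have hsemi : ∀ s : S, s ≠ 1 → ∀ v : A →* ℂˣ, φ s v = v → ∀ t : S, φ t v = v := by
    refine fix_of_equal_stabilizers (S := S) (L := A →* ℂˣ) ?_ φ hφ (Nat.card S / ordProj[p] a) ?_
    · rw [show Nat.card S = p ^ k from hk]
      exact ((hp.out.coprime_iff_not_dvd).2 hLp).pow_left k
    intro v hv
    rw [Nat.card_congr (Equiv.subtypeEquivRight (hfixiff v)), ← key v hv]
    have h1 := ((T v).subgroupOf S).card_mul_index
    rw [show ((T v).subgroupOf S).index = (T v).relIndex S from rfl] at h1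
    have h2 : 0 < (T v).relIndex S := Nat.pos_of_ne_zero fun e => by
      rw [e, mul_zero] at h1; exact Nat.card_pos.ne h1
    exact (Nat.eq_div_of_mul_eq_left h2.ne' h1).symm ▸ rfl
  refine ⟨isCyclic_of_semiregular (p := p) (S := S) R.2 hLp φ hφ hsemi, fun hpQ => ?_⟩
  obtain ⟨s, hs⟩ : ∃ s : S, s ≠ 1 := by
    by_contra hno
    push Not at hno
    apply R.not_dvd_index
    have : S.index = Nat.card Q := by
      rw [(Subgroup.eq_bot_iff_forall S).2 fun x hx => congrArg Subtype.val (hno ⟨x, hx⟩),
        Subgroup.index_bot]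
    exact this ▸ hpQ
  obtain ⟨l, hl⟩ : ∃ l, φ s l ≠ l := by
    by_contra hno
    push Not at hno
    exact hs (hφ (MulEquiv.ext fun w => by rw [hno w, map_one, MulAut.one_apply]))
  have h1 := key l ⟨s, hl⟩
  have h2 : (T l).relIndex S ≠ 1 := fun e => hl ((hfixiff l s).2
    (Subgroup.mem_subgroupOf.2 (Subgroup.relIndex_eq_one.1 e s.2)))
  rw [h1] at h2
  by_contra hpa
  exact h2 (by rw [Nat.factorization_eq_zero_of_not_dvd hpa, pow_zero])

end CfsgLib.CharDegreesTheory.ThreeDegrees
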