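import Cfsg.Agent.Lib.CharDegreesTheory.ThreeDegreesCyclic
import Cfsg.Agent.Lib.RealChar.Extension
import Cfsg.Agent.Lib.Clifford.Gallagher

/-!
# Groups with three degrees have derived length at most three
-/

set_option autoImplicit false
set_option linter.style.haveILetI false
set_option linter.unusedSectionVars false

namespace CfsgLib.CharDegreesTheory.ThreeDegrees

open Cfsg CfsgLib.CharTheory CfsgLib.Clifford CfsgLib.CharDegreesTheory.SmallDegrees Finset
open scoped ComplexConjugate commutatorElement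

universe u

/-- If every character of smaller degree than `|G : H|` is trivial on `N` then `N ≤ H`. -/
theorem le_of_small {G : Type u} [Group G] [Finite G] (N H : Subgroup G) [N.Normal] (hH : H ≠ ⊤)
    (h : ∀ ψ : IrrCharacter G, charDegree (ψ : G → ℂ) < H.index →
      ∀ n ∈ N, (ψ : G → ℂ) n = (ψ : G → ℂ) 1) : N ≤ H := by
  classical
  haveI := Fintype.ofFinite G
  haveI := Fintype.ofFinite (IrrCharacter G)
  have hπ : IsCharacter G (indFun H fun _ => (1 : ℂ)) :=
    CfsgLib.Frobenius.isCharacter_indFun H _ (IsIrrCharacter.isCharacter isIrrCharacter_one)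
  obtain ⟨m, hm⟩ := IsCharacter.exists_sum hπ
  have htriv : m (trivIrr G) = 1 := by
    have e : classInner (indFun H fun _ => (1 : ℂ)) (trivIrr G : G → ℂ) = (m (trivIrr G) : ℂ) := by
      rw [hm]; exact classInner_sum_irr _ _
    rw [CfsgLib.Frobenius.classInner_indFun H _ _ (IsIrrCharacter.isClassFunction (trivIrr G).2),
      show (fun h : H => (trivIrr G : G → ℂ) h) = fun _ : H => (1 : ℂ) from rfl,
      classInner_self_of_isIrr isIrrCharacter_one] at e
    exact_mod_cast e.symm
  have hsum : H.index = ∑ ψ : IrrCharacter G, m ψ * charDegree (ψ : G → ℂ) := by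
    have := congrFun hm 1
    simp only [CfsgLib.Frobenius.indFun_one, mul_one, Finset.sum_apply, Pi.smul_apply, smul_eq_mul,
      charDegree_one] at this
    exact_mod_cast this
  have hidx : 1 < H.index := Subgroup.one_lt_index_of_ne_top hH
  have htrivN : ∀ ψ, m ψ ≠ 0 → ∀ n ∈ N, (ψ : G → ℂ) n = (ψ : G → ℂ) 1 := by
    intro ψ hψ
    by_cases hψt : ψ = trivIrr G
    · subst hψt; exact fun _ _ => rfl
    refine h ψ ?_
    have h2 : ∑ φ ∈ ({trivIrr G, ψ} : Finset (IrrCharacter G)), m φ * charDegree (φ : G → ℂ)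
        ≤ H.index := hsum ▸ sum_le_univ_sum_of_nonneg (fun _ => Nat.zero_le _)
    rw [sum_pair (Ne.symm hψt), htriv, one_mul] at h2
    have h3 : charDegree (trivIrr G : G → ℂ) = 1 := by
      have e := charDegree_one (trivIrr G)
      rw [trivIrr_apply] at e
      exact_mod_cast e.symm
    have h4 : charDegree (ψ : G → ℂ) ≤ m ψ * charDegree (ψ : G → ℂ) :=
      Nat.le_mul_of_pos_left _ (Nat.pos_of_ne_zero hψ)
    omega
  intro y hy
  have hy1 : indFun H (fun _ => (1 : ℂ)) y = indFun H (fun _ => (1 : ℂ)) 1 := by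
    rw [hm]
    simp only [Finset.sum_apply, Pi.smul_apply, smul_eq_mul]
    refine sum_congr rfl fun ψ _ => ?_
    by_cases hψ : m ψ = 0
    · simp [hψ]
    · rw [htrivN ψ hψ y hy]
  by_contra hyH
  rw [indFun, indFun] at hy1
  have hy2 := mul_left_cancel₀ (inv_ne_zero (Nat.cast_ne_zero.2 Nat.card_pos.ne')) hy1
  have hre := congrArg Complex.re hy2
  rw [Complex.re_sum, Complex.re_sum] at hre
  refine hre.not_lt (sum_lt_sum (fun x _ => ?_) ⟨1, mem_univ _, ?_⟩)
  · rw [CfsgLib.Frobenius.extendByZero_of_mem H _ (g := x⁻¹ * 1 * x) (by simp [H.one_mem])]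
    by_cases hx : x⁻¹ * y * x ∈ H
    · rw [CfsgLib.Frobenius.extendByZero_of_mem H _ hx]
    · rw [CfsgLib.Frobenius.extendByZero_of_not_mem H _ hx]; simp
  · rw [CfsgLib.Frobenius.extendByZero_of_mem H _ (g := (1 : G)⁻¹ * 1 * 1) (by simp [H.one_mem]),
      CfsgLib.Frobenius.extendByZero_of_not_mem H _ (by simpa using hyH)]
    simp

/-- A character induced from a linear character of `H ≥ K` is trivial on `⁅K, K⁆`. -/
theorem apply_eq_of_mem_commutator {G : Type u} [Group G] [Fintype G] {H K : Subgroup G}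
    [K.Normal] (hH : K ≤ H) (l : H →* ℂˣ) {g : G} (hg : g ∈ ⁅K, K⁆) :
    indFun H (fun h => (l h : ℂ)) g = indFun H (fun h => (l h : ℂ)) 1 := by
  classical
  have hle2 : ⁅K, K⁆ ≤ l.ker.map H.subtype := by
    rw [Subgroup.commutator_le]
    intro x hx y hy
    refine ⟨⁅(⟨x, hH hx⟩ : H), ⟨y, hH hy⟩⁆, MonoidHom.mem_ker.2 ?_, rfl⟩
    rw [map_commutatorElement, commutatorElement_eq_one_iff_mul_comm]
    exact mul_comm _ _
  have hker : ∀ y ∈ ⁅K, K⁆, extendByZero H (fun h => (l h : ℂ)) y = 1 := by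
    intro y hy
    obtain ⟨k, hk, rfl⟩ := hle2 hy
    rw [show H.subtype k = (k : G) from rfl, CfsgLib.Frobenius.extendByZero_coe,
      MonoidHom.mem_ker.1 hk, Units.val_one]
  rw [indFun, indFun]
  refine congrArg _ (sum_congr rfl fun x _ => ?_)
  rw [hker _ (by simpa using (inferInstance : ⁅K, K⁆.Normal).conj_mem g hg x⁻¹),
    hker _ (by simpa using Subgroup.one_mem _)]

theorem eq_bot_of_forall_irr {G : Type u} [Group G] [Finite G] (K : Subgroup G)
    (h : ∀ χ : IrrCharacter G, ∀ g ∈ K, (χ : G → ℂ) g = (χ : G → ℂ) 1) : K = ⊥ := by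
  rw [Subgroup.eq_bot_iff_forall]
  intro g hg
  by_contra hne
  obtain ⟨χ, hχ⟩ := exists_irr_apply_ne hne
  exact hχ (h χ g hg)

/-- Taketa's bound for a nilpotent group with three degrees. -/
theorem derivedSeries_three_of_nilpotent {G : Type u} [Group G] [Finite G] [Group.IsNilpotent G]
    {a b : ℕ} (ha : 1 < a) (hab : a < b) (h : DegIn a b G) : derivedSeries G 3 = ⊥ := by
  classical
  haveI := Fintype.ofFinite G
  set K1 := derivedSeries G 1 with hK1
  haveI : K1.Normal := derivedSeries_normal G 1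
  set K2 := derivedSeries G 2 with hK2
  haveI : K2.Normal := derivedSeries_normal G 2
  have h21 : K2 = ⁅K1, K1⁆ := derivedSeries_succ G 1
  have h32 : derivedSeries G 3 = ⁅K2, K2⁆ := derivedSeries_succ G 2
  have hlin : ∀ χ : IrrCharacter G, charDegree (χ : G → ℂ) = 1 → ∀ g ∈ K1,
      (χ : G → ℂ) g = (χ : G → ℂ) 1 := by
    intro χ hχ g hg
    obtain ⟨μ, hμ⟩ := exists_hom_of_degree_one χ.2 (by rw [charDegree_one, hχ, Nat.cast_one])
    rw [hK1, derivedSeries_one] at hg
    rw [hμ]
    simp only [MonoidHom.mem_ker.1 (Abelianization.commutator_subset_ker μ hg), map_one]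
  have hK2le : K2 ≤ K1 := derivedSeries_antitone G (by norm_num)
  have hgen : ∀ χ : IrrCharacter G, ∀ (N : Subgroup G) [N.Normal],
      (∀ ψ : IrrCharacter G, charDegree (ψ : G → ℂ) < charDegree (χ : G → ℂ) →
        ∀ n ∈ N, (ψ : G → ℂ) n = (ψ : G → ℂ) 1) → charDegree (χ : G → ℂ) ≠ 1 →
      ∀ g ∈ ⁅N, N⁆, (χ : G → ℂ) g = (χ : G → ℂ) 1 := by
    intro χ N _ hN hne g hg
    obtain ⟨H, l, hl⟩ := exists_ind_of_nilpotent χ.2
    have hidx : H.index = charDegree (χ : G → ℂ) := by
      have := CfsgLib.Frobenius.indFun_one H (fun h => (l h : ℂ))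
      rw [← hl, charDegree_one, map_one, Units.val_one, mul_one] at this
      exact_mod_cast this.symm
    have hle : N ≤ H := le_of_small N H (fun e => hne (by rw [← hidx, e, Subgroup.index_top]))
      (hidx ▸ hN)
    rw [hl]
    exact apply_eq_of_mem_commutator hle l hg
  have ha2 : ∀ χ : IrrCharacter G, charDegree (χ : G → ℂ) ≠ b → ∀ g ∈ K2,
      (χ : G → ℂ) g = (χ : G → ℂ) 1 := by
    intro χ hχ g hg
    rcases h χ with e | e | e
    · exact hlin χ e g (hK2le hg)
    · refine hgen χ K1 (fun ψ hψ => hlin ψ ?_) (by omega) g (h21 ▸ hg)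
      rcases h ψ with e' | e' | e' <;> omega
    · exact absurd e hχ
  apply eq_bot_of_forall_irr
  intro χ g hg
  rw [h32] at hg
  by_cases hχ : charDegree (χ : G → ℂ) = b
  · refine hgen χ K2 (fun ψ hψ => ha2 ψ (by omega)) (by omega) g hg
  · exact ha2 χ hχ g (Subgroup.commutator_le_self K2 hg)

/-- An invariant character of a normal `p`-subgroup extends when the `p`-subgroups of the quotient
are cyclic. -/
theorem exists_extension_of_cyclic_pSubgroups {T : Type u} [Group T] [Finite T] {p : ℕ}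
    [hp : Fact p.Prime] (N : Subgroup T) [N.Normal] (hN : IsPGroup p N)
    (hcyc : ∀ Q : Subgroup (T ⧸ N), IsPGroup p Q → IsCyclic Q) (θ : N → ℂ)
    (hθ : IsIrrCharacter N θ) (hinv : ∀ (g : T) (n : N), θ (MulAut.conjNormal g n) = θ n) :
    ∃ χ : T → ℂ, IsIrrCharacter T χ ∧ ∀ n : N, χ n = θ n := by
  classical
  refine CfsgLib.RealChar.exists_extension_character_of_forall_prime N θ hθ hinv fun r hr => ?_
  haveI := Fact.mk hr
  obtain ⟨R⟩ : Nonempty (Sylow r T) := inferInstance
  set Q := (R : Subgroup T) ⊔ N with hQ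
  have hNQ : N ≤ Q := le_sup_right
  let e : N.subgroupOf Q ≃* N := Subgroup.subgroupOfEquivOfLe hNQ
  have hinv' : ∀ (g : Q) (n : N.subgroupOf Q), θ (e (MulAut.conjNormal g n)) = θ (e n) := fun g n => by
    rw [← hinv (g : T) (e n)]
    refine congrArg θ (Subtype.ext ?_)
    show (((MulAut.conjNormal g n : N.subgroupOf Q) : Q) : T) = _
    rw [MulAut.conjNormal_apply, MulAut.conjNormal_apply]
    rfl
  have hirr : IsIrrCharacter (N.subgroupOf Q) (fun n => θ (e n)) := isIrrCharacter_comp_mulEquiv hθ e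
  obtain ⟨η, hη, hηθ⟩ : ∃ η : Q → ℂ, IsIrrCharacter Q η ∧
      ∀ n : N.subgroupOf Q, η n = θ (e n) := by
    by_cases hrp : r = p
    · subst hrp
      refine CfsgLib.RealChar.exists_extension_character_of_cyclic (N.subgroupOf Q) ?_ _ hirr hinv'
      let f : Q ⧸ N.subgroupOf Q →* T ⧸ N := QuotientGroup.map _ N Q.subtype le_rfl
      have hf : Function.Injective f := by
        rw [← MonoidHom.ker_eq_bot_iff, eq_bot_iff]
        intro x hx
        obtain ⟨y, rfl⟩ := QuotientGroup.mk_surjective x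
        rw [Subgroup.mem_bot, QuotientGroup.eq_one_iff]
        exact (QuotientGroup.eq_one_iff (y : T)).1 hx
      have hp1 : IsPGroup r (Q ⧸ N.subgroupOf Q) :=
        (IsPGroup.to_sup_of_normal_right R.2 hN).to_quotient _
      haveI : IsCyclic f.range := hcyc f.range (hp1.of_surjective f.rangeRestrict
        f.rangeRestrict_surjective)
      exact isCyclic_of_injective f.rangeRestrict fun x y hxy => hf (congrArg Subtype.val hxy)
    · refine exists_extension_of_coprime (N.subgroupOf Q) ?_ _ hirr hinv'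
      rw [Nat.card_congr e.toEquiv]
      obtain ⟨i, hi⟩ := IsPGroup.iff_card.1 hN
      obtain ⟨j, hj⟩ := IsPGroup.iff_card.1 R.2
      have hd : (N.subgroupOf Q).index ∣ Nat.card (R : Subgroup T) := by
        show N.relIndex Q ∣ _
        rw [hQ, Subgroup.relIndex_sup_right]
        exact Subgroup.relIndex_dvd_card _ _
      rw [hi]
      exact Nat.Coprime.coprime_dvd_right (hd.trans hj.dvd)
        (((Nat.coprime_primes hp.out hr).2 (Ne.symm hrp)).pow i j)
  exact ⟨Q, hNQ, η, fun hd => R.not_dvd_index (hd.trans (Subgroup.index_dvd_of_le le_sup_left)),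
    IsIrrCharacter.isCharacter hη, fun n => hηθ ⟨⟨n, hNQ n.2⟩, n.2⟩⟩

/-- The nonabelian normal `p`-subgroup with `p ∣ |G : P|` is impossible. -/
theorem false_of_dvd_index {G : Type u} [Group G] [Finite G] {p : ℕ} [hp : Fact p.Prime] {a b : ℕ}
    (ha : 1 < a) (hdeg : DegIn a b G) (P : Subgroup G) [P.Normal] (hP : IsPGroup p P)
    (hnab : ¬ ∀ x ∈ P, ∀ y ∈ P, x * y = y * x) (hcore : pCore p (G ⧸ P) = ⊥)
    (hQdeg : ∀ χ : IrrCharacter (G ⧸ P), charDegree (χ : G ⧸ P → ℂ) = 1 ∨
      charDegree (χ : G ⧸ P → ℂ) = a)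
    (hnotall : ∃ χ : IrrCharacter G, charDegree (χ : G → ℂ) ≠ 1 ∧ ¬ p ∣ charDegree (χ : G → ℂ))
    (hidx : p ∣ P.index) : False := by
  classical
  haveI := Fintype.ofFinite G
  haveI := Fintype.ofFinite P
  haveI := Fintype.ofFinite (G ⧸ P)
  have hQab := TwoDegrees.commutator_comm (G := G ⧸ P) a ha hQdeg
  have hcyc : ∀ R : Subgroup (G ⧸ P), IsPGroup p R → IsCyclic R := fun R hR => by
    obtain ⟨S, hS⟩ := hR.exists_le_sylow
    haveI := (isCyclic_of_two_degrees (p := p) (by omega) hQdeg hQab hcore S).1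
    exact Subgroup.isCyclic_of_le hS
  obtain ⟨S₀⟩ : Nonempty (Sylow p (G ⧸ P)) := inferInstance
  have hpa : p ∣ a := (isCyclic_of_two_degrees (p := p) (by omega) hQdeg hQab hcore S₀).2 hidx
  have hpb : ¬ p ∣ b := by
    obtain ⟨χ, hχ1, hχp⟩ := hnotall
    rcases hdeg χ with e | e | e
    · exact absurd e hχ1
    · exact absurd (e ▸ hpa) hχp
    · exact e ▸ hχp
  -- a nonlinear character of `P`
  obtain ⟨θ, hθ⟩ : ∃ θ : IrrCharacter P, charDegree (θ : P → ℂ) ≠ 1 := by
    by_contra hno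
    push Not at hno
    exact hnab fun x hx y hy => congrArg Subtype.val
      (comm_of_linear (G := P) (fun θ => by rw [charDegree_one, hno θ, Nat.cast_one]) ⟨x, hx⟩ ⟨y, hy⟩)
  have hθp : p ∣ charDegree (θ : P → ℂ) := by
    obtain ⟨k, hk⟩ := IsPGroup.iff_card.1 hP
    obtain ⟨j, -, hj⟩ := (Nat.dvd_prime_pow hp.out).1
      (hk ▸ CfsgLib.Correspondences.charDegree_dvd_card θ.2)
    rcases Nat.eq_zero_or_pos j with e | e
    · exact absurd (by rw [hj, e, pow_zero]) hθ
    · exact hj ▸ dvd_pow_self p e.ne'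
  set T := CharTheory.inertia P (θ : P → ℂ) with hT
  have hPT : P ≤ T := CharTheory.le_inertia P (IsIrrCharacter.isClassFunction θ.2)
  haveI := Fintype.ofFinite T
  set N := P.subgroupOf T with hN
  haveI := Fintype.ofFinite N
  let e : N ≃* P := Subgroup.subgroupOfEquivOfLe hPT
  have hinv : ∀ (g : T) (n : N), (θ : P → ℂ) (e (MulAut.conjNormal g n)) = (θ : P → ℂ) (e n) :=
    fun g n => by
      have h1 := congrFun ((CharTheory.mem_inertia P _ _).1 g.2) (e n)
      rw [conjChar_apply] at h1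
      rw [← h1]
      refine congrArg (θ : P → ℂ) (Subtype.ext ?_)
      show (((MulAut.conjNormal g n : N) : T) : G) = _
      rw [MulAut.conjNormal_apply]
      rfl
  let fT : T ⧸ N →* G ⧸ P := QuotientGroup.map N P T.subtype le_rfl
  have hfT : Function.Injective fT := by
    rw [← MonoidHom.ker_eq_bot_iff, eq_bot_iff]
    intro x hx
    obtain ⟨y, rfl⟩ := QuotientGroup.mk_surjective x
    rw [Subgroup.mem_bot, QuotientGroup.eq_one_iff]
    exact (QuotientGroup.eq_one_iff (y : G)).1 hx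
  have hirr : IsIrrCharacter N (fun n => (θ : P → ℂ) (e n)) := isIrrCharacter_comp_mulEquiv θ.2 e
  obtain ⟨χT, hχT, hχTθ⟩ := exists_extension_of_cyclic_pSubgroups (p := p) N
    (hP.of_equiv e.symm) (fun R hR => by
      haveI := hcyc (R.map fT) (hR.map fT)
      exact isCyclic_of_injective (R.equivMapOfInjective fT hfT).toMonoidHom
        (R.equivMapOfInjective fT hfT).injective)
    (fun n => (θ : P → ℂ) (e n)) hirr hinv
  have hgal := gallagher_bijOn (G := T) (N := N) (φ := fun _ => (1 : ℂ))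
    (θ := fun n => (θ : P → ℂ) (e n)) isIrrCharacter_one (fun g => rfl)
    (fun g => funext fun n => by rw [conjChar_eq_comp]; exact hinv g n)
    (by
      rw [show ((fun _ => (1 : ℂ)) * fun n : N => (θ : P → ℂ) (e n)) = fun n => (θ : P → ℂ) (e n)
        from funext fun n => one_mul _]
      exact hirr)
    hχT hχTθ
  -- all characters of `T / N` are linear
  have hdegT : ∀ β : IrrCharacter (T ⧸ N),
      T.index * (charDegree (β : T ⧸ N → ℂ) * charDegree (θ : P → ℂ)) = a := by
    intro β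
    set βT : T → ℂ := fun t => (β : T ⧸ N → ℂ) (t : T ⧸ N) with hβT
    have hβirr : IsIrrCharacter T βT := isIrrCharacter_comp β.2 (QuotientGroup.mk'_surjective N)
    have hβN : ∀ n : N, βT n = βT 1 := fun n => by
      simp only [hβT, (QuotientGroup.eq_one_iff (n : T)).2 n.2, QuotientGroup.mk_one]
    have hψ : IsIrrCharacter T (βT * χT) := (hgal.mapsTo ⟨hβirr, by
      rw [CfsgLib.Frobenius.classInner_indFun N _ _ (IsIrrCharacter.isClassFunction hβirr)]
      rw [show (fun n : N => βT n) = βT 1 • fun _ : N => (1 : ℂ) from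
        funext fun n => by rw [hβN n]; simp]
      rw [classInner_smul_right, classInner_self_of_isIrr isIrrCharacter_one, mul_one]
      simpa using apply_one_ne_zero_of_isIrr hβirr⟩).1
    have hres : (fun n : P => (βT * χT) ⟨(n : G), hPT n.2⟩) = βT 1 • (θ : P → ℂ) := funext fun n => by
      show βT ⟨(n : G), hPT n.2⟩ * χT ⟨(n : G), hPT n.2⟩ = βT 1 * (θ : P → ℂ) n
      rw [hβN ⟨⟨(n : G), hPT n.2⟩, n.2⟩, hχTθ ⟨⟨(n : G), hPT n.2⟩, n.2⟩]
      rfl
    have hover : classInner (fun n : P => (βT * χT) ⟨(n : G), hPT n.2⟩) (θ : P → ℂ) ≠ 0 := by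
      rw [hres, classInner_smul_left, classInner_self_of_isIrr θ.2, mul_one]
      exact apply_one_ne_zero_of_isIrr hβirr
    obtain ⟨hind, hmult⟩ := isIrrCharacter_indFun_inertia θ.2
      (fun g => CharTheory.mem_inertia P (θ : P → ℂ) g) hPT hψ hover
    let χ : IrrCharacter G := ⟨_, hind⟩
    have hdvd : p ∣ charDegree (χ : G → ℂ) :=
      hθp.trans (ItoSolvable.dvd_of_constituent P θ χ (hmult ▸ hover))
    have hχa : charDegree (χ : G → ℂ) = a := by
      rcases hdeg χ with e1 | e1 | e1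
      · exact absurd (e1 ▸ hdvd) hp.out.not_dvd_one
      · exact e1
      · exact absurd (e1 ▸ hdvd) hpb
    have hχT1 : χT 1 = (θ : P → ℂ) 1 := by
      have h1 := hχTθ 1
      rw [OneMemClass.coe_one, map_one] at h1
      exact h1
    have hval : (χ : G → ℂ) 1 =
        ((T.index * (charDegree (β : T ⧸ N → ℂ) * charDegree (θ : P → ℂ)) : ℕ) : ℂ) := by
      show indFun T (βT * χT) 1 = _
      rw [CfsgLib.Frobenius.indFun_one, Pi.mul_apply, hχT1,
        show βT 1 = (β : T ⧸ N → ℂ) 1 from rfl, charDegree_one, charDegree_one]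
      push_cast
      ring
    rw [charDegree_one, hχa] at hval
    exact (Nat.cast_injective hval).symm
  have htriv : charDegree (trivIrr (T ⧸ N) : T ⧸ N → ℂ) = 1 := by
    have e1 := charDegree_one (trivIrr (T ⧸ N))
    rw [trivIrr_apply] at e1
    exact_mod_cast e1.symm
  have hθa := hdegT (trivIrr (T ⧸ N))
  rw [htriv, one_mul] at hθa
  have hTcomm := comm_of_linear (G := T ⧸ N) fun β => by
    have h1 := (hdegT β).trans hθa.symm
    have hθ0 : 0 < charDegree (θ : P → ℂ) := CfsgLib.Correspondences.charDegree_pos θ.2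
    have hT0 : 0 < T.index := Nat.pos_of_ne_zero Subgroup.index_ne_zero_of_finite
    rw [Nat.mul_right_inj hT0.ne', Nat.mul_eq_right hθ0.ne'] at h1
    rw [charDegree_one, h1, Nat.cast_one]
  -- a character of degree `a` of `G / P`
  obtain ⟨χQ, hχQ⟩ : ∃ χ : IrrCharacter (G ⧸ P), charDegree (χ : G ⧸ P → ℂ) = a := by
    by_contra hno
    push Not at hno
    have hcomm := comm_of_linear (G := G ⧸ P) fun χ => by
      rw [charDegree_one, (hQdeg χ).resolve_right (hno χ), Nat.cast_one]
    haveI : (S₀ : Subgroup (G ⧸ P)).Normal := ⟨fun x hx g => by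
      rw [hcomm g x, mul_inv_cancel_right]; exact hx⟩
    have hS1 : (S₀ : Subgroup (G ⧸ P)) = ⊥ := le_bot_iff.1 (hcore ▸ CfsgLib.Cores.le_pCore S₀.2)
    exact S₀.not_dvd_index (by rw [hS1, Subgroup.index_bot]; exact hidx)
  have hle := charDegree_le_index_of_comm (T.map (QuotientGroup.mk' P)) (by
    rintro _ ⟨x, hx, rfl⟩ _ ⟨y, hy, rfl⟩
    have h1 := congrArg fT (hTcomm ((⟨x, hx⟩ : T) : T ⧸ N) ((⟨y, hy⟩ : T) : T ⧸ N))
    rw [map_mul, map_mul] at h1
    exact h1) χQ
  rw [hχQ, Subgroup.index_map_eq (H := T) (QuotientGroup.mk'_surjective P)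
    (by rw [QuotientGroup.ker_mk']; exact hPT)] at hle
  have hθ2 : 2 ≤ charDegree (θ : P → ℂ) :=
    le_trans hp.out.two_le (Nat.le_of_dvd (CfsgLib.Correspondences.charDegree_pos θ.2) hθp)
  have hT0 : 0 < T.index := Nat.pos_of_ne_zero Subgroup.index_ne_zero_of_finite
  nlinarith

/-- The nonabelian normal Sylow subgroup case. -/
theorem derivedSeries_le_commutator {G : Type u} [Group G] [Finite G] {p : ℕ} [hp : Fact p.Prime]
    {c d : ℕ} (hd : 1 < d) (hdeg : DegIn c d G) (hc : p ∣ c) (hd' : ¬ p ∣ d) (P : Subgroup G)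
    [P.Normal] (hP : IsPGroup p P) (hidx : ¬ p ∣ P.index) (hG2 : derivedSeries G 2 ≤ P) :
    derivedSeries G 3 = ⊥ := by
  classical
  haveI := Fintype.ofFinite G
  haveI := Fintype.ofFinite P
  haveI : ⁅P, P⁆.Normal := inferInstance
  -- all nonlinear degrees of `P` are equal
  have hPdeg : ∀ θ : IrrCharacter P, charDegree (θ : P → ℂ) = 1 ∨
      charDegree (θ : P → ℂ) = ordProj[p] c := by
    intro θ
    obtain ⟨k, hk⟩ := IsPGroup.iff_card.1 hP
    obtain ⟨j, -, hj⟩ := (Nat.dvd_prime_pow hp.out).1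
      (hk ▸ CfsgLib.Correspondences.charDegree_dvd_card θ.2)
    rcases Nat.eq_zero_or_pos j with e | e
    · exact Or.inl (by rw [hj, e, pow_zero])
    refine Or.inr ?_
    obtain ⟨χ, hχ⟩ := exists_over P θ
    obtain ⟨r, hr, hr1⟩ := CfsgLib.RealChar.degree_div_dvd_index P χ.2 θ.2 hχ
    rw [charDegree_one, charDegree_one] at hr1
    have hr' : charDegree (χ : G → ℂ) = r * charDegree (θ : P → ℂ) := by exact_mod_cast hr1
    have hpχ : p ∣ charDegree (χ : G → ℂ) :=
      hr' ▸ (hj ▸ dvd_pow_self p e.ne').mul_left r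
    have hχc : charDegree (χ : G → ℂ) = c := by
      rcases hdeg χ with e1 | e1 | e1
      · exact absurd (e1 ▸ hpχ) hp.out.not_dvd_one
      · exact e1
      · exact absurd (e1 ▸ hpχ) hd'
    have hrp : ¬ p ∣ r := fun h => hidx (h.trans hr)
    rw [← hχc, hr', hj]
    have hr0 : r ≠ 0 := fun h => hrp (h ▸ dvd_zero p)
    rw [Nat.factorization_mul hr0 (pow_ne_zero j hp.out.ne_zero), Finsupp.add_apply,
      Nat.factorization_eq_zero_of_not_dvd hrp, zero_add, hp.out.factorization_pow,
      Finsupp.single_eq_same]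
  -- so `P'` is abelian
  have hP'ab : ∀ x ∈ ⁅P, P⁆, ∀ y ∈ ⁅P, P⁆, x * y = y * x := by
    rw [← Subgroup.map_subtype_commutator]
    rintro _ ⟨x, hx, rfl⟩ _ ⟨y, hy, rfl⟩
    refine congrArg Subtype.val (?_ : x * y = y * x)
    by_cases hm : 2 ≤ ordProj[p] c
    · exact TwoDegrees.commutator_comm (G := P) _ hm hPdeg x hx y hy
    · refine comm_of_linear (G := P) (fun θ => ?_) x y
      have := CfsgLib.Correspondences.charDegree_pos θ.2
      rw [charDegree_one, show charDegree (θ : P → ℂ) = 1 by rcases hPdeg θ with e | e <;> omega,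
        Nat.cast_one]
  -- degrees of `G / P'`
  set Q := G ⧸ ⁅P, P⁆
  haveI := Fintype.ofFinite Q
  have hQdeg : ∀ χ : IrrCharacter Q, charDegree (χ : Q → ℂ) = 1 ∨ charDegree (χ : Q → ℂ) = d := by
    intro χ
    haveI : (P.map (QuotientGroup.mk' ⁅P, P⁆)).Normal :=
      Subgroup.Normal.map inferInstance _ (QuotientGroup.mk'_surjective _)
    obtain ⟨n, hn, hndvd⟩ := exists_degree_dvd_index_of_abelian χ.2
      (P.map (QuotientGroup.mk' ⁅P, P⁆)) (by
        rintro _ ⟨x, hx, rfl⟩ _ ⟨y, hy, rfl⟩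
        rw [← commutatorElement_eq_one_iff_mul_comm, ← map_commutatorElement]
        exact (QuotientGroup.eq_one_iff _).2 (Subgroup.commutator_mem_commutator hx hy))
    rw [Subgroup.index_map_eq (H := P) (QuotientGroup.mk'_surjective _)
      (by rw [QuotientGroup.ker_mk']; exact Subgroup.commutator_le_self P)] at hndvd
    have hnn : charDegree (χ : Q → ℂ) = n := by
      rw [charDegree_one] at hn
      exact_mod_cast hn
    rcases hdeg.quotient ⁅P, P⁆ χ with e | e | e
    · exact Or.inl e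
    · exact absurd (hc.trans (e ▸ hnn ▸ hndvd)) hidx
    · exact Or.inr e
  have hQab := TwoDegrees.commutator_comm (G := Q) d hd hQdeg
  have hle : derivedSeries G 2 ≤ ⁅P, P⁆ := by
    have h1 : derivedSeries Q 2 = ⊥ := by
      rw [derivedSeries_succ, derivedSeries_one, eq_bot_iff, Subgroup.commutator_le]
      intro x hx y hy
      rw [Subgroup.mem_bot, commutatorElement_eq_one_iff_mul_comm]
      exact hQab x hx y hy
    have h2 := map_derivedSeries_eq (f := QuotientGroup.mk' ⁅P, P⁆)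
      (QuotientGroup.mk'_surjective _) 2
    rw [h1, Subgroup.map_eq_bot_iff, QuotientGroup.ker_mk'] at h2
    exact h2
  rw [derivedSeries_succ, eq_bot_iff, Subgroup.commutator_le]
  intro x hx y hy
  rw [Subgroup.mem_bot, commutatorElement_eq_one_iff_mul_comm]
  exact hP'ab x (hle hx) y (hle hy)

theorem derivedSeries_three_aux : ∀ (n : ℕ) (G : Type u) [Group G] [Finite G], Nat.card G = n →
    ∀ a b : ℕ, DegIn a b G → Group.IsSolvable G → derivedSeries G 3 = ⊥ := by
  intro n
  induction n using Nat.strong_induction_on with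
  | _ n ih =>
  intro G _ _ hn a₀ b₀ h₀ hsol
  classical
  haveI := hsol
  haveI := Fintype.ofFinite G
  by_contra hne3
  haveI hnt : Nontrivial G := by
    by_contra hnt
    rw [not_nontrivial_iff_subsingleton] at hnt
    exact hne3 (Subgroup.eq_bot_of_subsingleton _)
  have hmin : ∀ N : Subgroup G, N.Normal → N ≠ ⊥ → derivedSeries G 3 ≤ N := by
    intro N hN hN1
    haveI := hN
    have hlt : Nat.card (G ⧸ N) < n := by
      rw [← hn, Subgroup.card_eq_card_quotient_mul_card_subgroup N]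
      exact lt_mul_of_one_lt_right Nat.card_pos
        (Finite.one_lt_card_iff_nontrivial.2 ((Subgroup.nontrivial_iff_ne_bot N).2 hN1))
    have h2 := map_derivedSeries_eq (f := QuotientGroup.mk' N) (QuotientGroup.mk'_surjective N) 3
    rw [ih _ hlt (G ⧸ N) rfl a₀ b₀ (h₀.quotient N) inferInstance, Subgroup.map_eq_bot_iff,
      QuotientGroup.ker_mk'] at h2
    exact h2
  -- two nonlinear degrees
  have h2deg : ¬ ∃ m, 2 ≤ m ∧ ∀ χ : IrrCharacter G,
      charDegree (χ : G → ℂ) = 1 ∨ charDegree (χ : G → ℂ) = m := by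
    rintro ⟨m, hm, hm'⟩
    have hab := TwoDegrees.commutator_comm m hm hm'
    apply hne3
    have h2 : derivedSeries G 2 = ⊥ := by
      rw [derivedSeries_succ, derivedSeries_one, eq_bot_iff, Subgroup.commutator_le]
      intro x hx y hy
      rw [Subgroup.mem_bot, commutatorElement_eq_one_iff_mul_comm]
      exact hab x hx y hy
    exact le_bot_iff.1 (h2 ▸ derivedSeries_antitone G (by norm_num))
  obtain ⟨a, b, ha, hab, h, hbex⟩ : ∃ a b, 1 < a ∧ a < b ∧ DegIn a b G ∧
      ∃ χ : IrrCharacter G, charDegree (χ : G → ℂ) = b := by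
    obtain ⟨χ₁, hχ₁⟩ : ∃ χ : IrrCharacter G, charDegree (χ : G → ℂ) ≠ 1 := by
      by_contra hno
      push Not at hno
      exact h2deg ⟨2, le_rfl, fun χ => Or.inl (hno χ)⟩
    have hpos := CfsgLib.Correspondences.charDegree_pos χ₁.2
    obtain ⟨χ₂, hχ₂, hne⟩ : ∃ χ : IrrCharacter G, charDegree (χ : G → ℂ) ≠ 1 ∧
        charDegree (χ : G → ℂ) ≠ charDegree (χ₁ : G → ℂ) := by
      by_contra hno
      push Not at hno
      exact h2deg ⟨_, by omega, fun χ => or_iff_not_imp_left.2 (hno χ)⟩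
    have hpos₂ := CfsgLib.Correspondences.charDegree_pos χ₂.2
    have h1 := (h₀ χ₁).resolve_left hχ₁
    have h2 := (h₀ χ₂).resolve_left hχ₂
    have h' : DegIn (charDegree (χ₁ : G → ℂ)) (charDegree (χ₂ : G → ℂ)) G := fun χ => by
      rcases h₀ χ with e | e | e
      · exact Or.inl e
      all_goals omega
    rcases lt_or_gt_of_ne hne with hlt | hlt
    · exact ⟨_, _, by omega, hlt, h'.symm, χ₁, rfl⟩
    · exact ⟨_, _, by omega, hlt, h', χ₂, rfl⟩
  -- the Fitting subgroup is a `p`-group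
  obtain ⟨p, hp, hP1⟩ : ∃ p : ℕ, p.Prime ∧ pCore p G ≠ ⊥ := by
    by_contra hno
    push Not at hno
    apply CfsgLib.Cores.fittingSubgroup_ne_bot (G := G)
    rw [CfsgLib.Cores.fittingSubgroup_eq_iSup_pCore, iSup_eq_bot]
    exact fun q => hno q (Nat.prime_of_mem_primeFactors q.2)
  haveI := Fact.mk hp
  set P := pCore p G with hPdef
  have hPn : P.Normal := inferInstance
  have hPp : IsPGroup p P := CfsgLib.Cores.isPGroup_pCore p G
  have hF : fittingSubgroup G = P := by
    refine le_antisymm ?_ (CfsgLib.Cores.pCore_le_fittingSubgroup p)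
    rw [CfsgLib.Cores.fittingSubgroup_eq_iSup_pCore, iSup_le_iff]
    intro q
    haveI := Fact.mk (Nat.prime_of_mem_primeFactors q.2)
    by_cases hqp : (q : ℕ) = p
    · rw [hqp]
    by_cases hq1 : pCore (q : ℕ) G = ⊥
    · rw [hq1]; exact bot_le
    exact absurd (le_bot_iff.1 ((le_inf (hmin _ inferInstance hq1) (hmin _ hPn hP1)).trans
      (CfsgLib.Cores.disjoint_pCore_of_ne hqp).le_bot)) hne3
  by_cases hall : ∀ χ : IrrCharacter G, charDegree (χ : G → ℂ) ≠ 1 → p ∣ charDegree (χ : G → ℂ)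
  · -- a `p`-group
    have hM := not_dvd_card_pResidual (G := G) (p := p) hall
    haveI := CfsgLib.Transfer.pResidual_normal (G := G) (p := p)
    have hM1 : pResidual p G = ⊥ := by
      by_contra hM1
      apply hne3
      have hle := hmin _ inferInstance hM1
      have hle' := hmin _ hPn hP1
      obtain ⟨k, hk⟩ := IsPGroup.iff_card.1 hPp
      refine Subgroup.eq_bot_of_card_eq _ (Nat.eq_one_of_dvd_coprimes
        (((hp.coprime_iff_not_dvd).2 hM).pow_left k) ?_ (Subgroup.card_dvd_of_le hle))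
      rw [← hk]
      exact Subgroup.card_dvd_of_le hle'
    have hGp : IsPGroup p G := (CfsgLib.Transfer.isPGroup_quotient_pResidual (p := p) (G := G)).of_equiv
      ((QuotientGroup.quotientMulEquivOfEq hM1).trans (QuotientGroup.quotientBot (G := G)))
    haveI := hGp.isNilpotent
    exact hne3 (derivedSeries_three_of_nilpotent ha hab h)
  push Not at hall
  -- degrees of `G / P`
  have hPtop : P ≠ ⊤ := by
    intro e
    obtain ⟨χ, hχ1, hχp⟩ := hall
    have hGp : IsPGroup p G := (e ▸ hPp : IsPGroup p (⊤ : Subgroup G)).of_equiv Subgroup.topEquiv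
    obtain ⟨k, hk⟩ := IsPGroup.iff_card.1 hGp
    obtain ⟨j, -, hj⟩ := (Nat.dvd_prime_pow hp).1
      (hk ▸ CfsgLib.Correspondences.charDegree_dvd_card χ.2)
    rcases Nat.eq_zero_or_pos j with e1 | e1
    · exact hχ1 (by rw [hj, e1, pow_zero])
    · exact hχp (hj ▸ dvd_pow_self p e1.ne')
  have hQdeg : ∀ χ : IrrCharacter (G ⧸ P),
      charDegree (χ : G ⧸ P → ℂ) = 1 ∨ charDegree (χ : G ⧸ P → ℂ) = a := by
    intro χ
    rcases h.quotient P χ with e | e | e
    · exact Or.inl e
    · exact Or.inr e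
    exfalso
    let χG : IrrCharacter G := ⟨_, isIrrCharacter_comp χ.2 (QuotientGroup.mk'_surjective P)⟩
    have hdχ : charDegree (χG : G → ℂ) = b := e
    obtain ⟨K, hKn, hK, -⟩ := exists_kernel (IsIrrCharacter.isCharacter χG.2)
    haveI := hKn
    have hFK : fittingSubgroup G ≤ K := by
      rw [hF]
      intro g hg
      rw [hK]
      show (χ : G ⧸ P → ℂ) (QuotientGroup.mk' P g) = (χ : G ⧸ P → ℂ) (QuotientGroup.mk' P 1)
      rw [QuotientGroup.mk'_apply, (QuotientGroup.eq_one_iff g).2 hg, map_one]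
    have hcond : ¬ K ≤ fittingSubgroup G ∨
        (K = fittingSubgroup G ∧ Group.IsSolvable (G ⧸ K) ∧ K ≠ ⊤) := by
      by_cases hle : K ≤ fittingSubgroup G
      · exact Or.inr ⟨le_antisymm hle hFK, inferInstance,
          fun e' => hPtop (hF ▸ top_le_iff.1 (e' ▸ hle))⟩
      · exact Or.inl hle
    obtain ⟨ψ, hψ, -⟩ := broline_garrison χG K hK hcond
    rcases h ψ with e1 | e1 | e1 <;> omega
  have hG2 : derivedSeries G 2 ≤ P := by
    have hab' := TwoDegrees.commutator_comm (G := G ⧸ P) a ha hQdeg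
    have h2 := map_derivedSeries_eq (f := QuotientGroup.mk' P) (QuotientGroup.mk'_surjective P) 2
    have h1 : derivedSeries (G ⧸ P) 2 = ⊥ := by
      rw [derivedSeries_succ, derivedSeries_one, eq_bot_iff, Subgroup.commutator_le]
      intro x hx y hy
      rw [Subgroup.mem_bot, commutatorElement_eq_one_iff_mul_comm]
      exact hab' x hx y hy
    rw [h1, Subgroup.map_eq_bot_iff, QuotientGroup.ker_mk'] at h2
    exact h2
  have hnab : ¬ ∀ x ∈ P, ∀ y ∈ P, x * y = y * x := by
    intro hcomm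
    apply hne3
    rw [derivedSeries_succ, eq_bot_iff, Subgroup.commutator_le]
    intro x hx y hy
    rw [Subgroup.mem_bot, commutatorElement_eq_one_iff_mul_comm]
    exact hcomm x (hG2 hx) y (hG2 hy)
  by_cases hidx : p ∣ P.index
  · exact false_of_dvd_index (p := p) ha h P hPp hnab
      (CfsgLib.Cores.pCore_quotient_pCore p G) hQdeg hall hidx
  -- `P` is a Sylow subgroup: one degree is divisible by `p`
  obtain ⟨c, d, hd, hcd, hpc, hpd⟩ : ∃ c d, 1 < d ∧ DegIn c d G ∧ p ∣ c ∧ ¬ p ∣ d := by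
    obtain ⟨χ, hχ1, hχp⟩ := hall
    haveI := Fintype.ofFinite P
    obtain ⟨θ, hθ⟩ : ∃ θ : IrrCharacter P, charDegree (θ : P → ℂ) ≠ 1 := by
      by_contra hno
      push Not at hno
      exact hnab fun x hx y hy => congrArg Subtype.val
        (comm_of_linear (G := P) (fun θ => by rw [charDegree_one, hno θ, Nat.cast_one]) ⟨x, hx⟩ ⟨y, hy⟩)
    have hθp : p ∣ charDegree (θ : P → ℂ) := by
      obtain ⟨k, hk⟩ := IsPGroup.iff_card.1 hPp
      obtain ⟨j, -, hj⟩ := (Nat.dvd_prime_pow hp).1
        (hk ▸ CfsgLib.Correspondences.charDegree_dvd_card θ.2)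
      rcases Nat.eq_zero_or_pos j with e | e
      · exact absurd (by rw [hj, e, pow_zero]) hθ
      · exact hj ▸ dvd_pow_self p e.ne'
    obtain ⟨χ', hχ'⟩ := exists_over P θ
    have hp' : p ∣ charDegree (χ' : G → ℂ) := hθp.trans (ItoSolvable.dvd_of_constituent P θ χ' hχ')
    rcases h χ with e | e | e
    · exact absurd e hχ1
    · refine ⟨b, a, ha, h.symm, ?_, e ▸ hχp⟩
      rcases h χ' with e' | e' | e'
      · exact absurd (e' ▸ hp') hp.not_dvd_one
      · exact absurd (e' ▸ hp') (e ▸ hχp)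
      · exact e' ▸ hp'
    · refine ⟨a, b, ha.trans hab, h, ?_, e ▸ hχp⟩
      rcases h χ' with e' | e' | e'
      · exact absurd (e' ▸ hp') hp.not_dvd_one
      · exact e' ▸ hp'
      · exact absurd (e' ▸ hp') (e ▸ hχp)
  exact hne3 (derivedSeries_le_commutator hd hcd hpc hpd P hPp hidx hG2)

/-- A finite group with at most three irreducible degrees has derived length at most three. -/
theorem derivedSeries_three {G : Type u} [Group G] [Finite G] {a b : ℕ} (h : DegIn a b G) :
    derivedSeries G 3 = ⊥ :=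
  derivedSeries_three_aux _ G rfl a b h (isSolvable_of_degIn h)

end CfsgLib.CharDegreesTheory.ThreeDegrees
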