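import Cfsg.Agent.Lib.CharDegreesTheory.TwoDegrees
import Cfsg.Agent.Lib.CharDegreesTheory.BrolineGarrison
import Cfsg.Agent.Lib.Correspondences.DetExtension
import Cfsg.Agent.Lib.Clifford.NonVanish
import Cfsg.Agent.Lib.Correspondences.Codegree
import Cfsg.Agent.S0168

/-!
# Groups with at most three irreducible degrees are solvable
-/

set_option autoImplicit false
set_option linter.style.haveILetI false
set_option linter.unusedSectionVars false

namespace CfsgLib.CharDegreesTheory.ThreeDegrees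

open Cfsg CfsgLib.CharTheory CfsgLib.Clifford CfsgLib.CharDegreesTheory.SmallDegrees Finset
open scoped ComplexConjugate commutatorElement

universe u

/-- Every degree is `1`, `a` or `b`. -/
def DegIn (a b : ℕ) (G : Type u) [Group G] : Prop :=
  ∀ χ : IrrCharacter G,
    charDegree (χ : G → ℂ) = 1 ∨ charDegree (χ : G → ℂ) = a ∨ charDegree (χ : G → ℂ) = b

variable {G : Type u} [Group G] [Finite G] {a b : ℕ}

theorem DegIn.symm (h : DegIn a b G) : DegIn b a G := fun χ => (h χ).imp_right Or.symm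

theorem DegIn.quotient (h : DegIn a b G) (K : Subgroup G) [K.Normal] : DegIn a b (G ⧸ K) :=
  fun θ => h ⟨_, isIrrCharacter_comp θ.2 (QuotientGroup.mk'_surjective K)⟩

/-- Moving a factor to the other side of the inner product. -/
theorem classInner_mul_move [Fintype G] (f g h : G → ℂ) :
    classInner (f * g) h = classInner g ((fun x => conj (f x)) * h) := by
  simp only [classInner, Pi.mul_apply, map_mul, Complex.conj_conj]
  congr 1
  exact Finset.sum_congr rfl fun x _ => by ring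

/-- A twist by a character of degree one is irreducible. -/
theorem isIrrCharacter_mul_linear {χ : G → ℂ} (hχ : IsIrrCharacter G χ) (l : IrrCharacter G)
    (hl : charDegree (l : G → ℂ) = 1) : IsIrrCharacter G ((l : G → ℂ) * χ) := by
  refine isIrrCharacter_mul_of_norm hχ (IsIrrCharacter.isCharacter l.2) fun g => ?_
  obtain ⟨μ, hμ⟩ := exists_hom_of_degree_one l.2 (by rw [charDegree_one, hl, Nat.cast_one])
  rw [hμ]
  refine norm_eq_one_of_pow_eq_one' (Nat.card_pos (α := G)).ne' ?_
  rw [← Units.val_pow_eq_pow_val, ← map_pow, pow_card_eq_one', map_one, Units.val_one]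

theorem apply_eq_one_of_linear (S : Subgroup G) (hperf : ⁅S, S⁆ = S) (l : IrrCharacter G)
    (hl : charDegree (l : G → ℂ) = 1) {s : G} (hs : s ∈ S) : (l : G → ℂ) s = 1 := by
  obtain ⟨μ, hμ⟩ := exists_hom_of_degree_one l.2 (by rw [charDegree_one, hl, Nat.cast_one])
  have hs' : s ∈ commutator G := by
    rw [commutator_def]
    exact Subgroup.commutator_mono le_top le_top (hperf.symm ▸ hs)
  rw [hμ]
  show (μ s : ℂ) = 1
  rw [MonoidHom.mem_ker.1 (Abelianization.commutator_subset_ker μ hs'), Units.val_one]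

theorem commutator_eq_top_of_perfect (S : Subgroup G) (hperf : ⁅S, S⁆ = S) :
    commutator S = ⊤ := by
  apply Subgroup.map_injective S.subtype_injective
  rw [Subgroup.map_subtype_commutator, hperf, ← MonoidHom.range_eq_map, Subgroup.range_subtype]

theorem apply_eq_one_of_linear_sub (S : Subgroup G) (hperf : ⁅S, S⁆ = S) (θ : IrrCharacter S)
    (hθ : charDegree (θ : S → ℂ) = 1) (s : S) : (θ : S → ℂ) s = 1 := by
  obtain ⟨μ, hμ⟩ := exists_hom_of_degree_one θ.2 (by rw [charDegree_one, hθ, Nat.cast_one])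
  rw [hμ]
  show (μ s : ℂ) = 1
  rw [MonoidHom.mem_ker.1 (Abelianization.commutator_subset_ker μ
    (by rw [commutator_eq_top_of_perfect S hperf]; exact Subgroup.mem_top s)), Units.val_one]

/-- A character of degree prime to `p` that is nontrivial on a perfect normal subgroup. -/
theorem exists_not_dvd_nontrivial [Fintype G] (S : Subgroup G) [S.Normal] (hperf : ⁅S, S⁆ = S)
    {p : ℕ} [hp : Fact p.Prime] (hdvd : p ∣ Nat.card S) :
    ∃ χ : IrrCharacter G, ¬ p ∣ charDegree (χ : G → ℂ) ∧ ∃ s ∈ S, (χ : G → ℂ) s ≠ (χ : G → ℂ) 1 := by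
  classical
  haveI := Fintype.ofFinite S
  haveI := Fintype.ofFinite (IrrCharacter S)
  obtain ⟨P⟩ : Nonempty (Sylow p G) := inferInstance
  letI act : MulAction P (IrrCharacter S) :=
    { smul := fun g θ => ⟨conjChar S (θ : S → ℂ) (g : G)⁻¹, isIrrCharacter_conjChar S θ.2 _⟩
      one_smul := fun θ => Subtype.ext (by
        show conjChar S (θ : S → ℂ) (((1 : P) : G))⁻¹ = θ
        rw [OneMemClass.coe_one, inv_one, conjChar_one])
      mul_smul := fun g h θ => Subtype.ext (by
        show conjChar S (θ : S → ℂ) (((g * h : P) : G))⁻¹ =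
          conjChar S (conjChar S (θ : S → ℂ) (h : G)⁻¹) (g : G)⁻¹
        rw [conjChar_conjChar, Subgroup.coe_mul, mul_inv_rev]) }
  have hdeg : ∀ (x : P) (θ : IrrCharacter S),
      charDegree ((x • θ : IrrCharacter S) : S → ℂ) = charDegree (θ : S → ℂ) := fun x θ => by
    unfold charDegree
    rw [show ((x • θ : IrrCharacter S) : S → ℂ) 1 = (θ : S → ℂ) 1 from conjChar_apply_one S _ _]
  -- a `P`-set with `|S|` points
  let X := {x : IrrCharacter S × (ℕ × ℕ) //
    x.2.1 < charDegree (x.1 : S → ℂ) ∧ x.2.2 < charDegree (x.1 : S → ℂ)}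
  letI actX : MulAction P X :=
    { smul := fun g x => ⟨(g • x.1.1, x.1.2), by rw [hdeg]; exact x.2⟩
      one_smul := fun x => Subtype.ext (Prod.ext (one_smul P x.1.1) rfl)
      mul_smul := fun g h x => Subtype.ext (Prod.ext (mul_smul g h x.1.1) rfl) }
  let e : X ≃ Σ θ : IrrCharacter S, Fin (charDegree (θ : S → ℂ)) × Fin (charDegree (θ : S → ℂ)) :=
    { toFun := fun x => ⟨x.1.1, ⟨x.1.2.1, x.2.1⟩, ⟨x.1.2.2, x.2.2⟩⟩
      invFun := fun y => ⟨(y.1, (y.2.1.1, y.2.2.1)), y.2.1.2, y.2.2.2⟩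
      left_inv := fun x => rfl
      right_inv := fun y => rfl }
  haveI : Finite X := Finite.of_equiv _ e.symm
  have hcard : Nat.card X = Nat.card S := by
    rw [Nat.card_congr e, Nat.card_sigma]
    simp only [Nat.card_prod, Nat.card_fin]
    have h := sum_degree_sq (G := S)
    simp only [charDegree_one] at h
    exact_mod_cast (by simpa [sq] using h : (∑ θ : IrrCharacter S,
      (charDegree (θ : S → ℂ) : ℂ) * (charDegree (θ : S → ℂ) : ℂ)) = (Nat.card S : ℂ))
  let F := univ.filter fun θ : IrrCharacter S => ∀ x : P, x • θ = θ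
  let eF : MulAction.fixedPoints P X ≃
      Σ θ : {θ : IrrCharacter S // θ ∈ F}, Fin (charDegree (θ.1 : S → ℂ)) × Fin (charDegree (θ.1 : S → ℂ)) :=
    { toFun := fun x => ⟨⟨x.1.1.1, mem_filter.2 ⟨mem_univ _, fun g =>
        congrArg (fun z : X => z.1.1) (x.2 g)⟩⟩, ⟨x.1.1.2.1, x.1.2.1⟩, ⟨x.1.1.2.2, x.1.2.2⟩⟩
      invFun := fun y => ⟨⟨(y.1.1, (y.2.1.1, y.2.2.1)), y.2.1.2, y.2.2.2⟩, fun g =>
        Subtype.ext (Prod.ext ((mem_filter.1 y.1.2).2 g) rfl)⟩
      left_inv := fun x => rfl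
      right_inv := fun y => rfl }
  have hF : p ∣ ∑ θ ∈ F, charDegree (θ : S → ℂ) * charDegree (θ : S → ℂ) := by
    have h := P.2.card_modEq_card_fixedPoints X
    rw [hcard, Nat.card_congr eF, Nat.card_sigma] at h
    simp only [Nat.card_prod, Nat.card_fin] at h
    rw [← Finset.sum_coe_sort F]
    exact Nat.modEq_zero_iff_dvd.1 (h.symm.trans (Nat.modEq_zero_iff_dvd.2 hdvd))
  have htriv : trivIrr S ∈ F := mem_filter.2 ⟨mem_univ _, fun x => Subtype.ext rfl⟩
  obtain ⟨θ, hθF, hθne, hθp⟩ : ∃ θ ∈ F, θ ≠ trivIrr S ∧ ¬ p ∣ charDegree (θ : S → ℂ) := by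
    by_contra hno
    push Not at hno
    rw [← Finset.add_sum_erase F _ htriv] at hF
    have h1 : charDegree (trivIrr S : S → ℂ) = 1 := by
      have h2 := charDegree_one (trivIrr S)
      rw [trivIrr_apply] at h2
      exact_mod_cast h2.symm
    rw [h1, one_mul] at hF
    exact hp.out.not_dvd_one ((Nat.dvd_add_left (Finset.dvd_sum fun θ hθ =>
      (hno θ (mem_of_mem_erase hθ) (ne_of_mem_erase hθ)).mul_left _)).1 hF)
  -- extend to `P ⊔ S`
  set H := (P : Subgroup G) ⊔ S
  have hSH : S ≤ H := le_sup_right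
  let e' : S.subgroupOf H ≃* S := Subgroup.subgroupOfEquivOfLe hSH
  have hinert : H ≤ CharTheory.inertia S (θ : S → ℂ) := by
    refine sup_le (fun x hx => ?_) (CharTheory.le_inertia S (IsIrrCharacter.isClassFunction θ.2))
    have h1 := congrArg Subtype.val ((mem_filter.1 hθF).2 ⟨x⁻¹, inv_mem hx⟩)
    change conjChar S (θ : S → ℂ) x⁻¹⁻¹ = θ at h1
    rwa [inv_inv] at h1
  have hidx : ∃ k, (S.subgroupOf H).index = p ^ k := by
    obtain ⟨k, hk⟩ := IsPGroup.iff_card.1 P.2
    have h : (S.subgroupOf H).index ∣ p ^ k := by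
      show S.relIndex H ∣ p ^ k
      rw [Subgroup.relIndex_sup_right, ← hk]
      exact Subgroup.relIndex_dvd_card _ _
    obtain ⟨j, -, hj⟩ := (Nat.dvd_prime_pow hp.out).1 h
    exact ⟨j, hj⟩
  obtain ⟨k, hk⟩ := hidx
  have hsub : ∀ f : S.subgroupOf H →* ℂˣ, f = 1 := fun f => MonoidHom.ext fun n => by
    have h1 : e' n ∈ (f.comp e'.symm.toMonoidHom).ker := Abelianization.commutator_subset_ker _
      (by rw [commutator_eq_top_of_perfect S hperf]; exact Subgroup.mem_top _)
    rw [MonoidHom.mem_ker, MonoidHom.comp_apply, MulEquiv.coe_toMonoidHom, e'.symm_apply_apply] at h1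
    rw [h1, MonoidHom.one_apply]
  haveI : Subsingleton (S.subgroupOf H →* ℂˣ) := ⟨fun f g => by rw [hsub f, hsub g]⟩
  have hd' : charDegree (fun n : S.subgroupOf H => (θ : S → ℂ) (e' n)) = charDegree (θ : S → ℂ) := by
    simp [charDegree]
  obtain ⟨η, hη, hηθ⟩ := CfsgLib.Correspondences.exists_extension_of_coprime_linear (S.subgroupOf H)
    (θ := fun n => (θ : S → ℂ) (e' n)) (isIrrCharacter_comp_mulEquiv θ.2 e') (fun h n => by
      have h1 := congrFun ((CharTheory.mem_inertia S _ _).1 (hinert h.2)) (e' n)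
      rw [conjChar_apply] at h1
      rw [← h1]
      refine congrArg (θ : S → ℂ) (Subtype.ext ?_)
      show (((MulAut.conjNormal h n : S.subgroupOf H) : H) : G) = _
      rw [MulAut.conjNormal_apply]
      rfl)
    (by
      rw [hd', Nat.card_of_subsingleton (1 : S.subgroupOf H →* ℂˣ), mul_one, hk]
      exact (((hp.out.coprime_iff_not_dvd).2 hθp).pow_left k).symm)
  have hη1 : η 1 = (charDegree (θ : S → ℂ) : ℂ) := by
    have h1 := hηθ 1
    rw [OneMemClass.coe_one, map_one, charDegree_one] at h1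
    exact h1
  haveI := Fintype.ofFinite (IrrCharacter G)
  haveI := Fintype.ofFinite H
  obtain ⟨m, hm⟩ := IsCharacter.exists_sum
    (CfsgLib.Frobenius.isCharacter_indFun H η (IsIrrCharacter.isCharacter hη))
  have h1 := congrFun hm 1
  rw [CfsgLib.Frobenius.indFun_one, hη1, Finset.sum_apply] at h1
  simp only [Pi.smul_apply, smul_eq_mul, charDegree_one] at h1
  have h2 : H.index * charDegree (θ : S → ℂ) = ∑ χ, m χ * charDegree (χ : G → ℂ) := by
    exact_mod_cast h1
  have h3 : ¬ p ∣ H.index * charDegree (θ : S → ℂ) := fun hd =>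
    ((Nat.Prime.dvd_mul hp.out).1 hd).elim
      (fun hh => P.not_dvd_index (hh.trans (Subgroup.index_dvd_of_le le_sup_left))) hθp
  obtain ⟨χ, hmχ, hχp⟩ : ∃ χ, m χ ≠ 0 ∧ ¬ p ∣ charDegree (χ : G → ℂ) := by
    by_contra hno
    push Not at hno
    refine h3 (h2 ▸ Finset.dvd_sum fun χ _ => ?_)
    by_cases h0 : m χ = 0
    · rw [h0, zero_mul]; exact dvd_zero p
    · exact (hno χ h0).mul_left _
  refine ⟨χ, hχp, ?_⟩
  by_contra hconst
  push Not at hconst
  apply hθne
  refine eq_trivIrr_of_const fun n => ?_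
  haveI := Fintype.ofFinite (IrrCharacter H)
  obtain ⟨k', hk'⟩ := IsCharacter.exists_sum
    (CfsgLib.Coherence.isCharacter_comp (IsIrrCharacter.isCharacter χ.2) H.subtype)
  have hkη : k' ⟨η, hη⟩ ≠ 0 := by
    intro h0
    apply hmχ
    have h4 : classInner (indFun H η) (χ : G → ℂ) = (m χ : ℂ) := by
      rw [hm]; exact classInner_sum_irr (fun φ => (m φ : ℂ)) χ
    rw [CfsgLib.Frobenius.classInner_indFun H η _ (IsIrrCharacter.isClassFunction χ.2),
      classInner_conj_symm] at h4
    have h5 : classInner (fun h : H => (χ : G → ℂ) h) η = (k' ⟨η, hη⟩ : ℂ) := by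
      show classInner (fun h : H => (χ : G → ℂ) (H.subtype h)) _ = _
      rw [hk']; exact classInner_sum_irr (fun φ => (k' φ : ℂ)) ⟨η, hη⟩
    rw [h5, h0, Nat.cast_zero, map_zero] at h4
    exact_mod_cast h4.symm
  have h6 := apply_eq_one_of_constituent k' hk' (g := (⟨n, hSH n.2⟩ : H)) (hconst n n.2) ⟨η, hη⟩ hkη
  have h7 := hηθ (⟨⟨n, hSH n.2⟩, n.2⟩ : S.subgroupOf H)
  change η ⟨n, hSH n.2⟩ = η 1 at h6
  rw [show e' (⟨⟨n, hSH n.2⟩, n.2⟩ : S.subgroupOf H) = n from rfl] at h7
  rw [← h7, h6, hη1, charDegree_one]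

/-- The sum of the degrees of the constituents, sorted by degree. -/
theorem exists_split [Fintype G] [Fintype (IrrCharacter G)] (h : DegIn a b G) (ha : 1 < a)
    (hab : a < b) (m : IrrCharacter G → ℕ) :
    ∃ x y z : ℕ, (∑ φ : IrrCharacter G, m φ * charDegree (φ : G → ℂ)) = x + y * a + z * b ∧
      (x = 0 ↔ ∀ φ : IrrCharacter G, charDegree (φ : G → ℂ) = 1 → m φ = 0) ∧
      (y = 0 ↔ ∀ φ : IrrCharacter G, charDegree (φ : G → ℂ) = a → m φ = 0) ∧
      (z = 0 ↔ ∀ φ : IrrCharacter G, charDegree (φ : G → ℂ) = b → m φ = 0) := by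
  classical
  refine ⟨∑ φ : IrrCharacter G, if charDegree (φ : G → ℂ) = 1 then m φ else 0,
    ∑ φ : IrrCharacter G, if charDegree (φ : G → ℂ) = a then m φ else 0,
    ∑ φ : IrrCharacter G, if charDegree (φ : G → ℂ) = b then m φ else 0, ?_, ?_, ?_, ?_⟩
  · rw [Finset.sum_mul, Finset.sum_mul, ← sum_add_distrib, ← sum_add_distrib]
    refine sum_congr rfl fun φ _ => ?_
    rcases h φ with e | e | e <;> rw [e] <;>
      simp [ha.ne, ha.ne', hab.ne, hab.ne', (ha.trans hab).ne, (ha.trans hab).ne']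
  all_goals simp only [Finset.sum_eq_zero_iff, mem_univ, forall_const, ite_eq_right_iff]

/-- The product of two characters of degree `a` has no constituent of degree `b` nontrivial on a
perfect normal subgroup. -/
theorem trivial_of_mul [Fintype G] (h : DegIn a b G) (ha : 1 < a) (hab : a < b)
    (hcop : Nat.Coprime a b) (S : Subgroup G) [S.Normal] (hperf : ⁅S, S⁆ = S)
    (χ ψ η : IrrCharacter G) (hχ : charDegree (χ : G → ℂ) = a) (hψ : charDegree (ψ : G → ℂ) = a)
    (hη : charDegree (η : G → ℂ) = b)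
    (hne : classInner ((χ : G → ℂ) * (ψ : G → ℂ)) (η : G → ℂ) ≠ 0) :
    ∀ s ∈ S, (η : G → ℂ) s = (η : G → ℂ) 1 := by
  classical
  haveI := Fintype.ofFinite (IrrCharacter G)
  let χc : IrrCharacter G := ⟨_, isIrrCharacter_conj χ.2⟩
  have hχc : charDegree (χc : G → ℂ) = a := by
    have h1 : (χc : G → ℂ) 1 = (a : ℂ) := by
      show conj ((χ : G → ℂ) 1) = _
      rw [charDegree_one, hχ, Complex.conj_natCast]
    rw [charDegree_one] at h1
    exact_mod_cast h1
  obtain ⟨m, hm⟩ := IsCharacter.exists_sum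
    (isCharacter_mul (IsIrrCharacter.isCharacter χc.2) (IsIrrCharacter.isCharacter η.2))
  have hinner : ∀ φ : IrrCharacter G,
      classInner ((χc : G → ℂ) * (η : G → ℂ)) (φ : G → ℂ) = (m φ : ℂ) := fun φ => by
    rw [hm]; exact classInner_sum_irr (fun ξ => (m ξ : ℂ)) φ
  have hmψ : m ψ ≠ 0 := fun h0 => hne (by
    rw [classInner_mul_move, classInner_conj_symm]
    show conj (classInner ((χc : G → ℂ) * (η : G → ℂ)) (ψ : G → ℂ)) = 0
    rw [hinner, h0, Nat.cast_zero, map_zero])
  have hlin : ∀ φ : IrrCharacter G, charDegree (φ : G → ℂ) = 1 → m φ = 0 := by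
    intro l hl
    by_contra h0
    have h1 : classInner (η : G → ℂ) ((l : G → ℂ) * (χ : G → ℂ)) ≠ 0 := by
      have h2 := hinner l
      rw [classInner_mul_move] at h2
      simp only [χc, Complex.conj_conj] at h2
      rw [mul_comm, h2]
      exact_mod_cast h0
    have h2 : (η : G → ℂ) = (l : G → ℂ) * (χ : G → ℂ) := by
      by_contra hne2
      exact h1 (classInner_eq_zero_of_ne η.2 (isIrrCharacter_mul_linear χ.2 l hl) hne2)
    have h3 := congrFun h2 1
    rw [Pi.mul_apply, charDegree_one, charDegree_one, charDegree_one, hη, hl, hχ, Nat.cast_one,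
      one_mul, Nat.cast_inj] at h3
    omega
  obtain ⟨x, y, z, hsum, hx, hy, hz⟩ := exists_split h ha hab m
  have htot : ∑ φ : IrrCharacter G, m φ * charDegree (φ : G → ℂ) = a * b := by
    have h1 := congrFun hm 1
    simp only [Pi.mul_apply, Finset.sum_apply, Pi.smul_apply, smul_eq_mul, charDegree_one, hχc,
      hη] at h1
    exact_mod_cast h1.symm
  rw [htot, hx.2 hlin, zero_add] at hsum
  have hy0 : y ≠ 0 := fun h0 => hmψ (hy.1 h0 ψ hψ)
  have hby : b ∣ y := by
    refine hcop.symm.dvd_of_dvd_mul_right ((Nat.dvd_add_left (dvd_mul_left b z)).1 ?_)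
    exact hsum ▸ dvd_mul_left b a
  have hz0 : z = 0 := by
    have h1 := Nat.le_of_dvd (Nat.pos_of_ne_zero hy0) hby
    have h2 : b * a ≤ y * a := Nat.mul_le_mul_right a h1
    have h3 : z * b = 0 := by nlinarith
    exact (Nat.mul_eq_zero.1 h3).resolve_right (by omega)
  -- every constituent is a twist of the conjugate
  have htwist : ∀ φ : IrrCharacter G, m φ ≠ 0 →
      ∀ s ∈ S, (φ : G → ℂ) s = (χc : G → ℂ) s := by
    intro φ hφ
    have hφa : charDegree (φ : G → ℂ) = a :=
      ((h φ).resolve_left fun e => hφ (hlin φ e)).resolve_right fun e => hφ (hz.1 hz0 φ e)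
    obtain ⟨m', hm'⟩ := IsCharacter.exists_sum
      (isCharacter_mul (IsIrrCharacter.isCharacter χ.2) (IsIrrCharacter.isCharacter φ.2))
    have hinner' : ∀ ξ : IrrCharacter G,
        classInner ((χ : G → ℂ) * (φ : G → ℂ)) (ξ : G → ℂ) = (m' ξ : ℂ) := fun ξ => by
      rw [hm']; exact classInner_sum_irr (fun w => (m' w : ℂ)) ξ
    have hm'η : m' η ≠ 0 := by
      intro h0
      have h1 := hinner' η
      rw [classInner_mul_move, classInner_conj_symm, h0, Nat.cast_zero] at h1
      have h2 : classInner ((χc : G → ℂ) * (η : G → ℂ)) (φ : G → ℂ) = 0 := by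
        show classInner ((fun x => conj ((χ : G → ℂ) x)) * (η : G → ℂ)) _ = 0
        rw [← Complex.conj_conj (classInner _ _), h1, map_zero]
      rw [hinner] at h2
      exact hφ (by exact_mod_cast h2)
    obtain ⟨x', y', z', hsum', hx', -, hz'⟩ := exists_split h ha hab m'
    have htot' : ∑ ξ : IrrCharacter G, m' ξ * charDegree (ξ : G → ℂ) = a * a := by
      have h1 := congrFun hm' 1
      simp only [Pi.mul_apply, Finset.sum_apply, Pi.smul_apply, smul_eq_mul, charDegree_one, hχ,
        hφa] at h1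
      exact_mod_cast h1.symm
    have hx'0 : x' ≠ 0 := by
      intro h0
      rw [htot', h0, zero_add] at hsum'
      have hz'0 : z' ≠ 0 := fun e => hm'η (hz'.1 e η hη)
      have haz : a ∣ z' := by
        refine hcop.dvd_of_dvd_mul_right ((Nat.dvd_add_right (dvd_mul_left a y')).1 ?_)
        exact hsum' ▸ dvd_mul_left a a
      have h1 := Nat.le_of_dvd (Nat.pos_of_ne_zero hz'0) haz
      have h2 : a * b ≤ z' * b := Nat.mul_le_mul_right b h1
      nlinarith
    obtain ⟨l, hl, hml⟩ : ∃ l : IrrCharacter G, charDegree (l : G → ℂ) = 1 ∧ m' l ≠ 0 := by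
      by_contra hno
      push Not at hno
      exact hx'0 (hx'.2 hno)
    have h1 : classInner (φ : G → ℂ) ((l : G → ℂ) * (χc : G → ℂ)) ≠ 0 := by
      have h2 := hinner' l
      rw [classInner_mul_move] at h2
      rw [mul_comm (l : G → ℂ)]
      show classInner (φ : G → ℂ) ((fun x => conj ((χ : G → ℂ) x)) * (l : G → ℂ)) ≠ 0
      rw [h2]
      exact_mod_cast hml
    have h3 : (φ : G → ℂ) = (l : G → ℂ) * (χc : G → ℂ) := by
      by_contra hne3
      exact h1 (classInner_eq_zero_of_ne φ.2 (isIrrCharacter_mul_linear χc.2 l hl) hne3)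
    intro s hs
    rw [h3, Pi.mul_apply, apply_eq_one_of_linear S hperf l hl hs, one_mul]
  have hM : ((∑ φ, m φ : ℕ) : ℂ) = (b : ℂ) := by
    have h1 := congrFun hm 1
    simp only [Pi.mul_apply, Finset.sum_apply, Pi.smul_apply, smul_eq_mul] at h1
    rw [Finset.sum_congr rfl (g := fun φ => (m φ : ℂ) * (χc : G → ℂ) 1) (fun φ _ => by
      by_cases h0 : m φ = 0
      · simp [h0]
      · rw [htwist φ h0 1 S.one_mem]), ← Finset.sum_mul, charDegree_one η, hη, mul_comm] at h1
    push_cast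
    exact (mul_right_cancel₀ (apply_one_ne_zero_of_isIrr χc.2) h1).symm
  have hvan : ∀ s ∈ S, (η : G → ℂ) s ≠ (η : G → ℂ) 1 → (χ : G → ℂ) s = 0 := by
    intro s hs hne'
    have h1 := congrFun hm s
    simp only [Pi.mul_apply, Finset.sum_apply, Pi.smul_apply, smul_eq_mul] at h1
    rw [Finset.sum_congr rfl (g := fun φ => (m φ : ℂ) * (χc : G → ℂ) s) (fun φ _ => by
      by_cases h0 : m φ = 0
      · simp [h0]
      · rw [htwist φ h0 s hs]), ← Finset.sum_mul, ← Nat.cast_sum, hM] at h1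
    have h2 : (χc : G → ℂ) s * ((η : G → ℂ) s - (b : ℂ)) = 0 := by
      linear_combination h1
    rcases mul_eq_zero.1 h2 with h3 | h3
    · exact (map_eq_zero (starRingEnd ℂ)).1 h3
    · exact absurd (by rw [charDegree_one η, hη]; exact sub_eq_zero.1 h3) hne'
  -- the constituents on `S` are linear
  haveI := Fintype.ofFinite S
  haveI := Fintype.ofFinite (IrrCharacter S)
  have hRes : IsCharacter S (fun x : S => (η : G → ℂ) x) :=
    CfsgLib.Coherence.isCharacter_comp (IsIrrCharacter.isCharacter η.2) S.subtype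
  obtain ⟨k, hk⟩ := IsCharacter.exists_sum hRes
  let L := CfsgLib.Correspondences.charKer hRes
  haveI : L.Normal := CfsgLib.Correspondences.charKer_normal hRes
  have hρ1 : ∀ ρ : IrrCharacter S, k ρ ≠ 0 → charDegree (ρ : S → ℂ) = 1 := by
    intro ρ hρ
    by_contra hne1
    obtain ⟨q, hq, hqρ⟩ := Nat.exists_prime_and_dvd hne1
    haveI := Fact.mk hq
    obtain ⟨ρ', hρ', hρρ'⟩ := exists_descend ρ.2 L
      fun g hg => apply_eq_one_of_constituent k hk hg ρ hρ
    have hqL : q ∣ L.index := by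
      have h1 : charDegree (ρ : S → ℂ) = charDegree ρ' := by
        unfold charDegree
        rw [hρρ' 1]
        rfl
      exact hqρ.trans (h1 ▸ CfsgLib.Correspondences.charDegree_dvd_card hρ')
    obtain ⟨Q⟩ : Nonempty (Sylow q S) := inferInstance
    obtain ⟨g, hgQ, hgL⟩ := SetLike.not_le_iff_exists.1 fun hle : (Q : Subgroup S) ≤ L =>
      Q.not_dvd_index (hqL.trans (Subgroup.index_dvd_of_le hle))
    obtain ⟨j, hj⟩ := Q.2 ⟨g, hgQ⟩
    have hgj : (g : G) ^ q ^ j = 1 := by
      have := congrArg (fun z : (Q : Subgroup S) => ((z : S) : G)) hj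
      simpa using this
    have hqa : q ∣ a := by
      by_contra hqa
      exact apply_ne_zero_of_pow_prime_pow (IsIrrCharacter.isCharacter χ.2) hq hgj
        (charDegree_one χ) (by rwa [hχ]) (hvan g g.2 hgL)
    have hkρ : classInner (fun x : S => (η : G → ℂ) x) (ρ : S → ℂ) ≠ 0 := by
      rw [hk, classInner_sum_irr (fun w => (k w : ℂ)) ρ]
      exact_mod_cast hρ
    have hqb : q ∣ b := hqρ.trans (hη ▸ ItoSolvable.dvd_of_constituent S ρ η hkρ)
    exact hq.not_dvd_one (hcop ▸ Nat.dvd_gcd hqa hqb)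
  intro s hs
  have h1 := congrFun hk ⟨s, hs⟩
  have h2 := congrFun hk 1
  simp only [Finset.sum_apply, Pi.smul_apply, smul_eq_mul, OneMemClass.coe_one] at h1 h2
  rw [h1, h2]
  refine sum_congr rfl fun ρ _ => ?_
  by_cases h0 : k ρ = 0
  · simp [h0]
  · rw [apply_eq_one_of_linear_sub S hperf ρ (hρ1 ρ h0),
      apply_eq_one_of_linear_sub S hperf ρ (hρ1 ρ h0)]

/-- A product with a character trivial on the perfect subgroup. -/
theorem not_constituent_of_trivial [Fintype G] (hcop : Nat.Coprime a b) (S : Subgroup G) [S.Normal]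
    (hperf : ⁅S, S⁆ = S) (χ ψ η : IrrCharacter G) (hχ : charDegree (χ : G → ℂ) = a)
    (hη : charDegree (η : G → ℂ) = b) (hns : ∃ s ∈ S, (χ : G → ℂ) s ≠ (χ : G → ℂ) 1)
    (hψ : ∀ s ∈ S, (ψ : G → ℂ) s = (ψ : G → ℂ) 1) :
    classInner ((χ : G → ℂ) * (ψ : G → ℂ)) (η : G → ℂ) = 0 := by
  classical
  by_contra hne
  haveI := Fintype.ofFinite (IrrCharacter G)
  haveI := Fintype.ofFinite S
  obtain ⟨θ, hθ⟩ := CfsgLib.CharTheory.exists_constituent S (IsIrrCharacter.isCharacter η.2)
    (apply_one_ne_zero_of_isIrr η.2)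
  obtain ⟨m, hm⟩ := IsCharacter.exists_sum
    (isCharacter_mul (IsIrrCharacter.isCharacter χ.2) (IsIrrCharacter.isCharacter ψ.2))
  have hmη : m η ≠ 0 := fun h0 => hne (by
    rw [hm, classInner_sum_irr (fun w => (m w : ℂ)) η, h0, Nat.cast_zero])
  have hk : ∀ φ : IrrCharacter G, ∃ k : ℕ, classInner (fun x : S => (φ : G → ℂ) x) (θ : S → ℂ) = k :=
    fun φ => IsCharacter.exists_classInner_eq_nat (G := S)
      (CfsgLib.Coherence.isCharacter_comp (IsIrrCharacter.isCharacter φ.2) S.subtype) θ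
  choose k hk using hk
  have hres : (fun x : S => (((χ : G → ℂ) * (ψ : G → ℂ)) : G → ℂ) x) =
      (ψ : G → ℂ) 1 • fun x : S => (χ : G → ℂ) x := funext fun x => by
    simp [hψ x x.2, mul_comm]
  have hsum : (fun x : S => (((χ : G → ℂ) * (ψ : G → ℂ)) : G → ℂ) x) =
      ∑ φ, (m φ : ℂ) • fun x : S => (φ : G → ℂ) x := funext fun x => by
    rw [hm]; simp [Finset.sum_apply]
  have hχθ : classInner (fun x : S => (χ : G → ℂ) x) (θ : S → ℂ) ≠ 0 := by
    intro h0
    have h1 := congrArg (fun f => classInner f (θ : S → ℂ)) (hres.symm.trans hsum)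
    simp only [classInner_smul_left, classInner_sum_left, h0, mul_zero, hk] at h1
    have h2 : ∑ φ, m φ * k φ = 0 := by exact_mod_cast h1.symm
    have h3 := Finset.sum_eq_zero_iff.1 h2 η (mem_univ _)
    rcases Nat.mul_eq_zero.1 h3 with e | e
    · exact hmη e
    · exact hθ (by rw [hk η, e, Nat.cast_zero])
  have hθ1 : charDegree (θ : S → ℂ) = 1 := Nat.eq_one_of_dvd_coprimes hcop
    (hχ ▸ ItoSolvable.dvd_of_constituent S θ χ hχθ) (hη ▸ ItoSolvable.dvd_of_constituent S θ η hθ)
  obtain ⟨s, hs, hsne⟩ := hns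
  apply hsne
  have h := res_eq S χ.2 θ.2 hχθ
  have hsum' : ∀ x : S, (∑ ξ ∈ conjOrbit S (θ : S → ℂ), ξ) x = ((conjOrbit S (θ : S → ℂ)).card : ℂ) := by
    intro x
    rw [Finset.sum_apply, Finset.sum_congr rfl (g := fun _ => (1 : ℂ)) fun ξ hξ => ?_, sum_const,
      nsmul_eq_mul, mul_one]
    obtain ⟨g, rfl⟩ := (mem_conjOrbit S).1 hξ
    rw [conjChar_apply, apply_eq_one_of_linear_sub S hperf θ hθ1]
  have h1 := congrFun h ⟨s, hs⟩
  have h2 := congrFun h 1
  simp only [Pi.smul_apply, smul_eq_mul, hsum', OneMemClass.coe_one] at h1 h2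
  rw [h1, h2]

theorem isSolvable_of_degIn_aux : ∀ (n : ℕ) (G : Type u) [Group G] [Finite G], Nat.card G = n →
    ∀ a b : ℕ, DegIn a b G → Group.IsSolvable G := by
  intro n
  induction n using Nat.strong_induction_on with
  | _ n ih =>
  intro G _ _ hn a₀ b₀ h₀
  classical
  haveI := Fintype.ofFinite G
  by_contra hnsol
  -- no prime divides every nonlinear degree
  have hall : ∀ p : ℕ, p.Prime → ∃ χ : IrrCharacter G,
      charDegree (χ : G → ℂ) ≠ 1 ∧ ¬ p ∣ charDegree (χ : G → ℂ) := by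
    intro p hp
    by_contra hno
    push Not at hno
    haveI := Fact.mk hp
    haveI := CfsgLib.Transfer.pResidual_normal (G := G) (p := p)
    have hM := not_dvd_card_pResidual (G := G) (p := p) hno
    set M := Cfsg.pResidual p G
    by_cases hMtop : M = ⊤
    · have hlin : ∀ χ : IrrCharacter G, (χ : G → ℂ) 1 = 1 := fun χ => by
        rw [charDegree_one]
        by_cases h1 : charDegree (χ : G → ℂ) = 1
        · rw [h1, Nat.cast_one]
        · exact absurd ((hno χ h1).trans (CfsgLib.Correspondences.charDegree_dvd_card χ.2))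
            (by rwa [hMtop, Subgroup.card_top] at hM)
      exact hnsol (Group.isSolvable_of_comm (comm_of_linear hlin))
    obtain ⟨k, hk⟩ := CfsgLib.Transfer.index_pResidual_eq_pow (G := G) (p := p)
    haveI := Fintype.ofFinite M
    have hMsol : Group.IsSolvable M := by
      refine ih _ (hn ▸ lt_of_le_of_ne (Subgroup.card_le_card_group M)
        fun e => hMtop (Subgroup.eq_top_of_card_eq M e)) M rfl (ordCompl[p] a₀) (ordCompl[p] b₀)
        fun θ => ?_
      obtain ⟨χ, hχ⟩ := exists_over M θ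
      obtain ⟨r, hr, hr1⟩ := CfsgLib.RealChar.degree_div_dvd_index M χ.2 θ.2 hχ
      rw [charDegree_one, charDegree_one] at hr1
      have hr' : charDegree (χ : G → ℂ) = r * charDegree (θ : M → ℂ) := by exact_mod_cast hr1
      obtain ⟨j, -, rfl⟩ := (Nat.dvd_prime_pow hp).1 (hk ▸ hr : r ∣ p ^ k)
      have hθp : ¬ p ∣ charDegree (θ : M → ℂ) := fun hd =>
        hM (hd.trans (CfsgLib.Correspondences.charDegree_dvd_card θ.2))
      have heq : charDegree (θ : M → ℂ) = ordCompl[p] (charDegree (χ : G → ℂ)) := by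
        rw [hr', Nat.ordCompl_mul, Nat.ordCompl_self_pow hp, one_mul,
          (Nat.ordCompl_eq_self_iff_zero_or_not_dvd _ hp).2 (Or.inr hθp)]
      rw [heq]
      rcases h₀ χ with e | e | e <;> rw [e]
      · exact Or.inl (by simp)
      · exact Or.inr (Or.inl rfl)
      · exact Or.inr (Or.inr rfl)
    haveI := (CfsgLib.Transfer.isPGroup_quotient_pResidual (p := p) (G := G)).isNilpotent
    haveI := hMsol
    haveI : Group.IsSolvable (G ⧸ M) := inferInstance
    exact hnsol (Group.isSolvable_of_ker_le_range M.subtype (QuotientGroup.mk' M)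
      (by rw [QuotientGroup.ker_mk', Subgroup.range_subtype]))
  -- two coprime degrees
  obtain ⟨a, b, ha, hab, hcop, h⟩ : ∃ a b, 1 < a ∧ a < b ∧ Nat.Coprime a b ∧ DegIn a b G := by
    obtain ⟨χ₁, hχ₁, -⟩ := hall 2 Nat.prime_two
    obtain ⟨p, hp, hpd⟩ := Nat.exists_prime_and_dvd hχ₁
    obtain ⟨χ₂, hχ₂, hnp⟩ := hall p hp
    set d₁ := charDegree (χ₁ : G → ℂ)
    set d₂ := charDegree (χ₂ : G → ℂ)
    have hne : d₁ ≠ d₂ := fun e => hnp (e ▸ hpd)
    have hd₁ := ((h₀ χ₁).resolve_left hχ₁)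
    have hd₂ := ((h₀ χ₂).resolve_left hχ₂)
    have h' : DegIn d₁ d₂ G := fun χ => by
      rcases h₀ χ with e | e | e
      · exact Or.inl e
      all_goals omega
    have hpos₁ : 1 < d₁ := by have := CfsgLib.Correspondences.charDegree_pos χ₁.2; omega
    have hpos₂ : 1 < d₂ := by have := CfsgLib.Correspondences.charDegree_pos χ₂.2; omega
    have hcop : Nat.Coprime d₁ d₂ := Nat.coprime_of_dvd fun q hq hq1 hq2 => by
      obtain ⟨χ, hχ, hnq⟩ := hall q hq
      rcases h' χ with e | e | e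
      · exact hχ e
      · exact hnq (e ▸ hq1)
      · exact hnq (e ▸ hq2)
    rcases lt_or_gt_of_ne hne with hlt | hlt
    · exact ⟨d₁, d₂, hpos₁, hlt, hcop, h'⟩
    · exact ⟨d₂, d₁, hpos₂, hlt, hcop.symm, h'.symm⟩
  -- the perfect core
  obtain ⟨k, hk⟩ : ∃ k, ∀ m, k ≤ m → derivedSeries G k = derivedSeries G m := by
    have hex : ∃ c, ∃ i, Nat.card (derivedSeries G i) = c := ⟨_, 0, rfl⟩
    obtain ⟨k, hk⟩ := Nat.find_spec hex
    exact ⟨k, fun m hm => (Subgroup.eq_of_le_of_card_ge (derivedSeries_antitone G hm)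
      (hk ▸ Nat.find_min' hex ⟨m, rfl⟩)).symm⟩
  set S := derivedSeries G k with hS
  haveI : S.Normal := derivedSeries_normal G k
  have hperf : ⁅S, S⁆ = S := by
    rw [hS, ← derivedSeries_succ]
    exact (hk (k + 1) (Nat.le_succ k)).symm
  have hS1 : S ≠ ⊥ := fun e => hnsol ⟨⟨k, e⟩⟩
  have hSle : ∀ N : Subgroup G, N.Normal → N ≠ ⊥ → S ≤ N := by
    intro N hN hN1
    haveI := hN
    have hlt : Nat.card (G ⧸ N) < n := by
      rw [← hn, Subgroup.card_eq_card_quotient_mul_card_subgroup N]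
      exact lt_mul_of_one_lt_right Nat.card_pos
        (Finite.one_lt_card_iff_nontrivial.2 ((Subgroup.nontrivial_iff_ne_bot N).2 hN1))
    obtain ⟨m, hm⟩ := (ih _ hlt (G ⧸ N) rfl a b (h.quotient N)).solvable
    have h1 := map_derivedSeries_eq (f := QuotientGroup.mk' N) (QuotientGroup.mk'_surjective N) m
    rw [hm, Subgroup.map_eq_bot_iff, QuotientGroup.ker_mk'] at h1
    rw [hk (max k m) (le_max_left _ _)]
    exact (derivedSeries_antitone G (le_max_right k m)).trans h1
  haveI := Fintype.ofFinite S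
  -- both degrees occur outside `S`
  have hocc : ∀ d d', (∀ χ : IrrCharacter G, charDegree (χ : G → ℂ) ≠ 1 →
      charDegree (χ : G → ℂ) = d ∨ charDegree (χ : G → ℂ) = d') →
      ∃ χ : IrrCharacter G, charDegree (χ : G → ℂ) = d ∧ ∃ s ∈ S, (χ : G → ℂ) s ≠ (χ : G → ℂ) 1 := by
    intro d d' hd
    have hnl : ∀ χ : IrrCharacter G, (∃ s ∈ S, (χ : G → ℂ) s ≠ (χ : G → ℂ) 1) →
        charDegree (χ : G → ℂ) ≠ 1 := fun χ ⟨s, hs, hsne⟩ e => hsne (by
      rw [apply_eq_one_of_linear S hperf χ e hs, apply_eq_one_of_linear S hperf χ e S.one_mem])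
    by_contra hno
    obtain ⟨x, hx, hx1⟩ := (Subgroup.bot_or_exists_ne_one S).resolve_left hS1
    obtain ⟨χ, hχ⟩ := exists_irr_apply_ne hx1
    haveI := Fintype.ofFinite (IrrCharacter S)
    obtain ⟨c, hc⟩ := IsCharacter.exists_sum
      (CfsgLib.Coherence.isCharacter_comp (IsIrrCharacter.isCharacter χ.2) S.subtype)
    obtain ⟨θ, hθ, hθ1⟩ : ∃ θ : IrrCharacter S, c θ ≠ 0 ∧ charDegree (θ : S → ℂ) ≠ 1 := by
      by_contra hcon
      push Not at hcon
      apply hχ
      have h1 := congrFun hc ⟨x, hx⟩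
      have h2 := congrFun hc 1
      simp only [Finset.sum_apply, Pi.smul_apply, smul_eq_mul, Subgroup.subtype_apply,
        OneMemClass.coe_one] at h1 h2
      rw [h1, h2]
      refine sum_congr rfl fun θ _ => ?_
      by_cases h0 : c θ = 0
      · simp [h0]
      · rw [apply_eq_one_of_linear_sub S hperf θ (hcon θ h0),
          apply_eq_one_of_linear_sub S hperf θ (hcon θ h0)]
    obtain ⟨p, hp, hpθ⟩ := Nat.exists_prime_and_dvd hθ1
    haveI := Fact.mk hp
    obtain ⟨χ', hχ'p, hχ'S⟩ := exists_not_dvd_nontrivial S hperf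
      (hpθ.trans (CfsgLib.Correspondences.charDegree_dvd_card θ.2))
    have hχd : charDegree (χ : G → ℂ) = d' :=
      (hd χ (hnl χ ⟨x, hx, hχ⟩)).resolve_left fun e => hno ⟨χ, e, x, hx, hχ⟩
    have hχ'd : charDegree (χ' : G → ℂ) = d' :=
      (hd χ' (hnl χ' hχ'S)).resolve_left fun e => hno ⟨χ', e, hχ'S⟩
    refine hχ'p (hχ'd ▸ hχd ▸ hpθ.trans (ItoSolvable.dvd_of_constituent S θ χ ?_))
    show classInner (fun s : S => (χ : G → ℂ) (S.subtype s)) _ ≠ 0
    rw [hc, classInner_sum_irr (fun w => (c w : ℂ)) θ]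
    exact_mod_cast hθ
  obtain ⟨χ, hχ, hχS⟩ := hocc a b fun χ hχ1 => (h χ).resolve_left hχ1
  obtain ⟨η₀, hη₀, hη₀S⟩ := hocc b a fun χ hχ1 => ((h χ).resolve_left hχ1).symm
  -- closure
  haveI := Fintype.ofFinite (IrrCharacter G)
  have hclosed : ∀ (i : ℕ) (η : IrrCharacter G), charDegree (η : G → ℂ) = b →
      (∃ s ∈ S, (η : G → ℂ) s ≠ (η : G → ℂ) 1) →
      classInner (fun g => (χ : G → ℂ) g ^ i) (η : G → ℂ) = 0 := by
    have hchar : ∀ i : ℕ, IsCharacter G (fun g => (χ : G → ℂ) g ^ i) := by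
      intro i
      induction i with
      | zero =>
        simp only [pow_zero]
        exact IsIrrCharacter.isCharacter isIrrCharacter_one
      | succ i hi =>
        simp only [pow_succ]
        exact isCharacter_mul hi (IsIrrCharacter.isCharacter χ.2)
    intro i
    induction i with
    | zero =>
      intro η hη _
      simp only [pow_zero]
      refine classInner_eq_zero_of_ne isIrrCharacter_one η.2 fun e => ?_
      have h1 := congrFun e 1
      rw [charDegree_one, hη] at h1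
      have h2 : b = 1 := by exact_mod_cast h1.symm
      omega
    | succ i hi =>
      intro η hη hηS
      obtain ⟨m, hm⟩ := IsCharacter.exists_sum (hchar i)
      have h1 : (fun g => (χ : G → ℂ) g ^ (i + 1)) =
          ∑ φ, (m φ : ℂ) • ((χ : G → ℂ) * (φ : G → ℂ)) := funext fun g => by
        have h2 := congrFun hm g
        simp only [Finset.sum_apply, Pi.smul_apply, smul_eq_mul, Pi.mul_apply] at h2 ⊢
        rw [pow_succ', h2, mul_sum]
        exact sum_congr rfl fun φ _ => by ring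
      rw [h1, classInner_sum_left]
      refine sum_eq_zero fun φ _ => ?_
      rw [classInner_smul_left]
      by_cases hm0 : m φ = 0
      · simp [hm0]
      by_contra hne
      have hne' := (mul_ne_zero_iff.1 hne).2
      rcases h φ with e | e | e
      · have h3 : (χ : G → ℂ) * (φ : G → ℂ) = (η : G → ℂ) := by
          by_contra hne3
          rw [mul_comm] at hne' hne3
          exact hne' (classInner_eq_zero_of_ne (isIrrCharacter_mul_linear χ.2 φ e) η.2 hne3)
        have h4 := congrFun h3 1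
        rw [Pi.mul_apply, charDegree_one, charDegree_one, charDegree_one, hχ, e, hη, Nat.cast_one,
          mul_one, Nat.cast_inj] at h4
        omega
      · obtain ⟨s, hs, hsne⟩ := hηS
        exact hsne (trivial_of_mul h ha hab hcop S hperf χ φ η hχ e hη hne' s hs)
      · by_cases hφS : ∃ s ∈ S, (φ : G → ℂ) s ≠ (φ : G → ℂ) 1
        · have h5 := hi φ e hφS
          rw [hm, classInner_sum_irr (fun w => (m w : ℂ)) φ] at h5
          exact hm0 (by exact_mod_cast h5)
        · push Not at hφS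
          exact hne' (not_constituent_of_trivial hcop S hperf χ φ η hχ hη hχS hφS)
  -- Burnside--Brauer
  obtain ⟨d, ρ, hρ, hρχ⟩ := χ.2
  have hker : ∀ g : G, (χ : G → ℂ) g = (χ : G → ℂ) 1 → g = 1 := by
    intro g hg
    by_contra hg1
    have hc := IsIrrCharacter.isCharacter χ.2
    obtain ⟨s, hs, hsne⟩ := hχS
    exact hsne (hSle _ (CfsgLib.Correspondences.charKer_normal hc)
      (fun e => hg1 (Subgroup.mem_bot.1 (e ▸ (hg : g ∈ CfsgLib.Correspondences.charKer hc)))) hs)
  have hinj : Function.Injective ρ := by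
    intro g g' hgg
    refine inv_mul_eq_one.1 (hker (g⁻¹ * g') ?_)
    rw [← hρχ]
    have h1 : ρ (g⁻¹ * g') = ρ 1 := by rw [map_mul, ← hgg, ← map_mul, inv_mul_cancel]
    simp only [Representation.character, h1]
  obtain ⟨i, -, hi⟩ := Cfsg.Agent.S0168.result ρ hinj (η₀ : G → ℂ) η₀.2
  rw [hρχ] at hi
  exact hi (hclosed i η₀ hη₀ hη₀S)

/-- A finite group with at most three irreducible degrees is solvable. -/
theorem isSolvable_of_degIn {a b : ℕ} {G : Type u} [Group G] [Finite G] (h : DegIn a b G) :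
    Group.IsSolvable G :=
  isSolvable_of_degIn_aux _ G rfl a b h

end CfsgLib.CharDegreesTheory.ThreeDegrees
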