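import Cfsg.Agent.Lib.CharDegreesTheory.ResidualSum
import Cfsg.Agent.Lib.CharDegreesTheory.ItoSolvable
import Cfsg.Agent.Lib.CharTheory.Monomial

/-!
# Groups with two irreducible degrees have an abelian derived subgroup
-/

set_option autoImplicit false
set_option linter.style.haveILetI false
set_option linter.unusedSectionVars false

namespace CfsgLib.CharDegreesTheory.TwoDegrees

open Cfsg CfsgLib.CharTheory CfsgLib.Clifford CfsgLib.CharDegreesTheory.SmallDegrees Finset
open scoped commutatorElement

universe u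

variable {G : Type u} [Group G]

/-- Inflation commutes with induction. -/
theorem indFun_comp_mk [Fintype G] (K : Subgroup G) [K.Normal] [Fintype (G ⧸ K)]
    (H : Subgroup (G ⧸ K)) (θ : H → ℂ) (g : G) :
    indFun (H.comap (QuotientGroup.mk' K)) (fun x => θ ((QuotientGroup.mk' K).subgroupComap H x)) g
      = indFun H θ (g : G ⧸ K) := by
  classical
  haveI := Fintype.ofFinite K
  have hext : ∀ y : G, extendByZero (H.comap (QuotientGroup.mk' K))
      (fun x => θ ((QuotientGroup.mk' K).subgroupComap H x)) y = extendByZero H θ (y : G ⧸ K) := by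
    intro y
    by_cases hy : (y : G ⧸ K) ∈ H
    · rw [CfsgLib.Frobenius.extendByZero_of_mem H _ hy,
        CfsgLib.Frobenius.extendByZero_of_mem (H.comap (QuotientGroup.mk' K)) _ (g := y) hy]
      rfl
    · rw [CfsgLib.Frobenius.extendByZero_of_not_mem H _ hy,
        CfsgLib.Frobenius.extendByZero_of_not_mem (H.comap (QuotientGroup.mk' K)) _ (g := y) hy]
  have hcard : Nat.card (H.comap (QuotientGroup.mk' K)) = Nat.card K * Nat.card H := by
    have h1 := (H.comap (QuotientGroup.mk' K)).card_mul_index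
    rw [Subgroup.index_comap_of_surjective _ (QuotientGroup.mk'_surjective K),
      Subgroup.card_eq_card_quotient_mul_card_subgroup K, ← H.card_mul_index] at h1
    have h3 : 0 < H.index := Nat.pos_of_ne_zero Subgroup.index_ne_zero_of_finite
    nlinarith
  simp only [indFun, hext, QuotientGroup.mk_mul, QuotientGroup.mk_inv]
  rw [← Fintype.sum_equiv Subgroup.groupEquivQuotientProdSubgroup.symm
    (fun z : (G ⧸ K) × K => extendByZero H θ (z.1⁻¹ * (g : G ⧸ K) * z.1)) _ (fun z => ?_),
    Fintype.sum_prod_type]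
  · simp only [sum_const, card_univ, nsmul_eq_mul, ← mul_sum, ← Nat.card_eq_fintype_card, hcard,
      Nat.cast_mul, mul_inv]
    have : (Nat.card K : ℂ) ≠ 0 := Nat.cast_ne_zero.2 Nat.card_pos.ne'
    field_simp
  · have : ((Subgroup.groupEquivQuotientProdSubgroup.symm z : G) : G ⧸ K) = z.1 :=
      congrArg Prod.fst (Subgroup.groupEquivQuotientProdSubgroup.apply_symm_apply z)
    rw [this]

/-- Abelian-by-nilpotent groups are M-groups. -/
theorem exists_ind_of_abelian_by_nilpotent [Fintype G] (N : Subgroup G) [N.Normal]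
    (hab : ∀ a ∈ N, ∀ b ∈ N, a * b = b * a) [Group.IsNilpotent (G ⧸ N)] {χ : G → ℂ}
    (hχ : IsIrrCharacter G χ) :
    ∃ (H : Subgroup G) (l : H →* ℂˣ), χ = indFun H (fun h => (l h : ℂ)) := by
  induction hcard : Nat.card G using Nat.strong_induction_on generalizing G with
  | _ n ih =>
    subst hcard
    classical
    haveI := Fintype.ofFinite N
    obtain ⟨θ, hθ⟩ := CfsgLib.CharTheory.exists_constituent N (IsIrrCharacter.isCharacter hχ) (apply_one_ne_zero_of_isIrr hχ)
    have hNT := le_inertia N (IsIrrCharacter.isClassFunction θ.2)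
    set T := inertia N (θ : N → ℂ) with hT
    by_cases hTtop : T = ⊤
    · -- `N` is central modulo the kernel
      have hθ1 : (θ : N → ℂ) 1 = 1 :=
        apply_one_eq_one_of_comm (fun a b => Subtype.ext (hab a a.2 b b.2)) θ.2
      obtain ⟨μ, hμ⟩ := exists_hom_of_degree_one θ.2 hθ1
      have hinv : ∀ g : G, conjChar N (θ : N → ℂ) g = θ := fun g =>
        (mem_inertia N (θ : N → ℂ) g).1 (by rw [← hT, hTtop]; exact Subgroup.mem_top g)
      have hres := res_eq_of_invariant N hχ θ.2 hinv hθ
      have h1 : ∀ n : N, χ n = classInner (fun x : N => χ x) (θ : N → ℂ) * (θ : N → ℂ) n :=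
        fun n => congrFun hres n
      obtain ⟨K, hKn, hK, -⟩ := exists_kernel (IsIrrCharacter.isCharacter hχ)
      haveI := hKn
      have hcomm : ∀ g : G, ∀ x ∈ N, g * x * g⁻¹ * x⁻¹ ∈ K := by
        intro g x hx
        have hy : g * x * g⁻¹ ∈ N := ‹N.Normal›.conj_mem x hx g
        have hθx : (θ : N → ℂ) ⟨g * x * g⁻¹, hy⟩ = (θ : N → ℂ) ⟨x, hx⟩ := congrFun (hinv g) ⟨x, hx⟩
        have hμe : μ ⟨g * x * g⁻¹, hy⟩ = μ ⟨x, hx⟩ := by
          rw [hμ] at hθx
          exact Units.ext hθx
        rw [hK]
        have e1 := h1 (⟨g * x * g⁻¹, hy⟩ * ⟨x, hx⟩⁻¹)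
        have e2 := h1 1
        rw [Subgroup.coe_one, hθ1] at e2
        rw [hμ] at e1
        simp only [map_mul, map_inv, hμe, mul_inv_cancel, Units.val_one] at e1
        rw [e2, hμ]
        exact e1
      obtain ⟨ψ, hψ, hψχ⟩ := exists_descend hχ K fun g hg => (hK g).1 hg
      haveI : Group.IsNilpotent (G ⧸ K) := by
        haveI : Group.IsNilpotent (G ⧸ (N ⊔ K)) := Group.nilpotent_of_surjective
          (QuotientGroup.map N (N ⊔ K) (MonoidHom.id G) le_sup_left) (by
            intro q
            obtain ⟨x, rfl⟩ := QuotientGroup.mk_surjective q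
            exact ⟨(x : G ⧸ N), rfl⟩)
        refine Subgroup.isNilpotent_of_ker_le_center
          (QuotientGroup.map K (N ⊔ K) (MonoidHom.id G) le_sup_right) ?_
        intro q hq
        obtain ⟨x, rfl⟩ := QuotientGroup.mk_surjective q
        have hx : x ∈ N ⊔ K := (QuotientGroup.eq_one_iff x).1 hq
        obtain ⟨n, hn, k, hk, rfl⟩ := Subgroup.mem_sup_of_normal_right.1 hx
        rw [Subgroup.mem_center_iff]
        intro r
        obtain ⟨y, rfl⟩ := QuotientGroup.mk_surjective r
        rw [QuotientGroup.mk_mul_of_mem n hk, ← mul_inv_eq_one, ← QuotientGroup.mk_mul,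
          ← QuotientGroup.mk_mul, ← QuotientGroup.mk_inv, ← QuotientGroup.mk_mul,
          QuotientGroup.eq_one_iff]
        simpa [mul_assoc] using hcomm y n hn
      haveI := Fintype.ofFinite (G ⧸ K)
      obtain ⟨H, l, hl⟩ := exists_ind_of_nilpotent hψ
      refine ⟨H.comap (QuotientGroup.mk' K), l.comp ((QuotientGroup.mk' K).subgroupComap H),
        funext fun g => ?_⟩
      rw [hψχ g, hl]
      exact (indFun_comp_mk K H (fun h => (l h : ℂ)) g).symm
    · letI : Fintype T := Fintype.ofFinite T
      obtain ⟨ψ, hψ, hind, -⟩ := exists_indFun_inertia_eq θ.2 (mem_inertia N (θ : N → ℂ)) hNT hχ hθ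
      have hlt : Nat.card T < Nat.card G := lt_of_le_of_ne (Subgroup.card_le_card_group T)
        fun e => hTtop (Subgroup.eq_top_of_card_eq T e)
      haveI : Group.IsNilpotent (T ⧸ N.subgroupOf T) := by
        refine Subgroup.isNilpotent_of_ker_le_center
          (QuotientGroup.map (N.subgroupOf T) N T.subtype le_rfl) ?_
        intro q hq
        obtain ⟨x, rfl⟩ := QuotientGroup.mk_surjective q
        have hx : (x : G) ∈ N := (QuotientGroup.eq_one_iff (x : G)).1 hq
        rw [(QuotientGroup.eq_one_iff x).2 hx]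
        exact Subgroup.one_mem _
      obtain ⟨H, l, hl⟩ := ih _ hlt (N.subgroupOf T)
        (fun a ha b hb => Subtype.ext (hab a ha b hb)) hψ rfl
      refine ⟨H.map T.subtype,
        l.comp (H.equivMapOfInjective T.subtype T.subtype_injective).symm.toMonoidHom, ?_⟩
      rw [← hind, hl, CfsgLib.Brauer.indFun_indFun_map]
      rfl

/-- If all nontrivial constituents of the permutation character on the cosets of `H` are linear,
the derived subgroup lies in `H`. -/
theorem commutator_le_of_small [Finite G] (H : Subgroup G) (hH : H ≠ ⊤)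
    (h : ∀ ψ : IrrCharacter G, charDegree (ψ : G → ℂ) < H.index → (ψ : G → ℂ) 1 = 1) :
    commutator G ≤ H := by
  classical
  haveI := Fintype.ofFinite G
  haveI := Fintype.ofFinite (IrrCharacter G)
  have hπ : IsCharacter G (indFun H fun _ => (1 : ℂ)) :=
    CfsgLib.Frobenius.isCharacter_indFun H _ (IsIrrCharacter.isCharacter isIrrCharacter_one)
  obtain ⟨m, hm⟩ := IsCharacter.exists_sum hπ
  have htriv : m (trivIrr G) = 1 := by
    have e : classInner (indFun H fun _ => (1 : ℂ)) (trivIrr G : G → ℂ) = (m (trivIrr G) : ℂ) := by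
      rw [hm]; exact classInner_sum_irr _ _
    rw [CfsgLib.Frobenius.classInner_indFun H _ _ (IsIrrCharacter.isClassFunction (trivIrr G).2),
      show (fun h : H => (trivIrr G : G → ℂ) h) = fun _ : H => (1 : ℂ) from rfl,
      classInner_self_of_isIrr isIrrCharacter_one] at e
    exact_mod_cast e.symm
  have hsum : H.index = ∑ ψ : IrrCharacter G, m ψ * charDegree (ψ : G → ℂ) := by
    have := congrFun hm 1
    simp only [CfsgLib.Frobenius.indFun_one, mul_one, Finset.sum_apply, Pi.smul_apply, smul_eq_mul,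
      charDegree_one] at this
    exact_mod_cast this
  have hidx : 1 < H.index := Subgroup.one_lt_index_of_ne_top hH
  have hlin : ∀ ψ, m ψ ≠ 0 → (ψ : G → ℂ) 1 = 1 := by
    intro ψ hψ
    by_cases hψt : ψ = trivIrr G
    · subst hψt; rfl
    refine h ψ ?_
    have h2 : ∑ φ ∈ ({trivIrr G, ψ} : Finset (IrrCharacter G)), m φ * charDegree (φ : G → ℂ)
        ≤ H.index := hsum ▸ sum_le_univ_sum_of_nonneg (fun _ => Nat.zero_le _)
    rw [sum_pair (Ne.symm hψt), htriv, one_mul] at h2
    have h3 : charDegree (trivIrr G : G → ℂ) = 1 := by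
      have e := charDegree_one (trivIrr G)
      rw [trivIrr_apply] at e
      exact_mod_cast e.symm
    have h4 : charDegree (ψ : G → ℂ) ≤ m ψ * charDegree (ψ : G → ℂ) :=
      Nat.le_mul_of_pos_left _ (Nat.pos_of_ne_zero hψ)
    omega
  rw [commutator_def, Subgroup.commutator_le]
  intro a _ b _
  have hy1 : indFun H (fun _ => (1 : ℂ)) ⁅a, b⁆ = indFun H (fun _ => (1 : ℂ)) 1 := by
    rw [hm]
    simp only [Finset.sum_apply, Pi.smul_apply, smul_eq_mul]
    refine sum_congr rfl fun ψ _ => ?_
    by_cases hψ : m ψ = 0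
    · simp [hψ]
    · rw [commutatorElement_def, CfsgLib.RealChar.commutator_kernel_of_degree_one ψ.2 (hlin ψ hψ)]
  by_contra hyH
  rw [indFun, indFun] at hy1
  have hy2 := mul_left_cancel₀ (inv_ne_zero (Nat.cast_ne_zero.2 Nat.card_pos.ne')) hy1
  have hre := congrArg Complex.re hy2
  rw [Complex.re_sum, Complex.re_sum] at hre
  refine hre.not_lt (sum_lt_sum (fun x _ => ?_) ⟨1, mem_univ _, ?_⟩)
  · rw [CfsgLib.Frobenius.extendByZero_of_mem H _ (g := x⁻¹ * 1 * x) (by simp [H.one_mem])]
    by_cases hx : x⁻¹ * ⁅a, b⁆ * x ∈ H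
    · rw [CfsgLib.Frobenius.extendByZero_of_mem H _ hx]
    · rw [CfsgLib.Frobenius.extendByZero_of_not_mem H _ hx]; simp
  · rw [CfsgLib.Frobenius.extendByZero_of_mem H _ (g := (1 : G)⁻¹ * 1 * 1) (by simp [H.one_mem]),
      CfsgLib.Frobenius.extendByZero_of_not_mem H _ (by simpa using hyH)]
    simp

/-- A character induced from a linear character of `H ≥ G'` is trivial on `G''`. -/
theorem apply_eq_of_mem_second [Fintype G] {H : Subgroup G} (hH : commutator G ≤ H) (l : H →* ℂˣ)
    {g : G} (hg : g ∈ ⁅commutator G, commutator G⁆) :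
    indFun H (fun h => (l h : ℂ)) g = indFun H (fun h => (l h : ℂ)) 1 := by
  classical
  have hle2 : ⁅commutator G, commutator G⁆ ≤ l.ker.map H.subtype := by
    rw [Subgroup.commutator_le]
    intro x hx y hy
    refine ⟨⁅(⟨x, hH hx⟩ : H), ⟨y, hH hy⟩⁆, MonoidHom.mem_ker.2 ?_, rfl⟩
    rw [map_commutatorElement, commutatorElement_eq_one_iff_mul_comm]
    exact mul_comm _ _
  have hker : ∀ y ∈ ⁅commutator G, commutator G⁆, extendByZero H (fun h => (l h : ℂ)) y = 1 := by
    intro y hy
    obtain ⟨k, hk, rfl⟩ := hle2 hy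
    rw [show H.subtype k = (k : G) from rfl, CfsgLib.Frobenius.extendByZero_coe,
      MonoidHom.mem_ker.1 hk, Units.val_one]
  rw [indFun, indFun]
  refine congrArg _ (sum_congr rfl fun x _ => ?_)
  rw [hker _ (by simpa using (inferInstance : ⁅commutator G, commutator G⁆.Normal).conj_mem g hg x⁻¹),
    hker _ (by simpa using Subgroup.one_mem _)]

/-- A group with degrees `1` and `m` has an abelian normal subgroup with nilpotent quotient. -/
theorem exists_abelian_nilpotent_quotient [Finite G] (m : ℕ) (hm : 2 ≤ m)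
    (hcd : ∀ χ : IrrCharacter G, charDegree (χ : G → ℂ) = 1 ∨ charDegree (χ : G → ℂ) = m) :
    ∃ N : Subgroup G, ∃ _ : N.Normal, (∀ a ∈ N, ∀ b ∈ N, a * b = b * a) ∧
      Group.IsNilpotent (G ⧸ N) := by
  classical
  let R : m.primeFactors → Subgroup G := fun q => pResidual (q : ℕ) G
  haveI hR : ∀ q, (R q).Normal := fun q => CfsgLib.Transfer.pResidual_normal
  set N : Subgroup G := ⨅ q, R q with hN
  haveI : N.Normal := Subgroup.normal_iInf_normal hR
  haveI : ∀ q, Group.IsNilpotent (G ⧸ R q) := fun q => by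
    haveI := Fact.mk (Nat.prime_of_mem_primeFactors q.2)
    exact (CfsgLib.Transfer.isPGroup_quotient_pResidual (p := (q : ℕ)) (G := G)).isNilpotent
  refine ⟨N, inferInstance, ?_, ?_⟩
  · haveI := Fintype.ofFinite N
    have hlin : ∀ θ : IrrCharacter N, (θ : N → ℂ) 1 = 1 := by
      intro θ
      obtain ⟨χ, hχ⟩ := exists_over N θ
      have h1 := ItoSolvable.dvd_of_constituent N θ χ hχ
      have h2 := (CfsgLib.BrauerCharacters.charDegree_spec θ).2.2
      have hd : charDegree (θ : N → ℂ) = 1 := by
        by_contra hne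
        obtain ⟨q, hq, hqd⟩ := Nat.exists_prime_and_dvd hne
        haveI := Fact.mk hq
        rcases hcd χ with e | e
        · rw [e] at h1
          exact hq.not_dvd_one (hqd.trans h1)
        · rw [e] at h1
          have hqm : q ∈ m.primeFactors :=
            Nat.mem_primeFactors.2 ⟨hq, hqd.trans h1, by omega⟩
          refine not_dvd_card_pResidual (G := G) (p := q) (fun ψ hψ => ?_)
            ((hqd.trans h2).trans (Subgroup.card_dvd_of_le (iInf_le R ⟨q, hqm⟩)))
          rcases hcd ψ with e' | e'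
          · exact absurd e' hψ
          · exact e' ▸ hqd.trans h1
      rw [charDegree_one, hd, Nat.cast_one]
    intro a ha b hb
    exact congrArg Subtype.val (comm_of_linear hlin ⟨a, ha⟩ ⟨b, hb⟩)
  · refine Subgroup.isNilpotent_of_ker_le_center
      (QuotientGroup.lift N (MonoidHom.pi fun q => QuotientGroup.mk' (R q)) ?_) ?_
    · intro x hx
      rw [MonoidHom.mem_ker]
      exact funext fun q => (QuotientGroup.eq_one_iff x).2 (Subgroup.mem_iInf.1 hx q)
    · intro a ha
      obtain ⟨x, rfl⟩ := QuotientGroup.mk_surjective a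
      rw [MonoidHom.mem_ker] at ha
      have hx : x ∈ N := Subgroup.mem_iInf.2 fun q =>
        (QuotientGroup.eq_one_iff x).1 (congrFun ha q)
      rw [(QuotientGroup.eq_one_iff x).2 hx]
      exact Subgroup.one_mem _

/-- Two degrees give an abelian derived subgroup. -/
theorem commutator_comm [Finite G] (m : ℕ) (hm : 2 ≤ m)
    (hcd : ∀ χ : IrrCharacter G, charDegree (χ : G → ℂ) = 1 ∨ charDegree (χ : G → ℂ) = m) :
    ∀ a ∈ commutator G, ∀ b ∈ commutator G, a * b = b * a := by
  classical
  haveI := Fintype.ofFinite G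
  obtain ⟨N, hNn, hab, hnil⟩ := exists_abelian_nilpotent_quotient m hm hcd
  intro a ha b hb
  by_contra hne
  obtain ⟨χ, hχ⟩ := exists_irr_apply_ne (g := a * b * a⁻¹ * b⁻¹) fun e => hne (by
    rwa [mul_inv_eq_one, mul_inv_eq_iff_eq_mul] at e)
  apply hχ
  rcases hcd χ with e | e
  · exact CfsgLib.RealChar.commutator_kernel_of_degree_one χ.2
      (by rw [charDegree_one, e, Nat.cast_one]) a b
  · obtain ⟨H, l, hl⟩ := exists_ind_of_abelian_by_nilpotent N hab χ.2
    have hidx : H.index = m := by
      have := CfsgLib.Frobenius.indFun_one H (fun h => (l h : ℂ))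
      rw [← hl, charDegree_one, e, map_one, Units.val_one, mul_one] at this
      exact_mod_cast this.symm
    have hH : commutator G ≤ H := by
      refine commutator_le_of_small H (fun e' => ?_) fun ψ hψ => ?_
      · rw [e', Subgroup.index_top] at hidx
        omega
      · rw [charDegree_one, (hcd ψ).resolve_right (by omega), Nat.cast_one]
    rw [hl]
    have := apply_eq_of_mem_second hH l (g := ⁅a, b⁆)
      (Subgroup.commutator_mem_commutator ha hb)
    rw [commutatorElement_def] at this
    convert this using 2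

end CfsgLib.CharDegreesTheory.TwoDegrees
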